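import Mathlib

/-! McLaughlin's theorem on groups generated by transvection subgroups: the irreducible constituents. -/

set_option autoImplicit false
open Module Submodule

namespace Cfsg.Agent.H29.Mc

variable {F V : Type*} [Field F] [AddCommGroup V] [Module F V] {H : Subgroup (V ≃ₗ[F] V)} {f g k φ ψ χ : Dual F V}
  {u v w x y l : V} {M N W : Submodule F V}

/-- the root subgroup of `(f, v)` lies in `H` -/
def Rt (H : Subgroup (V ≃ₗ[F] V)) (f : Dual F V) (v : V) : Prop :=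
  f v = 0 ∧ ∀ c : F, ∃ t ∈ H, ∀ x, t x = x + (c * f x) • v
def Gs (H : Subgroup (V ≃ₗ[F] V)) (W : Submodule F V) : Set (V ≃ₗ[F] V) :=
  {t | ∃ f v, Rt H f v ∧ v ∈ W ∧ ∀ x, t x = x + f x • v}
def Iv (H : Subgroup (V ≃ₗ[F] V)) (N : Submodule F V) : Prop := ∀ h ∈ H, ∀ x ∈ N, h x ∈ N

theorem Rt.smul (h : Rt H f v) (a b : F) : Rt H (a • f) (b • v) :=
  ⟨by simp [h.1], fun c => let ⟨t, ht, e⟩ := h.2 (c * a * b); ⟨t, ht, fun x => by rw [e]; simp [smul_smul]; ring_nf⟩⟩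
theorem Rt.smulL (h : Rt H f v) (a : F) : Rt H (a • f) v := by simpa using h.smul a 1
theorem Rt.smulR (h : Rt H f v) (a : F) : Rt H f (a • v) := by simpa using h.smul 1 a
theorem Rt.ofL {a : F} (h : Rt H (a • f) v) (ha : a ≠ 0) : Rt H f v := by simpa [ha] using h.smulL a⁻¹
theorem Rt.ofR {a : F} (h : Rt H f (a • v)) (ha : a ≠ 0) : Rt H f v := by simpa [ha] using h.smulR a⁻¹
theorem rt0 (f : Dual F V) : Rt H f 0 := ⟨map_zero f, fun _ => ⟨1, one_mem _, by simp⟩⟩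
theorem rt0' (v : V) : Rt H 0 v := ⟨rfl, fun _ => ⟨1, one_mem _, by simp⟩⟩

theorem Rt.addL (h : Rt H f v) (h' : Rt H g v) : Rt H (f + g) v :=
  ⟨by simp [h.1, h'.1], fun c => let ⟨t, ht, e⟩ := h.2 c; let ⟨s, hs, e'⟩ := h'.2 c
    ⟨t * s, mul_mem ht hs, fun x => by simp [e, e', h.1, mul_add, add_smul]; abel⟩⟩
theorem Rt.addR (h : Rt H f v) (h' : Rt H f w) : Rt H f (v + w) :=
  ⟨by simp [h.1, h'.1], fun c => let ⟨t, ht, e⟩ := h.2 c; let ⟨s, hs, e'⟩ := h'.2 c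
    ⟨t * s, mul_mem ht hs, fun x => by simp [e, e', h'.1]; abel⟩⟩

theorem Rt.conj (h : Rt H f v) {s : V ≃ₗ[F] V} (hs : s ∈ H) : Rt H (f ∘ₗ (s.symm : V →ₗ[F] V)) (s v) :=
  ⟨by simp [h.1], fun c => let ⟨t, ht, e⟩ := h.2 c
    ⟨s * t * s⁻¹, mul_mem (mul_mem hs ht) (inv_mem hs), fun x => by simp [e, LinearEquiv.coe_inv]⟩⟩

theorem Rt.move (h : Rt H f v) (h' : Rt H g w) (c : F) : Rt H (f - (c * f w) • g) (v + (c * g v) • w) := by
  obtain ⟨s, hs, e⟩ := h'.2 c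
  convert h.conj hs using 1
  · ext x
    have : s.symm x = x - (c * g x) • w := by rw [LinearEquiv.symm_apply_eq, e]; simp [h'.1]
    simp [this]; ring
  · exact (e v).symm

theorem Rt.cm (h : Rt H f v) (h' : Rt H g w) (h1 : f w = 0) (h2 : g v ≠ 0) : Rt H f w := by
  have := (h.move h' 1).addR (by simpa [h1] using h.smulR (-1))
  exact Rt.ofR (a := g v) (by simpa [h1] using this) h2

/-- the centres for `f` -/
def A (H : Subgroup (V ≃ₗ[F] V)) (f : Dual F V) : Submodule F V where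
  carrier := {v | Rt H f v}
  add_mem' := Rt.addR
  zero_mem' := rt0 f
  smul_mem' a _ h := Rt.smulR h a

theorem iv_closure {S : Set (V ≃ₗ[F] V)} (h : ∀ t ∈ S, ∀ x, x ∈ N ↔ t x ∈ N) {s : V ≃ₗ[F] V} (hs : s ∈ Subgroup.closure S) :
    ∀ x, x ∈ N ↔ s x ∈ N := by
  induction hs using Subgroup.closure_induction with
  | mem t ht => exact h t ht
  | one => simp
  | mul a b _ _ h1 h2 => exact fun x => (h2 x).trans (h1 _)
  | inv a _ h1 => exact fun x => by rw [h1 (a⁻¹ x)]; simp [LinearEquiv.coe_inv]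

structure Hy (H : Subgroup (V ≃ₗ[F] V)) : Prop where
  two : (2 : F) ≠ 0
  gen : H ≤ Subgroup.closure (Gs H ⊤)
  k3 : ∀ M W : Submodule F V, Iv H M → Iv H W → ∀ t ∈ H, (∀ x, t x - x ∈ W) → (∀ x ∈ W, t x - x ∈ M) → (∀ x ∈ M, t x = x) → t = 1

theorem Rt.ne (h : Rt H g w) (f0 : f ≠ 0) (c : F) : f - (c * f w) • g ≠ 0 := fun e => by
  have := congrArg (· w) e
  simp only [LinearMap.sub_apply, LinearMap.smul_apply, h.1, smul_zero, sub_zero, LinearMap.zero_apply] at this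
  exact f0 (by simpa [this] using e)

theorem Iv.mem (i : Iv H N) (r : Rt H f v) (hx : x ∈ N) (n : f x ≠ 0) : v ∈ N := by
  obtain ⟨t, ht, e⟩ := r.2 1
  have := sub_mem (i t ht x hx) hx
  rw [e, add_sub_cancel_left, one_mul] at this
  exact (smul_mem_iff _ n).1 this

theorem span_ne {S : Set V} (hx : x ∈ span F S) (n : f x ≠ 0) : ∃ u ∈ S, f u ≠ 0 := by
  by_contra! k
  exact n (span_le (p := LinearMap.ker f) |>.2 (fun u hu => k u hu) hx)

/-- quasi-irreducibility -/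
def Qi (H : Subgroup (V ≃ₗ[F] V)) (W : Submodule F V) : Prop :=
  Iv H W ∧ ∀ N, Iv H N → ∀ g w, Rt H g w → g ≠ 0 → w ≠ 0 → w ∈ W → w ∈ N → W ≤ N

namespace Hy
variable (h : Hy H)
include h

theorem iv (k : ∀ f v, Rt H f v → v ≠ 0 → ∀ x ∈ N, f x ≠ 0 → v ∈ N) : Iv H N := fun _ hs x => (iv_closure (by
  rintro t ⟨f, v, r, -, e⟩ x
  have m : ∀ x ∈ N, f x • v ∈ N := fun x hx => by
    by_cases c : f x = 0
    · simp [c]
    by_cases c' : v = 0
    · simp [c']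
    · exact smul_mem _ _ (k f v r c' x hx c)
  refine ⟨fun hx => e x ▸ add_mem hx (m x hx), fun hx => ?_⟩
  simpa [e, r.1] using sub_mem hx (m _ hx)) (h.gen hs) x).1

theorem ex (i : Iv H W) (r : Rt H f v) (hv : v ∈ W) (f0 : f ≠ 0) (v0 : v ≠ 0) : ∃ x ∈ W, f x ≠ 0 := by
  by_contra! k
  obtain ⟨t, ht, e⟩ := r.2 1
  have := h.k3 ⊥ W (fun _ _ _ hx => by simpa using hx) i t ht (fun x => by simp [e, smul_mem _ _ hv]) (fun x hx => by simp [e, k x hx])
    fun x hx => by simp [mem_bot F |>.1 hx]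
  exact f0 (LinearMap.ext fun x => by simpa [this, v0] using e x)

theorem qi (r : Rt H f v) (f0 : f ≠ 0) (v0 : v ≠ 0) : ∃ W, v ∈ W ∧ Qi H W := by
  let W := sInf {N | Iv H N ∧ v ∈ N}
  have i : Iv H W := fun s hs x hx => mem_sInf.2 fun N hN => hN.1 s hs x (mem_sInf.1 hx N hN)
  have hv : v ∈ W := mem_sInf.2 fun _ hN => hN.2
  refine ⟨W, hv, i, fun M iM g w rg g0 w0 hw hM => sInf_le ⟨iM, by_contra fun n => ?_⟩⟩
  have key : ∀ k u, Rt H k u → k ≠ 0 → u ∉ M → ∀ g w, Rt H g w → w ≠ 0 → g u ≠ 0 → w ∉ M := fun k u rk k0 hu g w rg w0 gu hw => by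
    have z : ∀ x ∈ M, k x = 0 := fun x hx => by_contra fun c => hu (iM.mem rk hx c)
    obtain ⟨x, hx, c⟩ := h.ex iM (rk.cm rg (z w hw) gu) hw k0 w0
    exact c (z x hx)
  have iN : Iv H (span F {u | u ∈ W ∧ u ∉ M ∧ ∃ k ≠ 0, Rt H k u}) := h.iv fun χ y ry y0 x hx c => by
    obtain ⟨u, ⟨u1, u2, k, k0, rk⟩, cu⟩ := span_ne hx c
    exact subset_span ⟨i.mem ry u1 cu, key k u rk k0 u2 χ y ry y0 cu, χ, by rintro rfl; exact c rfl, ry⟩
  obtain ⟨x, hx, c⟩ := h.ex i rg hw g0 w0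
  obtain ⟨u, ⟨-, u2, k, k0, rk⟩, cu⟩ := span_ne (sInf_le (s := {N | Iv H N ∧ v ∈ N}) ⟨iN, subset_span ⟨hv, n, f, f0, r⟩⟩ hx) c
  exact key k u rk k0 u2 g w rg w0 cu hM

/-- every root functional of `W` is non-zero on a centre -/
theorem ex' (q : Qi H W) (r : Rt H f v) (hv : v ∈ W) (f0 : f ≠ 0) (v0 : v ≠ 0) : ∃ k u, Rt H k u ∧ k ≠ 0 ∧ u ∈ W ∧ f u ≠ 0 := by
  have iN : Iv H (span F {u | u ∈ W ∧ ∃ k ≠ 0, Rt H k u}) := h.iv fun χ y ry y0 x hx c => by
    obtain ⟨u, ⟨u1, -⟩, cu⟩ := span_ne hx c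
    exact subset_span ⟨q.1.mem ry u1 cu, χ, by rintro rfl; exact c rfl, ry⟩
  obtain ⟨x, hx, c⟩ := h.ex q.1 r hv f0 v0
  obtain ⟨u, ⟨u1, k, k0, rk⟩, cu⟩ := span_ne (q.2 _ iN f v r f0 v0 hv (subset_span ⟨hv, f, f0, r⟩) hx) c
  exact ⟨k, u, rk, k0, u1, cu⟩

theorem opp (r : Rt H f v) (f0 : f ≠ 0) (v0 : v ≠ 0) : ∃ a k u, Rt H f a ∧ Rt H k u ∧ f u ≠ 0 ∧ k a ≠ 0 := by
  by_contra! n
  obtain ⟨x, hx, c⟩ := h.ex (W := A H f) (h.iv fun χ y ry _ x hx c => Rt.cm hx ry (by_contra fun e => c (n x χ y hx ry e)) c) r r f0 v0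
  exact c hx.1

end Hy

/-! ### the linear case -/

theorem ll0 {a b : F} {l : V} (r2 : Rt H ψ w) (n1 : φ w ≠ 0) (ha : a ≠ 0) (r : Rt H (a • φ + b • ψ) y) :
    y ∈ A H φ ⊔ span F {w} := by
  have := r.move r2 (b / (a * φ w))
  have e : a • φ + b • ψ - (b / (a * φ w) * (a • φ + b • ψ) w) • ψ = a • φ := by
    have : b / (a * φ w) * (a • φ + b • ψ) w = b := by simp [r2.1]; field_simp
    rw [this]; abel
  rw [e] at this
  have k := sub_mem (mem_sup_left (T := span F {w}) (show _ ∈ A H φ from this.ofL ha))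
    (mem_sup_right (smul_mem _ (b / (a * φ w) * ψ y) (mem_span_singleton_self w)))
  rwa [add_sub_cancel_right] at k

theorem ll {a b : F} (r1 : Rt H φ l) (r2 : Rt H ψ w) (n1 : φ w ≠ 0) (n2 : ψ l ≠ 0) (hab : a ≠ 0 ∨ b ≠ 0)
    (r : Rt H (a • φ + b • ψ) y) : y ∈ A H φ ⊔ span F {w} := by
  by_cases ha : a = 0
  · have r' : Rt H ψ y := Rt.ofL (a := b) (by simpa [ha] using r) (hab.resolve_left fun c => c ha)
    have k := ll0 (l := l) (a := -(1 * ψ l)) (b := 1) r2 n1 (by simpa using n2) (by convert r'.move r1 1 using 1; module)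
    have := sub_mem k (mem_sup_left (smul_mem _ (1 * φ y) (show l ∈ A H φ from r1)))
    rwa [add_sub_cancel_right] at this
  · exact ll0 (l := l) r2 n1 ha r

theorem kill (f k : Dual F V) (y : V) : ∃ a b : F, (a ≠ 0 ∨ b ≠ 0) ∧ (a • f + b • k) y = 0 := by
  by_cases c : f y = 0
  · exact ⟨1, 0, by simp, by simp [c]⟩
  · exact ⟨k y, -f y, Or.inr (neg_ne_zero.2 c), by simp [mul_comm]⟩

theorem Hy.core0 (h : Hy H) {a d : V} (r1 : Rt H f a) (r2 : Rt H k u) (n1 : f u ≠ 0) (n2 : k a ≠ 0) (d0 : d ≠ 0) (d1 : Rt H f d)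
    (d2 : Rt H k d) (rg : Rt H g w) (hw : f w = 0) (hx : x ∈ A H f ⊔ span F {u}) (gx : g x ≠ 0) : w ∈ A H f ⊔ span F {u} := by
  by_contra hE
  have gA : ∀ z ∈ A H f, g z = 0 := fun z hz => by_contra fun c => hE (mem_sup_left (Rt.cm hz rg hw c))
  have gu : g u ≠ 0 := fun c => gx (by
    obtain ⟨z, hz, _, hz', rfl⟩ := mem_sup.1 hx
    obtain ⟨c', rfl⟩ := mem_span_singleton.1 hz'
    simp [gA z hz, c])
  have sub : ∀ (s : F) u', Rt H (s • f + (1 : F) • k) u' → g u' ≠ 0 → ∀ χ y, Rt H χ y → ∀ x ∈ A H f ⊓ A H k, χ x ≠ 0 →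
      y ∈ A H f ⊔ span F {u} → (s • f + (1 : F) • k) y = 0 := fun s u' r' gu' χ y ry x hx cx hy => by
    have AE : ∀ z, Rt H (s • f + (1 : F) • k) z → z ∈ A H f ⊔ span F {u} := fun z hz => ll r1 r2 n1 n2 (Or.inr one_ne_zero) hz
    have kw : (s • f + (1 : F) • k) w ≠ 0 := fun c => hE (AE _ (r'.cm rg c gu'))
    have kx : Rt H (s • f + (1 : F) • k) x := (Rt.smulL hx.1 s).addL (Rt.smulL hx.2 1)
    obtain ⟨a', b', hab, e⟩ := kill (s • f + (1 : F) • k) g y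
    have := ll r' rg kw gu' hab (((kx.smulL a').addL ((rg.cm kx (gA x hx.1) kw).smulL b')).cm ry e cx)
    obtain ⟨z, hz, _, hz', rfl⟩ := mem_sup.1 this
    obtain ⟨c', rfl⟩ := mem_span_singleton.1 hz'
    by_cases c0 : c' = 0
    · rw [c0, zero_smul, add_zero]; exact hz.1
    · exact absurd ((smul_mem_iff _ c0).1 ((Submodule.add_mem_iff_right _ (AE z hz)).1 hy)) hE
  obtain ⟨z, hz, c⟩ := h.ex (W := A H f ⊓ A H k) (h.iv fun χ y ry _ x hx cx => by
    obtain ⟨a', b', hab, e⟩ := kill f k y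
    have hy := ll r1 r2 n1 n2 hab (((Rt.smulL hx.1 a').addL (Rt.smulL hx.2 b')).cm ry e cx)
    have e1 : k y = 0 := by simpa using sub 0 u (by simpa using r2) gu χ y ry x hx cx hy
    have e2 := sub (-(1 * k a)) (u + (1 * f u) • a) (by convert r2.move r1 1 using 1; module)
      (by simpa [gA a r1] using gu) χ y ry x hx cx hy
    exact ⟨Rt.cm hx.1 ry (by simpa [e1, n2] using e2) cx, Rt.cm hx.2 ry e1 cx⟩) d1 ⟨d1, d2⟩ (by rintro rfl; exact n1 rfl) d0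
  exact c hz.1.1

theorem Hy.core (h : Hy H) {a d : V} (r1 : Rt H f a) (r2 : Rt H k u) (n1 : f u ≠ 0) (n2 : k a ≠ 0) (d0 : d ≠ 0) (d1 : Rt H f d)
    (d2 : Rt H k d) : Iv H (A H f ⊔ span F {u}) := h.iv fun g w rg _ x hx gx => by
  by_cases hw : f w = 0
  · exact h.core0 r1 r2 n1 n2 d0 d1 d2 rg hw hx gx
  have r3 := r2.move r1 (k w / f w / k a)
  have e : k - (k w / f w / k a * k a) • f = (-(k w / f w)) • f + (1 : F) • k := by
    rw [div_mul_cancel₀ _ n2]; module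
  rw [e] at r3
  have m1 : (-(k w / f w) • f + (1 : F) • k) a ≠ 0 := by simpa [r1.1] using n2
  have m2 : f (u + (k w / f w / k a * f u) • a) ≠ 0 := by simpa [r1.1] using n1
  have ha := mem_sup_right (S := A H (-(k w / f w) • f + (1 : F) • k)) (mem_span_singleton_self (R := F) a)
  have i1 : A H (-(k w / f w) • f + (1 : F) • k) ⊔ span F {a} ≤ A H f ⊔ span F {u} :=
    sup_le (fun z hz => ll r1 r2 n1 n2 (Or.inr one_ne_zero) hz) ((span_singleton_le_iff_mem _ _).2 (mem_sup_left r1))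
  have i2 : A H f ⊔ span F {u} ≤ A H (-(k w / f w) • f + (1 : F) • k) ⊔ span F {a} :=
    sup_le (fun z hz => ll (a := 0) (b := 1) r3 r1 m1 m2 (Or.inr one_ne_zero) (by rw [zero_smul, zero_add, one_smul]; exact hz))
      ((span_singleton_le_iff_mem _ _).2 (by
        have := sub_mem (mem_sup_left (show _ ∈ A H _ from r3)) (smul_mem _ (k w / f w / k a * f u) ha)
        rwa [add_sub_cancel_right] at this))
  exact i1 (h.core0 r3 r1 m1 m2 d0 ((d1.smulL _).addL (d2.smulL _)) d1 rg (by simp; field_simp; ring) (i2 hx) gx)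

/-- full functionals -/
def Fl (H : Subgroup (V ≃ₗ[F] V)) (W : Submodule F V) (f : Dual F V) : Prop := ∀ x ∈ W, f x = 0 → Rt H f x

theorem Fl.move {a : V} (l : Fl H W g) (r : Rt H f a) (ha : a ∈ W) (c : F) : Fl H W (g - (c * g a) • f) := fun x hx e => by
  have := (l (x - (c * f x) • a) (sub_mem hx (smul_mem _ _ ha)) (by simp at e ⊢; linear_combination e)).move r c
  simpa [r.1] using this

theorem Fl.smul (l : Fl H W g) (c : F) : Fl H W (c • g) := fun x hx e => by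
  by_cases c0 : c = 0
  · simpa [c0] using rt0' x
  · exact (l x hx (by simpa [c0] using e)).smulL c

theorem Hy.sl (h : Hy H) (q : Qi H W) (r1 : Rt H f v) (r2 : Rt H g w) (hv : v ∈ W) (hw : w ∈ W) (f0 : f ≠ 0) (w0 : w ≠ 0)
    (fw : f w = 0) (gv : g v ≠ 0) : ∃ Φ : Submodule F (Dual F V), (∀ k ∈ Φ, Fl H W k) ∧ (∀ k u, Rt H k u → u ≠ 0 → u ∈ W → k ∈ Φ) ∧
      (∀ k ∈ Φ, (∀ x ∈ W, k x = 0) → k = 0) ∧ ∀ x ∈ W, (∀ k u, Rt H k u → u ≠ 0 → u ∈ W → k x = 0) → x = 0 := by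
  have r3 := r1.cm r2 fw gv
  have tw : ∀ k : Dual F V, ∃ d ≠ 0, d ∈ W ∧ Rt H f d ∧ k d = 0 := fun k => by
    by_cases c : k w = 0
    · exact ⟨w, w0, hw, r3, c⟩
    · exact ⟨k w • v + (-k v) • w, fun e => by simpa [r2.1, c, gv] using congrArg g e, add_mem (smul_mem _ _ hv) (smul_mem _ _ hw),
        (r1.smulR _).addR (r3.smulR _), by simp [mul_comm]⟩
  have z : ∀ k, Fl H W k → (∀ x ∈ W, k x = 0) → k = 0 := fun k l e => by_contra fun c => by
    obtain ⟨x, hx, c⟩ := h.ex q.1 (l w hw (e w hw)) hw c w0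
    exact c (e x hx)
  have lf : Fl H W f := by
    obtain ⟨a, k, u, ra, rk, n1, n2⟩ := h.opp r3 f0 w0
    obtain ⟨d, d0, -, d1, d2⟩ := tw k
    intro x hx e
    obtain ⟨y, hy, _, hz', rfl⟩ := mem_sup.1 (q.2 _ (h.core ra rk n1 n2 d0 d1 (rk.cm d1 d2 n1)) f w r3 f0 w0 hw (mem_sup_left r3) hx)
    obtain ⟨c', rfl⟩ := mem_span_singleton.1 hz'
    have : c' = 0 := by simpa [hy.1, n1] using e
    rw [this, zero_smul, add_zero]; exact hy
  let Φ : Submodule F (Dual F V) :=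
    { carrier := {k | Fl H W k}
      zero_mem' := fun x _ _ => rt0' x
      smul_mem' := fun c _ l => Fl.smul l c
      add_mem' := fun {a b} la lb => by
        by_cases c : ∃ y ∈ W, a y = 0 ∧ b y ≠ 0
        · obtain ⟨y, hy, e, n⟩ := c
          have := Fl.move lb (la y hy e) hy (-(b y)⁻¹)
          rw [neg_mul, inv_mul_cancel₀ n] at this
          exact (show b - (-1 : F) • a = a + b by module) ▸ this
        push Not at c
        by_cases a0 : a = 0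
        · simpa [a0] using lb
        obtain ⟨y, hy, n⟩ : ∃ y ∈ W, a y ≠ 0 := by by_contra! e; exact a0 (z a la e)
        obtain ⟨d, d0, hd, -, e⟩ := tw a
        have : b + (-(b y / a y)) • a = 0 := by_contra fun m => by
          obtain ⟨x, hx, n'⟩ := h.ex q.1 ((lb d hd (c d hd e)).addL ((la d hd e).smulL _)) hd m d0
          have := c (x - (a x / a y) • y) (sub_mem hx (smul_mem _ _ hy)) (by simp [n])
          simp at this n'; apply n'; field_simp at this ⊢; linear_combination this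
        have e' : a + b = (1 + b y / a y) • a := by linear_combination (norm := module) this
        exact e' ▸ Fl.smul la _ }
  have nN : ∀ k u, Rt H k u → k ≠ 0 → u ≠ 0 → u ∈ W → ∃ φ ∈ Φ, φ u ≠ 0 := fun k u r k0 u0 hu => by
    by_contra! c
    have := q.2 (W ⊓ Φ.dualCoannihilator) (h.iv fun χ y ry _ x hx cx => ⟨q.1.mem ry hx.1 cx, (mem_dualCoannihilator _).2 fun φ hφ => by
      have := (mem_dualCoannihilator _).1 hx.2 _ (Fl.move hφ ry (q.1.mem ry hx.1 cx) 1)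
      simpa [(mem_dualCoannihilator _).1 hx.2 _ hφ, cx] using this⟩) k u r k0 u0 hu ⟨hu, (mem_dualCoannihilator _).2 c⟩
    exact f0 (z f lf fun x hx => (mem_dualCoannihilator _).1 (this hx).2 f lf)
  refine ⟨Φ, fun _ l => l, fun k u r u0 hu => ?_, z, fun x hx e => by_contra fun x0 => ?_⟩
  · by_cases k0 : k = 0
    · exact k0 ▸ zero_mem _
    obtain ⟨φ, hφ, n⟩ := nN k u r k0 u0 hu
    have := sub_mem hφ (show _ ∈ Φ from Fl.move hφ r hu (φ u)⁻¹)
    rwa [inv_mul_cancel₀ n, one_smul, sub_sub_cancel] at this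
  · obtain ⟨φ, hφ, n⟩ := nN f x (lf x hx (e f w r3 w0 hw)) f0 x0 hx
    obtain ⟨d, d0, hd, -, e'⟩ := tw φ
    exact n (e φ d (hφ d hd e') d0 hd)

end Cfsg.Agent.H29.Mc
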