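import Cfsg.Agent.H29.Mc1

/-! McLaughlin's theorem: the symplectic case. -/

set_option autoImplicit false
open Module Submodule

namespace Cfsg.Agent.H29.Mc

variable {F V : Type*} [Field F] [AddCommGroup V] [Module F V] {H : Subgroup (V ≃ₗ[F] V)} {f g k φ : Dual F V}
  {u v w x : V} {W : Submodule F V} {Θ : Submodule F (Dual F V × V)} {y z : Dual F V × V}

def Sy (H : Subgroup (V ≃ₗ[F] V)) (W : Submodule F V) : Prop :=
  ∀ f v g w, Rt H f v → Rt H g w → v ∈ W → w ∈ W → f ≠ 0 → w ≠ 0 → f w = 0 → g v = 0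

theorem Hy.lemD (h : Hy H) (q : Qi H W) (s : Sy H W) (r : Rt H f v) (hv : v ∈ W) (f0 : f ≠ 0) (v0 : v ≠ 0) (hx : x ∈ W) (n : φ x ≠ 0) :
    φ v ≠ 0 ∨ ∃ k u, Rt H k u ∧ k ≠ 0 ∧ u ∈ W ∧ f u ≠ 0 ∧ φ u ≠ 0 := by
  have iN : Iv H (span F {u | u = v ∨ u ∈ W ∧ f u ≠ 0 ∧ ∃ k ≠ 0, Rt H k u}) := h.iv fun g w rg w0 x hx c => by
    obtain ⟨u, hu, cu⟩ := span_ne hx c
    have hw : w ∈ W := q.1.mem rg (hu.elim (· ▸ hv) (·.1)) cu
    by_cases e : f w = 0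
    · obtain rfl | ⟨u1, u2, k, k0, rk⟩ := hu
      · exact absurd (s f u g w r rg hv hw f0 w0 e) cu
      have := sub_mem (subset_span (R := F) (s := {u | u = v ∨ u ∈ W ∧ f u ≠ 0 ∧ ∃ k ≠ 0, Rt H k u})
        (Or.inr ⟨add_mem u1 (smul_mem _ _ hw), by simpa [e] using u2, _, rg.ne k0 1, rk.move rg 1⟩))
        (subset_span (Or.inr ⟨u1, u2, k, k0, rk⟩))
      rw [add_sub_cancel_left, one_mul] at this
      exact (smul_mem_iff _ cu).1 this
    · exact subset_span (Or.inr ⟨hw, e, g, by rintro rfl; exact c rfl, rg⟩)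
  obtain ⟨u, rfl | ⟨u1, u2, k, k0, rk⟩, cu⟩ := span_ne (q.2 _ iN f v r f0 v0 hv (subset_span (Or.inl rfl)) hx) n
  · exact Or.inl cu
  · exact Or.inr ⟨k, u, rk, k0, u1, u2, cu⟩

def Y (H : Subgroup (V ≃ₗ[F] V)) (Θ : Submodule F (Dual F V × V)) (y : Dual F V × V) : Prop :=
  y ∈ Θ ∧ Rt H y.1 y.2 ∧ y.1 ≠ 0 ∧ y.2 ≠ 0

structure Th (H : Subgroup (V ≃ₗ[F] V)) (W : Submodule F V) (Θ : Submodule F (Dual F V × V)) : Prop where
  sk : ∀ y ∈ Θ, ∀ z ∈ Θ, y.1 z.2 = -z.1 y.2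
  mem : ∀ y ∈ Θ, y.2 ∈ W
  sc : ∀ k u, Rt H k u → k ≠ 0 → u ≠ 0 → u ∈ W → ∃ a : F, a ≠ 0 ∧ (a • k, u) ∈ Θ
  gen : Θ ≤ span F {y | Y H Θ y}

theorem Hy.th (h : Hy H) (q : Qi H W) (s : Sy H W) (r : Rt H f v) (hv : v ∈ W) (f0 : f ≠ 0) (v0 : v ≠ 0) : ∃ Θ, Th H W Θ := by
  let X : Set (Dual F V × V) := {y | Rt H y.1 y.2 ∧ y.2 ∈ W ∧ y.1 ≠ 0 ∧ (y = (f, v) ∨ f y.2 ≠ 0 ∧ y.1 v = -f y.2)}
  have nm : ∀ k u, Rt H k u → u ∈ W → k ≠ 0 → f u ≠ 0 → ∃ a : F, a ≠ 0 ∧ (a • k, u) ∈ X := fun k u rk hu k0 n => by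
    have kv : k v ≠ 0 := fun c => n (s k u f v rk r hu hv k0 v0 c)
    have a0 : -f u / k v ≠ 0 := div_ne_zero (neg_ne_zero.2 n) kv
    exact ⟨_, a0, rk.smulL _, hu, smul_ne_zero a0 k0, Or.inr ⟨n, by simp; field_simp⟩⟩
  have sk : ∀ y ∈ X, ∀ z ∈ X, y.1 z.2 = -z.1 y.2 := by
    rintro ⟨g, w⟩ ⟨rg, hw, g0, e | ⟨n, e⟩⟩ ⟨k, u⟩ ⟨rk, hu, k0, e' | ⟨n', e'⟩⟩
    · cases e; cases e'; simp [r.1]
    · cases e; simp at e' ⊢; simp [e']
    · cases e'; exact e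
    · dsimp only at *
      have := s g w _ _ rg (rk.move r (g u / f w / f u)) hw (add_mem hu (smul_mem _ _ hv)) g0
        (fun c => n' (by simpa [r.1] using congrArg f c)) (by simp [e]; field_simp; ring)
      simp [e'] at this; field_simp at this; linear_combination this
  refine ⟨span F X, fun y hy z hz => ?_, fun y hy => span_le (p := W.comap (LinearMap.snd F _ _)) |>.2 (fun y hy => hy.2.1) hy,
    fun k u rk k0 u0 hu => ?_, span_mono fun y hy => ⟨subset_span hy, hy.1, hy.2.2.1, ?_⟩⟩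
  · induction hy using span_induction with
    | mem y hy =>
      induction hz using span_induction with
      | mem z hz => exact sk y hy z hz
      | zero => simp
      | add a b _ _ ha hb => simp [ha, hb]; ring
      | smul c a _ ha => simp [ha]
    | zero => simp
    | add a b _ _ ha hb => simp [ha, hb]; ring
    | smul c a _ ha => simp [ha]
  · by_cases n : f u = 0
    · obtain ⟨x, hx, c⟩ := h.ex q.1 rk hu k0 u0
      have kv := s f v k u r rk hv hu f0 u0 n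
      obtain ⟨g, w, rg, g0, hw, n1, n2⟩ := (h.lemD q s r hv f0 v0 hx c).resolve_left (by simpa using kv)
      obtain ⟨a, a0, m⟩ := nm g w rg hw g0 n1
      have gu : g u ≠ 0 := fun c => n2 (s g w k u rg rk hw hu g0 u0 c)
      have e := (m.2.2.2.resolve_left fun c => n1 (by cases c; exact r.1)).2
      have := sub_mem (subset_span (R := F) (s := X) (a := (a • g - ((k w)⁻¹ * (a • g) u) • k, w + ((k w)⁻¹ * k w) • u)) ⟨m.1.move rk (k w)⁻¹, add_mem hw (smul_mem _ _ hu), rk.ne m.2.2.1 _,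
        Or.inr ⟨by simpa [n] using n1, by simpa [n, kv] using e⟩⟩) (subset_span m)
      refine ⟨-((k w)⁻¹ * (a • g) u), by simp [n2, a0, gu], ?_⟩
      convert this using 1
      simp [n2]; module
    · obtain ⟨a, a0, m⟩ := nm k u rk hu k0 n
      exact ⟨a, a0, subset_span m⟩
  · obtain ⟨-, -, -, rfl | ⟨n, -⟩⟩ := hy
    · exact v0
    · exact fun c => n (by simp [c])

namespace Th
variable (t : Th H W Θ)
include t

theorem add1 (hy : Y H Θ y) (hz : Y H Θ z) (n : y.1 z.2 ≠ 0) (d : F) : Y H Θ (y + d • z) := by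
  have e := t.sk y hy.1 z hz.1
  have e1 : y.1 - (-d / y.1 z.2 * y.1 z.2) • z.1 = (y + d • z).1 := by rw [div_mul_cancel₀ _ n, Prod.fst_add, Prod.smul_fst]; module
  have e2 : y.2 + (-d / y.1 z.2 * z.1 y.2) • z.2 = (y + d • z).2 := by
    rw [show z.1 y.2 = -y.1 z.2 by simp [e], mul_neg, div_mul_cancel₀ _ n]; simp
  refine ⟨add_mem hy.1 (smul_mem _ _ hz.1), e1 ▸ e2 ▸ hy.2.1.move hz.2.1 _, e1 ▸ hz.2.1.ne hy.2.2.1 _, fun c => n ?_⟩
  simpa [hz.2.1.1, e] using congrArg z.1 c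

variable (h : Hy H) (q : Qi H W) (s : Sy H W)
include h q s

theorem nb (hy : Y H Θ y) (hx : x ∈ W) (n : φ x ≠ 0) (e : φ y.2 = 0) : ∃ u, Y H Θ u ∧ y.1 u.2 ≠ 0 ∧ φ u.2 ≠ 0 := by
  obtain ⟨k, u, rk, k0, hu, n1, n2⟩ := (h.lemD q s hy.2.1 (t.mem y hy.1) hy.2.2.1 hy.2.2.2 hx n).resolve_left (by simpa using e)
  have u0 : u ≠ 0 := fun c => n1 (by simp [c])
  obtain ⟨a, a0, m⟩ := t.sc k u rk k0 u0 hu
  exact ⟨_, ⟨m, rk.smulL a, smul_ne_zero a0 k0, u0⟩, n1, n2⟩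

theorem add2 (hy : Y H Θ y) (hz : Y H Θ z) (hx : x ∈ W) (n : (y.1 + z.1) x ≠ 0) : Y H Θ (y + z) := by
  by_cases o : y.1 z.2 = 0; swap
  · simpa using t.add1 hy hz o 1
  have o' : z.1 y.2 = 0 := by simpa [o] using t.sk z hz.1 y hy.1
  have fin : ∀ u, Y H Θ u → y.1 u.2 ≠ 0 → z.1 u.2 ≠ 0 → y.1 u.2 + z.1 u.2 ≠ 0 → Y H Θ (y + z) := fun u hu n1 n2 n3 => by
    have := t.add1 (t.add1 (t.add1 hy hu n1 1) hz (by simpa [o, t.sk u hu.1 z hz.1] using n2) 1) hu (by simpa [hu.2.1.1] using n3) (-1)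
    convert this using 1; module
  obtain ⟨x', hx', c⟩ := h.ex q.1 hz.2.1 (t.mem z hz.1) hz.2.2.1 hz.2.2.2
  obtain ⟨u, hu, n1, n2⟩ := t.nb h q s hy hx' c o'
  by_cases n3 : y.1 u.2 + z.1 u.2 = 0; swap
  · exact fin u hu n1 n2 n3
  obtain ⟨u₀, hu₀, m1, m3⟩ := t.nb h q s hy hx n (by simp [o', hy.2.1.1])
  by_cases m2 : z.1 u₀.2 = 0; swap
  · exact fin u₀ hu₀ m1 m2 m3
  obtain ⟨u₁, hu₁, k0, k1, k2⟩ : ∃ u₁, Y H Θ u₁ ∧ u.1 u₁.2 ≠ 0 ∧ y.1 u₁.2 ≠ 0 ∧ z.1 u₁.2 = 0 := by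
    by_cases k0 : u.1 u₀.2 = 0
    · exact ⟨_, t.add1 hu₀ hy (by simpa [t.sk u₀ hu₀.1 y hy.1] using m1) 1, by simpa [k0, t.sk u hu.1 y hy.1] using n1,
        by simpa [hy.2.1.1] using m1, by simp [m2, o']⟩
    · exact ⟨_, hu₀, k0, m1, m2⟩
  refine fin _ (t.add1 hu hu₁ k0 (y.1 u.2 / y.1 u₁.2)) ?_ (by simpa [k2] using n2) ?_
  · simpa [k1, ← two_mul, h.two] using n1
  · simp only [Prod.snd_add, Prod.smul_snd, map_add, map_smul, smul_eq_mul, k2, div_mul_cancel₀ _ k1, mul_zero, add_zero, add_assoc, n3]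
    exact n1

omit s in
theorem add3 (hy : Y H Θ y) (hz : Y H Θ z) (n : ∀ x ∈ W, (y.1 + z.1) x = 0) : y + z = 0 := by
  obtain ⟨a, ha, e⟩ := hy.2.1.2 1
  obtain ⟨b, hb, e'⟩ := hz.2.1.2 (-1)
  have y2 := t.mem y hy.1
  have z2 := t.mem z hz.1
  have o : y.1 z.2 = 0 := by simpa [hz.2.1.1] using n _ z2
  have ab : ∀ x, (a * b) x - x = y.1 x • y.2 - z.1 x • z.2 := fun x => by simp [e, e', o]; module
  have nz : ∀ x ∈ W, z.1 x = -y.1 x := fun x hx => by have := n x hx; simp at this; linear_combination this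
  have := h.k3 (W ⊓ (Θ.map (LinearMap.fst F _ _)).dualCoannihilator) W (h.iv fun χ w r w0 x hx c => by
      obtain ⟨a, a0, m⟩ := t.sc χ w r (by rintro rfl; exact c rfl) w0 (q.1.mem r hx.1 c)
      exact absurd ((mem_dualCoannihilator _).1 hx.2 _ ⟨_, m, rfl⟩) (by simp [a0, c])) q.1 _ (mul_mem ha hb)
    (fun x => ab x ▸ sub_mem (smul_mem _ _ y2) (smul_mem _ _ z2)) (fun x hx => by
      rw [ab, nz x hx, _root_.neg_smul, sub_neg_eq_add, ← smul_add]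
      refine smul_mem _ _ ⟨add_mem y2 z2, (mem_dualCoannihilator _).2 ?_⟩
      rintro _ ⟨u, hu, rfl⟩
      simpa [n _ (t.mem u hu)] using t.sk u hu _ (add_mem hy.1 hz.1))
    fun x hx => sub_eq_zero.1 (by
      rw [ab, show y.1 x = 0 from (mem_dualCoannihilator _).1 hx.2 _ ⟨_, hy.1, rfl⟩,
        show z.1 x = 0 from (mem_dualCoannihilator _).1 hx.2 _ ⟨_, hz.1, rfl⟩]; simp)
  simp only [this, LinearEquiv.coe_one, id, sub_self] at ab
  obtain ⟨x, hx, c⟩ := h.ex q.1 hy.2.1 y2 hy.2.2.1 hy.2.2.2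
  have e2 : y.2 + z.2 = 0 := (smul_eq_zero_iff_right c).1 (by have := ab x; rw [nz x hx] at this; linear_combination (norm := module) -this)
  refine Prod.ext (LinearMap.ext fun x => (smul_eq_zero_iff_left hy.2.2.2).1 ?_) e2
  have := ab x
  rw [eq_neg_of_add_eq_zero_right e2] at this
  simp only [Prod.fst_add, LinearMap.add_apply]
  linear_combination (norm := module) -this

theorem all (hy : y ∈ Θ) : y = 0 ∨ Y H Θ y := by
  have := t.gen hy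
  clear hy
  induction this using span_induction with
  | mem y hy => exact Or.inr hy
  | zero => exact Or.inl rfl
  | add a b _ _ ha hb =>
    obtain rfl | ha := ha
    · simpa using hb
    obtain rfl | hb := hb
    · simpa using Or.inr ha
    by_cases c : ∀ x ∈ W, (a.1 + b.1) x = 0
    · exact Or.inl (t.add3 h q ha hb c)
    · push Not at c
      obtain ⟨x, hx, c⟩ := c
      exact Or.inr (t.add2 h q s ha hb hx c)
  | smul c a _ ha =>
    by_cases c0 : c = 0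
    · simp [c0]
    obtain rfl | ha := ha
    · simp
    · exact Or.inr ⟨smul_mem _ _ ha.1, ha.2.1.smul c c, smul_ne_zero c0 ha.2.2.1, smul_ne_zero c0 ha.2.2.2⟩

end Th

theorem Hy.sp (h : Hy H) (q : Qi H W) (s : Sy H W) (r : Rt H f v) (hv : v ∈ W) (f0 : f ≠ 0) (v0 : v ≠ 0) :
    ∃ θ : W →ₗ[F] Dual F V, (∀ x y : W, θ x y = -θ y x) ∧ (∀ x : W, Rt H (θ x) x) ∧
      (∀ k (u : W), Rt H k u → u ≠ 0 → ∃ a : F, k = a • θ u) ∧ ∀ x : W, (∀ y ∈ W, θ x y = 0) → x = 0 := by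
  obtain ⟨Θ, t⟩ := h.th q s r hv f0 v0
  have inj : ∀ y ∈ Θ, y.2 = 0 → y = 0 := fun y hy e => (t.all h q s hy).resolve_right fun c => c.2.2.2 e
  let p : Θ →ₗ[F] W := ((LinearMap.snd F _ _).comp Θ.subtype).codRestrict W fun y => t.mem _ y.2
  have bij : Function.Bijective p := ⟨(injective_iff_map_eq_zero _).2 fun y e => Subtype.ext (inj _ y.2 (congrArg Subtype.val e)), fun x => by
    obtain ⟨a, -, m⟩ := t.sc f v r f0 v0 hv
    obtain ⟨y, hy, e⟩ := q.2 (Θ.map (LinearMap.snd F _ _)) (h.iv fun χ w r w0 _ ⟨y, hy, e⟩ c => by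
      obtain ⟨a, -, m⟩ := t.sc χ w r (by rintro rfl; exact c rfl) w0 (q.1.mem r (e ▸ t.mem y hy) c)
      exact ⟨_, m, rfl⟩) f v r f0 v0 hv ⟨_, m, rfl⟩ x.2
    exact ⟨⟨y, hy⟩, Subtype.ext e⟩⟩
  let θ : W →ₗ[F] Dual F V := (LinearMap.fst F _ _).comp (Θ.subtype.comp (LinearEquiv.ofBijective p bij).symm.toLinearMap)
  have m : ∀ x : W, (θ x, (x : V)) ∈ Θ := fun x => by
    have := congrArg Subtype.val ((LinearEquiv.ofBijective p bij).apply_symm_apply x)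
    rw [← this]; exact ((LinearEquiv.ofBijective p bij).symm x).2
  refine ⟨θ, fun x y => t.sk _ (m x) _ (m y), fun x => (t.all h q s (m x)).elim (fun c => ?_) (·.2.1), fun k u rk u0 => ?_,
    fun x e => by_contra fun x0 => ?_⟩
  · rw [show (x : V) = 0 from congrArg Prod.snd c]; exact rt0 _
  · by_cases k0 : k = 0
    · exact ⟨0, by simp [k0]⟩
    obtain ⟨a, a0, n⟩ := t.sc k u rk k0 (by simpa using u0) u.2
    have : a • k - θ u = 0 := congrArg Prod.fst (inj _ (sub_mem n (m u)) (by simp))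
    exact ⟨a⁻¹, by rw [← sub_eq_zero.1 this, smul_smul, inv_mul_cancel₀ a0, one_smul]⟩
  · obtain ⟨-, r, n1, n2⟩ := (t.all h q s (m x)).resolve_left fun c => x0 (Subtype.ext (congrArg Prod.snd c))
    obtain ⟨y, hy, c⟩ := h.ex q.1 r x.2 n1 n2
    exact c (e y hy)

end Cfsg.Agent.H29.Mc
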