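import Cfsg.Agent.H29.Mc2
import Cfsg.Agent.H12.Lin
import Cfsg.Agent.H12.SGen
import Cfsg.Agent.H1.Cores

/-! McLaughlin's theorem: the decomposition. -/

set_option autoImplicit false
open Module Submodule

namespace Cfsg.Agent.H29.Mc

variable {F V : Type*} [Field F] [AddCommGroup V] [Module F V] {H K : Subgroup (V ≃ₗ[F] V)} {f g k : Dual F V}
  {u v w x : V} {W W' : Submodule F V}

theorem Qi.orth (q : Qi H W) (q' : Qi H W') (ne : W ≠ W') (r : Rt H k u) (u0 : u ≠ 0) (hu : u ∈ W) (hx : x ∈ W') : k x = 0 :=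
  by_contra fun c => have k0 : k ≠ 0 := by rintro rfl; exact c rfl
    ne (le_antisymm (q.2 _ q'.1 k u r k0 u0 hu (q'.1.mem r hx c)) (q'.2 _ q.1 k u r k0 u0 (q'.1.mem r hx c) hu))

theorem gs_le : Subgroup.closure (Gs H W) ≤ H := (Subgroup.closure_le _).2 fun t ⟨f, v, r, _, e⟩ => by
  obtain ⟨s, hs, e'⟩ := r.2 1
  rwa [show t = s from LinearEquiv.ext fun x => by simp [e, e']]

theorem gs_fix (n : ∀ k u, Rt H k u → u ≠ 0 → u ∈ W → k x = 0) {t : V ≃ₗ[F] V} (ht : t ∈ Subgroup.closure (Gs H W)) : t x = x :=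
  (Subgroup.closure_le (MulAction.stabilizer _ x)).2 (by
    rintro t ⟨f, v, r, hv, e⟩
    change t x = x
    by_cases v0 : v = 0 <;> simp [e, v0, n f v r, hv]) ht

theorem gs_cj (i : Iv H W) {s t : V ≃ₗ[F] V} (hs : s ∈ H) (ht : t ∈ Subgroup.closure (Gs H W)) : s * t * s⁻¹ ∈ Subgroup.closure (Gs H W) :=
  (Subgroup.closure_le ((Subgroup.closure (Gs H W)).comap (MulAut.conj s).toMonoidHom)).2 (by
    rintro t ⟨f, v, r, hv, e⟩
    exact Subgroup.subset_closure ⟨_, _, r.conj hs, i s hs v hv, fun x => by simp [e, LinearEquiv.coe_inv]⟩) ht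

/-- restriction to an invariant subspace -/
def res (i : Iv K W) : K →* (W ≃ₗ[F] W) where
  toFun t := LinearEquiv.ofLinear ((t.1 : V →ₗ[F] V).restrict (i t.1 t.2)) ((t⁻¹.1 : V →ₗ[F] V).restrict (i _ (t⁻¹).2))
    (by ext; simp [LinearEquiv.coe_inv]) (by ext; simp [LinearEquiv.coe_inv])
  map_one' := by ext; rfl
  map_mul' _ _ := by ext; rfl

theorem range_le (i : Iv (Subgroup.closure (Gs H W)) W) (S : Subgroup (W ≃ₗ[F] W))
    (h : ∀ k (u : W), Rt H k u → ∀ e : W ≃ₗ[F] W, (∀ x : W, e x = x + k x • u) → e ∈ S) : (res i).range ≤ S := by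
  rintro _ ⟨⟨t, ht⟩, rfl⟩
  induction ht using Subgroup.closure_induction with
  | mem t ht => obtain ⟨f, v, r, hv, e⟩ := ht; exact h f ⟨v, hv⟩ r _ fun x => Subtype.ext (e x)
  | one => exact (map_one (res i)).symm ▸ one_mem S
  | mul a b ha hb h1 h2 => exact (map_mul (res i) ⟨a, ha⟩ ⟨b, hb⟩).symm ▸ mul_mem h1 h2
  | inv a ha h1 => exact (map_inv (res i) ⟨a, ha⟩).symm ▸ inv_mem h1

theorem mem_range (i : Iv (Subgroup.closure (Gs H W)) W) {u : W} (r : Rt H k u) {e : W ≃ₗ[F] W} (he : ∀ x : W, e x = x + k x • u) :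
    e ∈ (res i).range := by
  obtain ⟨t, -, e'⟩ := r.2 1
  exact ⟨⟨t, Subgroup.subset_closure ⟨k, u, r, u.2, by simpa using e'⟩⟩, LinearEquiv.ext fun x => Subtype.ext (by
    rw [he]; exact (e' x).trans (by simp))⟩

variable [FiniteDimensional F V]

theorem range_sl (i : Iv (Subgroup.closure (Gs H W)) W) (h : ∀ (l : Dual F W) (x : W), l x = 0 → ∃ k, Rt H k x ∧ ∀ y : W, k y = l y) :
    ((res i).range : Set (W ≃ₗ[F] W)) = {f : W ≃ₗ[F] W | LinearMap.det (f : W →ₗ[F] W) = 1} := by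
  refine Set.Subset.antisymm (fun e he => ?_) fun e he => ?_
  · have := range_le i LinearEquiv.det.ker (fun k u r e he => Units.ext (by
      rw [LinearEquiv.coe_det, show (e : W →ₗ[F] W) = LinearMap.transvection (k ∘ₗ W.subtype) u from LinearMap.ext fun x => by
        simp [he, LinearMap.transvection.apply]]
      simp [r.1])) he
    exact (LinearEquiv.coe_det e).symm.trans (congrArg Units.val this)
  · let b := finBasis F W
    have := H12.SL_eq_top_of_transvection_mem (H := (res i).range.comap (SpecialLinearGroup.toLinearEquiv.comp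
      (Matrix.SpecialLinearGroup.toLin_equiv b).toMonoidHom)) fun a a' n c => by
      obtain ⟨k, r, hk⟩ := h (c • b.coord a') (b a) (by simp [Finsupp.single_apply, n])
      refine mem_range i r fun x => ?_
      change Matrix.toLin b b (Matrix.transvection a a' c) x = _
      rw [Matrix.transvection, map_add, Matrix.toLin_one, hk]
      simp [Matrix.toLin_apply, Matrix.single_mulVec, Function.update_apply]
    have k := this.ge (Subgroup.mem_top ((Matrix.SpecialLinearGroup.toLin_equiv b).symm ⟨e, Units.ext ((LinearEquiv.coe_det e).trans he)⟩))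
    rw [Subgroup.mem_comap, MonoidHom.comp_apply, MulEquiv.coe_toMonoidHom, MulEquiv.apply_symm_apply] at k
    exact k

theorem range_sp (two : (2 : F) ≠ 0) (i : Iv (Subgroup.closure (Gs H W)) W) (θ : W →ₗ[F] Dual F V) (h1 : ∀ x y : W, θ x y = -θ y x)
    (h2 : ∀ x : W, Rt H (θ x) x) (h3 : ∀ k (u : W), Rt H k u → u ≠ 0 → ∃ a : F, k = a • θ u) (h4 : ∀ x : W, (∀ y ∈ W, θ x y = 0) → x = 0) :
    ∃ B : LinearMap.BilinForm F W, B.IsAlt ∧ B.Nondegenerate ∧
      ((res i).range : Set (W ≃ₗ[F] W)) = {f : W ≃ₗ[F] W | ∀ x y, B (f x) (f y) = B x y} := by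
  let B : LinearMap.BilinForm F W := θ.compl₂ W.subtype
  have D : H12.SD B := ⟨fun _ => rfl, fun x y => h1 y x, fun x e => h4 x fun y hy => e ⟨y, hy⟩, fun x => ⟨0, (sub_self _).trans (h2 x).1.symm⟩⟩
  refine ⟨B, fun x => (h2 x).1, ⟨D.sep, fun x e => D.sep x fun y => by rw [D.skew, e]; simp⟩,
    Set.Subset.antisymm (range_le i (H12.UG B) fun k u r e he x y => ?_) fun e he => ?_⟩
  · by_cases u0 : u = 0
    · simp [he, u0]
    obtain ⟨a, rfl⟩ := h3 k u r u0
    simp [he, B, (h2 u).1, h1 x u]; ring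
  · refine (Subgroup.closure_le ((res i).range.comap (H12.UG B).subtype)).2 ?_ ((D.TG_eq_top rfl).ge (Subgroup.mem_top ⟨e, he⟩))
    rintro _ ⟨u, c, rfl⟩
    exact mem_range i ((h2 u).smulL c) fun x => H12.tv_apply D (h2 u).1 rfl x

theorem Hy.cp (h : Hy H) (q : Qi H W) (b : W = ⊥ ∨ ∃ f v, Rt H f v ∧ f ≠ 0 ∧ v ≠ 0 ∧ v ∈ W) :
    (∀ x ∈ W, (∀ k u, Rt H k u → u ≠ 0 → u ∈ W → k x = 0) → x = 0) ∧ (∀ x, ∃ w ∈ W, ∀ k u, Rt H k u → u ≠ 0 → u ∈ W → k w = k x) ∧
    ∀ i : Iv (Subgroup.closure (Gs H W)) W, ((res i).range : Set (W ≃ₗ[F] W)) = {f : W ≃ₗ[F] W | LinearMap.det (f : W →ₗ[F] W) = 1} ∨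
      ∃ B : LinearMap.BilinForm F W, B.IsAlt ∧ B.Nondegenerate ∧
      ((res i).range : Set (W ≃ₗ[F] W)) = {f : W ≃ₗ[F] W | ∀ x y, B (f x) (f y) = B x y} := by
  have n2 : ∀ Φ : Submodule F (Dual F V), (∀ k u, Rt H k u → u ≠ 0 → u ∈ W → k ∈ Φ) → (∀ k ∈ Φ, (∀ x ∈ W, k x = 0) → k = 0) →
      ∀ x, ∃ w ∈ W, ∀ k u, Rt H k u → u ≠ 0 → u ∈ W → k w = k x := fun Φ a b x => by
    have : W ⊔ Φ.dualCoannihilator = ⊤ := by
      rw [← dualAnnihilator_eq_bot_iff, dualAnnihilator_sup_eq, Subspace.dualCoannihilator_dualAnnihilator_eq, eq_bot_iff]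
      exact fun k hk => b k hk.2 ((mem_dualAnnihilator _).1 hk.1)
    obtain ⟨w, hw, z, hz, rfl⟩ := mem_sup.1 (this.ge (mem_top (x := x)))
    exact ⟨w, hw, fun k u r u0 hu => by simp [(mem_dualCoannihilator _).1 hz k (a k u r u0 hu)]⟩
  obtain rfl | ⟨f, v, r, f0, v0, hv⟩ := b
  · exact ⟨fun x hx _ => hx, fun x => ⟨0, rfl, fun k u _ u0 hu => absurd hu u0⟩, fun i => Or.inl (range_sl i fun l x _ =>
      ⟨0, rt0' _, fun y => by simp [Subsingleton.elim y 0]⟩)⟩
  by_cases s : Sy H W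
  · obtain ⟨θ, h1, h2, h3, h4⟩ := h.sp q s r hv f0 v0
    refine ⟨fun x hx e => congrArg Subtype.val (h4 ⟨x, hx⟩ fun y hy => ?_), n2 (LinearMap.range θ) (fun k u r u0 hu => ?_) ?_,
      fun i => Or.inr (range_sp h.two i θ h1 h2 h3 h4)⟩
    · by_cases y0 : y = 0
      · simp [y0]
      · simpa [e _ y (h2 ⟨y, hy⟩) y0 hy] using h1 ⟨x, hx⟩ ⟨y, hy⟩
    · obtain ⟨a, rfl⟩ := h3 k ⟨u, hu⟩ r (by simpa using u0)
      exact smul_mem _ _ ⟨_, rfl⟩
    · rintro _ ⟨x, rfl⟩ e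
      rw [h4 x e, map_zero]
  · simp only [Sy, not_forall] at s
    obtain ⟨f, v, g, w, r1, r2, hv, hw, f0, w0, fw, gv⟩ := s
    obtain ⟨Φ, a1, a2, a3, a4⟩ := h.sl q r1 r2 hv hw f0 w0 fw gv
    refine ⟨a4, n2 Φ a2 a3, fun i => Or.inl (range_sl i fun l x e => ?_)⟩
    have : W.dualAnnihilator ⊔ Φ = ⊤ := by
      rw [← Subspace.dualCoannihilator_dualAnnihilator_eq (W := Φ), ← Subspace.dualAnnihilator_inf_eq, dualAnnihilator_eq_top_iff, eq_bot_iff]
      exact fun x hx => a4 x hx.1 fun k u r u0 hu => (mem_dualCoannihilator _).1 hx.2 k (a2 k u r u0 hu)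
    obtain ⟨a, ha, k, hk, e'⟩ := mem_sup.1 (this.ge (mem_top (x := Subspace.dualLift W l)))
    have : ∀ y : W, k y = l y := fun y => by
      simpa [(mem_dualAnnihilator _).1 ha y y.2, Subspace.dualLift_of_subtype] using congrArg (· (y : V)) e'
    exact ⟨k, a1 k hk x x.2 ((this x).trans e), this⟩

omit [FiniteDimensional F V] in
theorem Hy.main (h : Hy H) [Finite V] : ∃ (n : ℕ) (W : Fin (n + 1) → Submodule F V) (K : Fin n → Subgroup (V ≃ₗ[F] V)),
      1 ≤ n ∧ DirectSum.IsInternal W ∧ (∀ h ∈ H, ∀ i, (W i).map (h : V →ₗ[F] V) = W i) ∧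
      (∀ j, K j ≤ H ∧ ((K j).subgroupOf H).Normal) ∧ ⨆ j, K j = H ∧ (∀ j, K j ⊓ (⨆ j' ∈ {j' : Fin n | j' ≠ j}, K j') = ⊥) ∧
      (∀ j j', j ≠ j' → ∀ a ∈ K j, ∀ b ∈ K j', a * b = b * a) ∧
      (∀ j, ∀ h ∈ K j, ∀ i : Fin (n + 1), i ≠ j.succ → ∀ v ∈ W i, h v = v) ∧
      (∀ j, ∃ ρ : ↥(K j) →* (↥(W j.succ) ≃ₗ[F] ↥(W j.succ)),
        (∀ (h : ↥(K j)) (v : ↥(W j.succ)), ((ρ h v : ↥(W j.succ)) : V) = (h : V ≃ₗ[F] V) (v : V)) ∧
        ((ρ.range : Set (↥(W j.succ) ≃ₗ[F] ↥(W j.succ))) =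
            {f : ↥(W j.succ) ≃ₗ[F] ↥(W j.succ) | LinearMap.det (f : ↥(W j.succ) →ₗ[F] ↥(W j.succ)) = 1} ∨
          ∃ B : LinearMap.BilinForm F ↥(W j.succ), B.IsAlt ∧ B.Nondegenerate ∧
            (ρ.range : Set (↥(W j.succ) ≃ₗ[F] ↥(W j.succ))) = {f : ↥(W j.succ) ≃ₗ[F] ↥(W j.succ) | ∀ x y, B (f x) (f y) = B x y})) := by
  classical
  let C := {W : Submodule F V // Qi H W ∧ (W = ⊥ ∨ ∃ f v, Rt H f v ∧ f ≠ 0 ∧ v ≠ 0 ∧ v ∈ W)}
  have : Nonempty C := ⟨⟨⊥, ⟨fun _ _ _ hx => by simpa using hx, fun _ _ _ _ _ _ _ _ _ => bot_le⟩, Or.inl rfl⟩⟩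
  let e := (Finite.equivFin C).symm
  let U : Submodule F V := ⨅ y : {y : Dual F V × V // Rt H y.1 y.2 ∧ y.2 ≠ 0}, LinearMap.ker y.1.1
  have mU : ∀ x, x ∈ U ↔ ∀ k u, Rt H k u → u ≠ 0 → k x = 0 := fun x => by simp [U]
  let W : Fin (Nat.card C + 1) → Submodule F V := Fin.cons U fun j => (e j).1
  let K : Fin (Nat.card C) → Subgroup (V ≃ₗ[F] V) := fun j => Subgroup.closure (Gs H (e j).1)
  have cp := fun j => h.cp (e j).2.1 (e j).2.2
  have ex : ∀ k u, Rt H k u → k ≠ 0 → u ≠ 0 → ∃ j, u ∈ (e j).1 := fun k u r k0 u0 =>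
    let ⟨W, hu, q⟩ := h.qi r k0 u0; ⟨e.symm ⟨W, q, Or.inr ⟨k, u, r, k0, u0, hu⟩⟩, by simpa using hu⟩
  have ort : ∀ j i, i ≠ Fin.succ j → ∀ x ∈ W i, ∀ k u, Rt H k u → u ≠ 0 → u ∈ (e j).1 → k x = 0 := fun j i n x hx k u r u0 hu => by
    induction i using Fin.cases with
    | zero => exact (mU x).1 hx k u r u0
    | succ i => exact (e j).2.1.orth (e i).2.1 (fun c => n (by rw [e.injective (Subtype.ext c)])) r u0 hu hx
  have fx : ∀ j, ∀ h ∈ K j, ∀ i, i ≠ j.succ → ∀ v ∈ W i, h v = v := fun j t ht i n v hv => gs_fix (ort j i n v hv) ht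
  have iW : ∀ i, Iv H (W i) := fun i => by
    induction i using Fin.cases with
    | zero => exact fun t ht x hx => (gs_fix (fun k u r u0 _ => (mU x).1 hx k u r u0) (h.gen ht)).symm ▸ hx
    | succ i => exact (e i).2.1.1
  have top : iSup W = ⊤ := eq_top_iff.2 fun x _ => by
    choose w hw hw' using fun j => (cp j).2.1 x
    have : x - ∑ j, w j ∈ W 0 := (mU _).2 fun k u r u0 => by
      by_cases k0 : k = 0
      · simp [k0]
      obtain ⟨j, hu⟩ := ex k u r k0 u0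
      rw [map_sub, map_sum, Finset.sum_eq_single j (fun i _ n => ort j i.succ (by simpa using n) _ (hw i) k u r u0 hu) (by simp),
        hw' j k u r u0 hu, sub_self]
    simpa using add_mem (mem_iSup_of_mem 0 this) (sum_mem (t := Finset.univ) fun j _ => mem_iSup_of_mem (p := W) j.succ (hw j))
  have ext : ∀ a b : V ≃ₗ[F] V, (∀ i, ∀ x ∈ W i, a x = b x) → a = b := fun a b n => LinearEquiv.ext fun x =>
    (top.ge.trans (iSup_le n : _ ≤ LinearMap.eqLocus (a : V →ₗ[F] V) b)) mem_top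
  refine ⟨_, W, K, Nat.card_pos, DirectSum.isInternal_submodule_of_iSupIndep_of_iSup_eq_top
    ((iSupIndep_iff_finsetSum_eq_zero_imp_eq_zero W).2 fun s v hv z => ?_) top, fun t ht i => le_antisymm (map_le_iff_le_comap.2 (iW i t ht))
      fun x hx => ⟨_, iW i _ (inv_mem ht) x hx, by simp [LinearEquiv.coe_inv]⟩, fun j => ⟨gs_le, ⟨fun a ha b => gs_cj (e j).2.1.1 b.2 ha⟩⟩,
    le_antisymm (iSup_le fun _ => gs_le) (h.gen.trans ((Subgroup.closure_le _).2 ?_)), fun j => eq_bot_iff.2 fun t ht => ext _ _ fun i x hx => ?_,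
    fun j j' n a ha b hb => ext _ _ fun i x hx => ?_, fx, fun j => ⟨res fun t ht => iW _ t (gs_le ht), fun _ _ => rfl, (cp j).2.2 _⟩⟩
  · have : ∀ j : Fin (Nat.card C), j.succ ∈ s → v j.succ = 0 := fun j hj => (cp j).1 _ (hv _ hj) fun k u r u0 hu => by
      rw [← Finset.sum_eq_single_of_mem (f := fun i => k (v i)) _ hj fun i hi n => ort j i n _ (hv i hi) k u r u0 hu, ← map_sum, z, map_zero]
    intro i hi
    induction i using Fin.cases with
    | zero => rw [← z, Finset.sum_eq_single_of_mem _ hi fun i hi n => by obtain ⟨j, rfl⟩ := Fin.exists_succ_eq.2 n; exact this j hi]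
    | succ j => exact this j hi
  · rintro t ⟨f, v, r, -, e'⟩
    by_cases c : f = 0 ∨ v = 0
    · rw [show t = 1 from LinearEquiv.ext fun x => by rcases c with c | c <;> simp [e', c]]; exact one_mem _
    push Not at c
    obtain ⟨j, hu⟩ := ex f v r c.1 c.2
    exact Subgroup.mem_iSup_of_mem j (Subgroup.subset_closure ⟨f, v, r, hu, e'⟩)
  · by_cases c : i = j.succ
    · exact (iSup₂_le fun j' n t ht => fx j' t ht i (by simpa [c] using Ne.symm n) x hx : _ ≤ MulAction.stabilizer _ x) ht.2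
    · exact fx j t ht.1 i c x hx
  · by_cases c : i = j.succ
    · have : i ≠ j'.succ := by simpa [c] using n
      rw [LinearEquiv.mul_apply, LinearEquiv.mul_apply, fx j' b hb i this x hx, fx j' b hb i this _ (iW i a (gs_le ha) x hx)]
    · rw [LinearEquiv.mul_apply, LinearEquiv.mul_apply, fx j a ha i c x hx, fx j a ha i c _ (iW i b (gs_le hb) x hx)]

theorem hy {p : ℕ} [Fact p.Prime] (hp : Odd p) {V : Type*} [AddCommGroup V] [Module (ZMod p) V] [Finite V]
    (T : Set (V ≃ₗ[ZMod p] V)) (hT : ∀ t ∈ T, orderOf t = p ∧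
      finrank (ZMod p) ↥(LinearMap.ker ((t : V →ₗ[ZMod p] V) - LinearMap.id)) + 1 = finrank (ZMod p) V)
    (hOp : Cfsg.pCore p ↥(Subgroup.closure T) = ⊥) : Hy (Subgroup.closure T) := by
  have p3 : 3 ≤ p := by have := (Fact.out : p.Prime).two_le; obtain ⟨m, rfl⟩ := hp; omega
  refine ⟨fun c => ?_, Subgroup.closure_mono fun t ht => ?_, fun M W iM iW => ?_⟩
  · exact absurd (Nat.le_of_dvd two_pos ((ZMod.natCast_eq_zero_iff 2 p).1 (by exact_mod_cast c))) (by omega)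
  · obtain ⟨f, v, e⟩ := LinearEquiv.mem_dilatransvections_iff_finrank (e := t) |>.2 (by
      have := LinearMap.finrank_range_add_finrank_ker ((t : V →ₗ[ZMod p] V) - LinearMap.id); have := (hT t ht).2; omega)
    have e' : ∀ x, t x = x + f x • v := fun x => LinearMap.congr_fun e x
    have pw : ∀ n : ℕ, (t ^ n) v = (1 + f v) ^ n • v := fun n => by
      induction n with
      | zero => simp
      | succ n ih => rw [pow_succ', LinearEquiv.mul_apply, ih, map_smul, e', pow_succ]; module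
    have v0 : v ≠ 0 := fun c => by
      have := (hT t ht).1
      rw [show t = 1 from LinearEquiv.ext fun x => by simp [e', c], orderOf_one] at this; omega
    have fv : f v = 0 := by
      have := pw p
      rw [show t ^ p = 1 from orderOf_dvd_iff_pow_eq_one.1 (hT t ht).1.dvd, ZMod.pow_card, add_smul, one_smul] at this
      simpa [v0] using this
    refine ⟨f, v, ⟨fv, fun c => ⟨t ^ c.val, pow_mem (Subgroup.subset_closure ht) _, fun x => ?_⟩⟩, mem_top, e'⟩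
    nth_rewrite 2 [← ZMod.natCast_zmod_val c]
    induction c.val with
    | zero => simp
    | succ n ih => rw [pow_succ', LinearEquiv.mul_apply, ih, e']; simp [fv]; module
  · let N : Subgroup (Subgroup.closure T) :=
      { carrier := {t | (∀ x, t.1 x - x ∈ W) ∧ (∀ x ∈ W, t.1 x - x ∈ M) ∧ ∀ x ∈ M, t.1 x = x}
        one_mem' := by simp
        mul_mem' := fun {a b} ha hb => ⟨fun x => by simpa using add_mem (ha.1 (b.1 x)) (hb.1 x),
          fun x hx => by simpa using add_mem (ha.2.1 _ (iW _ b.2 x hx)) (hb.2.1 x hx), fun x hx => by simp [hb.2.2 x hx, ha.2.2 x hx]⟩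
        inv_mem' := fun {a} ha => ⟨fun x => by simpa [LinearEquiv.coe_inv] using neg_mem (ha.1 (a⁻¹.1 x)),
          fun x hx => by simpa [LinearEquiv.coe_inv] using neg_mem (ha.2.1 _ (iW _ (a⁻¹).2 x hx)),
          fun x hx => a.1.symm_apply_eq.2 (ha.2.2 x hx).symm⟩ }
    have : N.Normal := ⟨fun a ha b => ⟨fun x => by simpa [LinearEquiv.coe_inv] using iW _ b.2 _ (ha.1 (b⁻¹.1 x)),
      fun x hx => by simpa [LinearEquiv.coe_inv] using iM _ b.2 _ (ha.2.1 _ (iW _ (b⁻¹).2 x hx)),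
      fun x hx => by simpa [LinearEquiv.coe_inv] using congrArg b.1 (ha.2.2 _ (iM _ (b⁻¹).2 x hx))⟩⟩
    suffices k : IsPGroup p N from
      fun t ht a b c => congrArg Subtype.val (Subgroup.mem_bot.1 (((H1.le_pCore k).trans hOp.le) (show ⟨t, ht⟩ ∈ N from ⟨a, b, c⟩)) :
        (⟨t, ht⟩ : Subgroup.closure T) = 1)
    rintro ⟨⟨t, ht⟩, a, b, c⟩
    refine ⟨1, Subtype.ext (Subtype.ext ?_)⟩
    rcases subsingleton_or_nontrivial V with _ | _
    · exact Subsingleton.elim _ _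
    have : CharP (End (ZMod p) V) p := charP_of_injective_algebraMap (algebraMap (ZMod p) (End (ZMod p) V)).injective p
    have e3 : ((t : End (ZMod p) V) - 1) ^ 3 = 0 := LinearMap.ext fun x => by
      simpa [pow_succ, sub_eq_zero] using c _ (b _ (a x))
    have e := sub_pow_char_of_commute p (Commute.one_right (t : End (ZMod p) V))
    rw [pow_eq_zero_of_le p3 e3, one_pow, eq_comm, sub_eq_zero] at e
    refine LinearEquiv.ext fun x => ?_
    simpa using LinearMap.congr_fun ((map_pow LinearEquiv.automorphismGroup.toLinearMapMonoidHom t p).trans e) x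

end Cfsg.Agent.H29.Mc
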