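import Cfsg.Agent.H29.Sg2

/-! Strongly regular graphs with parameters `(275,112,30,56)`: counting identities and frames. -/

set_option autoImplicit false
open Finset SimpleGraph Cfsg.Agent.H29.Sg
open scoped Classical

namespace Cfsg.Agent.H29.Ml

theorem krein {X : Type*} [Fintype X] {E : X → X → ℤ} {c : ℤ} (h1 : ∀ u v, ∑ w, E u w * E v w = c * E u v)
    (h2 : ∀ u, ∑ v, E u v ^ 3 = 0) (i j k : X) : ∑ x, E x i * E x j * E x k = 0 := by
  have := zer (f := fun p : X × X × X => (∑ x, E x p.1 * E x p.2.1 * E x p.2.2) ^ 2) (fun _ => sq_nonneg _) (by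
    simp only [sq, sum_mul_sum]
    rw [sum_comm]
    refine sum_eq_zero fun x _ => ?_
    rw [sum_comm, sum_congr rfl (g := fun y => c ^ 3 * E x y ^ 3) fun y _ => ?_, ← mul_sum, h2, mul_zero]
    have : ∀ f : X → ℤ, (∑ w, f w) ^ 3 = ∑ p : X × X × X, f p.1 * f p.2.1 * f p.2.2 := fun f => by
      simp only [Fintype.sum_prod_type, ← mul_sum, ← sum_mul]; ring
    rw [← mul_pow, ← h1, this]
    exact sum_congr rfl fun _ _ => by ring) (i, j, k)
  exact pow_eq_zero_iff two_ne_zero |>.1 this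

variable {V : Type*} [Fintype V] (G : SimpleGraph V) [DecidableRel G.Adj] {o u v w x y z p q t b : V}

noncomputable def E (u v : V) : ℤ := 10 * δ u v - 5 * a G u v + 2
def T (u v w : V) : ℤ := ∑ x, a G u x * a G v x * a G w x

variable {G}

omit [Fintype V] in
theorem δsy (u v : V) : δ u v = δ v u := by simp [δ, eq_comm]
omit [Fintype V] in
theorem Esy (u v : V) : E G u v = E G v u := by rw [E, E, δsy, asy]
omit [Fintype V] in
theorem E0 (u : V) : E G u u = 12 := by simp [E, δ, a]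
omit [Fintype V] in
theorem E1 (h : G.Adj u v) : E G u v = -3 := by simp [E, δ, a, h, h.ne]
omit [Fintype V] in
theorem E2 (h : ¬ G.Adj u v) (n : u ≠ v) : E G u v = 2 := by simp [E, δ, a, h, n]
theorem sδ1 (u : V) : ∑ w, δ u w = 1 := by simp [δ]

section
variable (hG : G.IsSRGWith 275 112 30 56)
include hG

theorem aa (u v : V) : ∑ w, a G u w * a G v w = 56 * δ u v - 26 * a G u v + 56 := by
  have : #{z | G.Adj u z ∧ G.Adj v z} = Fintype.card (G.commonNeighbors u v) := (Fintype.card_subtype _).symm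
  rw [cnt (fun z => G.Adj u z ∧ G.Adj v z) _ 1 fun w => by unfold a; split_ifs <;> simp_all, δ, a]
  split_ifs with h1 h2 h2
  · exact absurd (h1 ▸ h2) (G.loopless.irrefl v)
  · rw [show #{z | G.Adj u z ∧ G.Adj v z} = 112 by
      rw [← hG.regular u, ← card_neighborFinset_eq_degree]; congr 1; ext; simp [h1]]; rfl
  · rw [this, hG.of_adj u v h2]; rfl
  · rw [this, hG.of_not_adj h1 h2]; rfl

theorem a1 (u : V) : ∑ w, a G u w = 112 := by
  have := aa hG u u
  rw [sum_congr rfl (g := a G u) fun w _ => by simp [a]] at this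
  rw [show ∑ w, a G u w = univ.sum (a G u) from rfl, this]; simp [δ, a]

theorem one : ∑ _w : V, (1 : ℤ) = 275 := by simp [hG.card]

theorem EE (u v : V) : ∑ w, E G u w * E G v w = 150 * E G u v := by
  rw [sum_congr rfl (g := fun w => 10 * (δ u w * E G v w) + 10 * (δ v w * (2 - 5 * a G u w)) + 25 * (a G u w * a G v w)
    - 10 * a G u w - 10 * a G v w + 4 * 1) fun w _ => by simp only [E]; ring]
  simp only [sum_add_distrib, sum_sub_distrib, ← mul_sum, sδ, aa hG, a1 hG, one hG]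
  rw [Esy v, E]; ring

theorem E3 (u : V) : ∑ v, E G u v ^ 3 = 0 := by
  rw [sum_congr rfl (g := fun w => 1720 * δ u w - 35 * a G u w + 8 * 1) fun w _ => by
    by_cases e : u = w
    · simp [e, E0, δ, a]
    · simp only [E, δ, a, if_neg e]; split_ifs <;> rfl]
  simp only [sum_add_distrib, sum_sub_distrib, ← mul_sum, sδ1, a1 hG, one hG]; rfl

theorem Tf (i j k : V) : 125 * T G i j k = 10 * (E G j i * E G k i) + 10 * ((2 - 5 * a G i j) * E G k j) +
    10 * ((2 - 5 * a G i k) * (2 - 5 * a G j k)) + 50 * (56 * δ i j - 26 * a G i j + 56) +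
    50 * (56 * δ i k - 26 * a G i k + 56) + 50 * (56 * δ j k - 26 * a G j k + 56) - 4520 := by
  have := krein (EE hG) (E3 hG) i j k
  simp only [fun x y => Esy (G := G) x y] at this
  rw [sum_congr rfl (g := fun x => 10 * (δ i x * (E G j x * E G k x)) + 10 * (δ j x * ((2 - 5 * a G i x) * E G k x)) +
    10 * (δ k x * ((2 - 5 * a G i x) * (2 - 5 * a G j x))) - 125 * (a G i x * a G j x * a G k x) +
    50 * (a G i x * a G j x) + 50 * (a G i x * a G k x) + 50 * (a G j x * a G k x) - 20 * a G i x - 20 * a G j x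
    - 20 * a G k x + 8 * 1) fun x _ => by simp only [E]; ring] at this
  simp only [sum_add_distrib, sum_sub_distrib, ← mul_sum, sδ, aa hG, a1 hG, one hG] at this
  rw [T]; linarith

theorem T1 (hu : G.Adj o u) (hv : G.Adj o v) : T G o u v = 20 * δ u v - 8 * a G u v + 10 := by
  have := Tf hG o u v
  rw [E1 hu.symm, E1 hv.symm, Esy v u, E] at this
  simp only [a, δ, if_pos hu, if_pos hv, if_neg hu.ne, if_neg hv.ne] at this ⊢
  by_cases e : u = v
  · simp [e] at this ⊢; omega
  · simp only [if_neg e] at this ⊢; split_ifs at this ⊢ <;> omega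

theorem T2 (h : G.Adj o b) (h1 : ¬ G.Adj o w) (h2 : ¬ G.Adj b w) : T G o b w = 20 := by
  have n1 : o ≠ w := fun e => h2 (e ▸ h.symm)
  have n2 : b ≠ w := fun e => h1 (e ▸ h)
  have := Tf hG o b w
  rw [E1 h.symm, E2 (mt Adj.symm h1) n1.symm, E2 (mt Adj.symm h2) n2.symm] at this
  simp only [a, δ, if_pos h, if_neg h1, if_neg h2, if_neg h.ne, if_neg n1, if_neg n2] at this
  omega

theorem K5 (h1 : G.Adj o b) (h2 : G.Adj o t) (h3 : G.Adj o p) (h4 : G.Adj b t) (h5 : G.Adj b p) (h6 : G.Adj t p) :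
    ∃ q, G.Adj o q ∧ G.Adj b q ∧ G.Adj t q ∧ G.Adj p q := by
  let F : V → V → ℤ := fun u v => a G o u * a G o v * (8 * δ u v - 4 * a G u v + 1)
  have sq : ∀ x, a G o x * a G o x = a G o x := fun x => by simp [a]
  have i1 : ∀ {u}, G.Adj o u → a G o u = 1 := fun h => if_pos h
  have P : ∀ {u}, G.Adj o u → ∑ x, a G o x * a G u x = 30 := fun h => by rw [aa hG]; simp [δ, a, h, h.ne]
  have := krein (E := F) (c := 48) (fun u v => by
    by_cases hu : G.Adj o u; swap; · simp [F, a, hu]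
    by_cases hv : G.Adj o v; swap; · simp [F, a, hv]
    rw [sum_congr rfl (g := fun w => 8 * (δ u w * (a G o w * (8 * δ v w - 4 * a G v w + 1))) +
      8 * (δ v w * (a G o w * (1 - 4 * a G u w))) + 16 * (a G o w * a G u w * a G v w) - 4 * (a G o w * a G u w)
      - 4 * (a G o w * a G v w) + a G o w) fun w _ => by
        simp only [F, i1 hu, i1 hv]; linear_combination (8 * δ u w - 4 * a G u w + 1) * (8 * δ v w - 4 * a G v w + 1) * sq w]
    simp only [sum_add_distrib, sum_sub_distrib, ← mul_sum, sδ, P hu, P hv, a1 hG, F, i1 hu, i1 hv]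
    rw [← T, T1 hG hu hv, δsy v u, asy v u]; ring) (fun u => by
    by_cases hu : G.Adj o u; swap; · simp [F, a, hu]
    rw [sum_congr rfl (g := fun w => 728 * (δ u w * a G o w) - 28 * (a G o w * a G u w) + a G o w) fun w _ => by
      by_cases e : u = w
      · simp [F, ← e, δ, a, hu]
      · simp only [F, δ, a, if_neg e, if_pos hu]; split_ifs <;> rfl]
    simp only [sum_add_distrib, sum_sub_distrib, ← mul_sum, sδ, P hu, a1 hG, i1 hu]; rfl) b t p
  rw [sum_congr rfl (g := fun x => 8 * (δ b x * (a G o x * ((8 * δ t x - 4 * a G t x + 1) * (8 * δ p x - 4 * a G p x + 1)))) +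
    8 * (δ t x * (a G o x * ((1 - 4 * a G b x) * (8 * δ p x - 4 * a G p x + 1)))) +
    8 * (δ p x * (a G o x * ((1 - 4 * a G b x) * (1 - 4 * a G t x)))) - 64 * (a G o x * a G b x * a G t x * a G p x)
    + 16 * (a G o x * a G b x * a G t x) + 16 * (a G o x * a G b x * a G p x) + 16 * (a G o x * a G t x * a G p x)
    - 4 * (a G o x * a G b x) - 4 * (a G o x * a G t x) - 4 * (a G o x * a G p x) + a G o x) fun x _ => by
      simp only [F, i1 h1, i1 h2, i1 h3, δsy x, asy x]
      linear_combination (8 * δ b x - 4 * a G b x + 1) * (8 * δ t x - 4 * a G t x + 1) * (8 * δ p x - 4 * a G p x + 1) *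
        (a G o x + 1) * sq x] at this
  simp only [sum_add_distrib, sum_sub_distrib, ← mul_sum, sδ, P h1, P h2, P h3, a1 hG] at this
  rw [← T, ← T, ← T, T1 hG h1 h2, T1 hG h1 h3, T1 hG h2 h3] at this
  by_contra! k
  rw [sum_eq_zero fun x _ => by have := k x; unfold a; split_ifs <;> simp_all] at this
  simp [a, δ, h1, h2, h3, h4, h5, h6, h4.symm, h5.symm, h6.symm, h4.ne, h5.ne, h6.ne, h4.ne', h5.ne', h6.ne'] at this

theorem zn {κ : Type*} [Fintype κ] (s : κ → V) (c : κ → ℤ) (h : ∀ k, ∑ l, c l * E G (s l) (s k) = 0) (x : V) :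
    ∑ l, c l * E G (s l) x = 0 := by
  have := zer (f := fun x => (∑ l, c l * E G (s l) x) ^ 2) (fun _ => sq_nonneg _) (by
    simp only [sq, sum_mul_sum]
    rw [sum_comm]
    refine sum_eq_zero fun k _ => ?_
    rw [sum_comm, sum_congr rfl (g := fun l => 150 * c k * (c l * E G (s l) (s k))) fun l _ => ?_, ← mul_sum, h, mul_zero]
    rw [sum_congr rfl (g := fun x => c k * c l * (E G (s l) x * E G (s k) x)) fun x _ => by ring, ← mul_sum, EE hG]; ring) x
  exact pow_eq_zero_iff two_ne_zero |>.1 this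

end

/-- an edge with its ten triangles -/
structure Fr (G : SimpleGraph V) (o b : V) {ι : Type*} [Fintype ι] (τ : ι → ZMod 3 → V) : Prop where
  ob : G.Adj o b
  mem : ∀ t, G.Adj o t ∧ G.Adj b t ↔ ∃ i k, τ i k = t
  adj : ∀ i j k l, G.Adj (τ i k) (τ j l) ↔ i = j ∧ k ≠ l
  inj : ∀ i j k l, τ i k = τ j l → i = j ∧ k = l
  card : Fintype.card ι = 10

theorem z3 : ∀ k : ZMod 3, k = 0 ∨ k = 1 ∨ k = 2 := by decide

theorem nex (hG : G.IsSRGWith 275 112 30 56) (h1 : G.Adj o b) {s : ZMod 3 → V} (h2 : ∀ k, G.Adj o (s k))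
    (h3 : ∀ k, G.Adj b (s k)) (h4 : ∀ k l, k ≠ l → G.Adj (s k) (s l)) (x : V) :
    E G o x + E G b x + (E G (s 0) x + E G (s 1) x + E G (s 2) x) = 0 := by
  have s3 : ∀ f : ZMod 3 → ℤ, ∑ k, f k = f 0 + f 1 + f 2 := fun f => Fin.sum_univ_three f
  have := zn hG (κ := Bool ⊕ ZMod 3) (Sum.elim (fun c => if c then o else b) s) 1 (by
    have h01 := h4 0 1 (by decide); have h02 := h4 0 2 (by decide); have h12 := h4 1 2 (by decide)
    rintro ((_ | _) | k) <;> simp [s3, E0, E1 h1, E1 h1.symm, E1 (h2 _), E1 (h2 _).symm, E1 (h3 _), E1 (h3 _).symm]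
    rcases z3 k with rfl | rfl | rfl <;> simp [E0, E1 h01, E1 h02, E1 h12, E1 h01.symm, E1 h02.symm, E1 h12.symm]) x
  simpa [s3] using this

theorem exists_fr (hG : G.IsSRGWith 275 112 30 56) (h : G.Adj o b) (h1 : ¬ G.Adj o w) (h2 : ¬ G.Adj b w) :
    ∃ τ : {t // G.Adj o t ∧ G.Adj b t ∧ ¬ G.Adj t w} → ZMod 3 → V, Fr G o b τ ∧ ∀ i, τ i 0 = i := by
  have n2 : ∀ {t}, G.Adj o t → G.Adj b t → #{x | G.Adj o x ∧ G.Adj b x ∧ G.Adj t x} = 2 := fun {t} c1 c2 => by
    have := T1 hG h c1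
    rw [T, cnt (fun x => G.Adj o x ∧ G.Adj b x ∧ G.Adj t x) _ 1 fun w => by unfold a; split_ifs <;> simp_all] at this
    simp only [δ, a, if_neg c2.ne, if_pos c2] at this
    omega
  have tr : ∀ {t}, G.Adj o t → G.Adj b t → ∃ s : ZMod 3 → V, s 0 = t ∧ (∀ k, G.Adj o (s k)) ∧ (∀ k, G.Adj b (s k)) ∧
      ∀ k l, k ≠ l → G.Adj (s k) (s l) := fun {t} c1 c2 => by
    obtain ⟨p, hp⟩ := card_pos.1 ((n2 c1 c2).symm ▸ two_pos)
    rw [mem_filter_univ] at hp
    obtain ⟨q, q1, q2, q3, q4⟩ := K5 hG h c1 hp.1 c2 hp.2.1 hp.2.2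
    refine ⟨![t, p, q], rfl, fun k => by fin_cases k <;> simp_all, fun k => by fin_cases k <;> simp_all, fun k l n => ?_⟩
    rcases z3 k with rfl | rfl | rfl <;> rcases z3 l with rfl | rfl | rfl <;>
      first | exact absurd rfl n | exact hp.2.2 | exact q3 | exact q4 | exact hp.2.2.symm | exact q3.symm | exact q4.symm
  have cl : ∀ {s : ZMod 3 → V}, (∀ k, G.Adj o (s k)) → (∀ k, G.Adj b (s k)) → (∀ k l, k ≠ l → G.Adj (s k) (s l)) →
      ∀ k x, G.Adj o x → G.Adj b x → G.Adj (s k) x → ∃ l, s l = x := fun {s} c1 c2 c3 k x d1 d2 d3 => by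
    by_contra! n
    have := nex hG h c1 c2 c3 x
    rw [E1 d1, E1 d2] at this
    have e : ∀ l, E G (s l) x = -3 ∨ E G (s l) x = 2 := fun l =>
      (em (G.Adj (s l) x)).imp E1 fun c => E2 c (n l)
    have := E1 d3
    have := e 0; have := e 1; have := e 2
    rcases z3 k with rfl | rfl | rfl <;> omega
  choose s s0 s1 s2 s3 using fun i : {t // G.Adj o t ∧ G.Adj b t ∧ ¬ G.Adj t w} => tr i.2.1 i.2.2.1
  have nw : ∀ {x}, G.Adj o x → x ≠ w := fun c e => h1 (e ▸ c)
  have ow := E2 h1 fun e => h2 (e ▸ h.symm)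
  have bw := E2 h2 fun e => h1 (e ▸ h)
  have w1 : ∀ i k, k ≠ 0 → G.Adj (s i k) w := fun i k c => by_contra fun n => by
    have := nex hG h (s1 i) (s2 i) (s3 i) w
    have e : ∀ l, E G (s i l) w = -3 ∨ E G (s i l) w = 2 := fun l =>
      (em (G.Adj (s i l) w)).imp E1 fun c => E2 c (nw (s1 i l))
    have := E2 n (nw (s1 i k))
    have := E2 (s0 i ▸ i.2.2.2 : ¬ G.Adj (s i 0) w) (nw (s1 i 0))
    have := e 1; have := e 2
    rcases z3 k with rfl | rfl | rfl
    exacts [c rfl, by omega, by omega]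
  have ij : ∀ i j k l, s i k = s j l → i = j := fun i j k l e => by
    have : ∃ m, s j m = i := by
      by_cases c : k = 0
      · exact ⟨l, by rw [← e, c, s0]⟩
      · exact cl (s1 j) (s2 j) (s3 j) l i i.2.1 i.2.2.1 (by rw [← e, ← s0 i]; exact s3 i k 0 c)
    obtain ⟨m, hm⟩ := this
    by_cases c : m = 0
    · exact Subtype.ext (by rw [← hm, c, s0])
    · exact absurd (hm ▸ w1 j m c) i.2.2.2
  refine ⟨s, ⟨h, fun t => ⟨fun c => ?_, by rintro ⟨i, k, rfl⟩; exact ⟨s1 i k, s2 i k⟩⟩, fun i j k l => ⟨fun c => ?_, ?_⟩,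
    fun i j k l e => ?_, ?_⟩, s0⟩
  · obtain ⟨r, r0, r1, r2, r3⟩ := tr c.1 c.2
    obtain ⟨k, hk⟩ : ∃ k, ¬ G.Adj (r k) w := by
      by_contra! n
      have := nex hG h r1 r2 r3 w
      rw [E1 (n 0), E1 (n 1), E1 (n 2)] at this
      omega
    refine ⟨⟨r k, r1 k, r2 k, hk⟩, ?_⟩
    by_cases e : k = 0
    · exact ⟨0, by rw [s0, ← r0, ← e]⟩
    · exact cl (s1 _) (s2 _) (s3 _) 0 t c.1 c.2 (by rw [s0, ← r0]; exact r3 k 0 e)
  · obtain ⟨m, hm⟩ := cl (s1 i) (s2 i) (s3 i) k _ (s1 j l) (s2 j l) c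
    obtain rfl := ij _ _ _ _ hm
    exact ⟨rfl, fun e => c.ne (by rw [e])⟩
  · rintro ⟨rfl, e⟩; exact s3 i k l e
  · obtain rfl := ij _ _ _ _ e
    exact ⟨rfl, by_contra fun n => (s3 i k l n).ne e⟩
  · have := cnt (fun t => G.Adj o t ∧ G.Adj b t ∧ ¬ G.Adj t w) (fun x => a G o x * a G b x - a G o x * a G b x * a G w x) 1
      fun x => by simp only [a, G.adj_comm x]; split_ifs <;> simp_all
    rw [sum_sub_distrib, aa hG, ← T, T2 hG h h1 h2] at this
    simp only [δ, a, if_neg h.ne, if_pos h] at this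
    rw [Fintype.card_subtype]; omega

variable {ι : Type*} [Fintype ι] {τ : ι → ZMod 3 → V} {c c' : Option ι → ZMod 3} {w' : V}

/-- the remaining vertices -/
def Ot (G : SimpleGraph V) (o b w : V) : Prop := ¬ (G.Adj o w ∧ G.Adj b w) ∧ o ≠ w ∧ b ≠ w

/-- the word of a vertex -/
structure Cd (G : SimpleGraph V) (o b : V) (τ : ι → ZMod 3 → V) (w : V) (c : Option ι → ZMod 3) : Prop where
  o : G.Adj o w ↔ c none = 1
  b : G.Adj b w ↔ c none = 2
  t : ∀ i k, G.Adj (τ i k) w ↔ (k = c (some i) ↔ c none ≠ 0)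

omit [Fintype V] [DecidableRel G.Adj] [Fintype ι] in
theorem Cd.uniq (h : Cd G o b τ w c) (h' : Cd G o b τ w c') : c = c' := by
  have e : c none = c' none := by
    have := h.o.symm.trans h'.o
    have := h.b.symm.trans h'.b
    revert this; revert this
    generalize c none = x; generalize c' none = y
    revert x y; decide
  funext x
  rcases x with _ | i
  · exact e
  · have := (h.t i (c (some i))).symm.trans (h'.t i _)
    rw [e] at this
    by_cases k : c' none = 0 <;> simpa [k] using this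

namespace Fr
variable (hG : G.IsSRGWith 275 112 30 56) (F : Fr G o b τ)
include F

omit [Fintype V] [DecidableRel G.Adj] in
theorem oa (i : ι) (k : ZMod 3) : G.Adj o (τ i k) := ((F.mem _).2 ⟨i, k, rfl⟩).1
omit [Fintype V] [DecidableRel G.Adj] in
theorem tb (i : ι) (k : ZMod 3) : G.Adj b (τ i k) := ((F.mem _).2 ⟨i, k, rfl⟩).2
omit [Fintype V] [DecidableRel G.Adj] in
theorem tw (h : Ot G o b w) (i : ι) (k : ZMod 3) : τ i k ≠ w := fun e => h.1 (e ▸ ⟨F.oa i k, F.tb i k⟩)

include hG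

theorem ex (h : Ot G o b w) : ∃ c, Cd G o b τ w c := by
  have : ∀ i, ∃ c, ∀ k, G.Adj (τ i k) w ↔ (k = c ↔ (G.Adj o w ∨ G.Adj b w)) := fun i => by
    have := nex hG F.ob (F.oa i) (F.tb i) (fun k l n => (F.adj i i k l).2 ⟨rfl, n⟩) w
    have n := F.tw h i
    have bl : ∀ (p : ZMod 3 → Bool) (d e : Bool), ¬ (d ∧ e) → (if d then 1 else 0) + (if e then 1 else 0) +
        ((if p 0 then 1 else 0) + (if p 1 then 1 else 0) + (if p 2 then 1 else 0)) = (2 : ℤ) →
        ∃ c, ∀ k, p k ↔ (k = c ↔ (d ∨ e)) := by decide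
    simp only [E, δ, a, if_neg h.2.1, if_neg h.2.2, if_neg (n _)] at this
    simpa using bl (fun k => decide (G.Adj (τ i k) w)) (decide (G.Adj o w)) (decide (G.Adj b w)) (by simpa using h.1)
      (by simp only [decide_eq_true_eq]; omega)
  choose s hs using this
  have := h.1
  refine ⟨fun x => x.elim (if G.Adj o w then 1 else if G.Adj b w then 2 else 0) s, ?_, ?_, fun i k => ?_⟩
  · simp only [Option.elim]; split_ifs <;> simp_all <;> decide
  · simp only [Option.elim]; split_ifs <;> simp_all <;> decide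
  · have h2 : (2 : ZMod 3) ≠ 0 := by decide
    simp only [Option.elim, hs]; split_ifs <;> simp_all

theorem rel (h : Ot G o b w) (k : Cd G o b τ w c) (x : V) : 3 * (1 - 2 * a G o w - 2 * a G b w) * E G w x =
    ∑ i, E G (τ i (c (some i))) x + (4 - a G b w) * E G o x + (4 - a G o w) * E G b x := by
  have s1 : ∀ i, ∑ j, E G (τ j (c (some j))) (τ i (c (some i))) = 30 := fun i => by
    rw [sum_congr rfl (g := fun j => (if j = i then 10 else 0) + 2) fun j _ => by
      split_ifs with e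
      · rw [e, E0]; rfl
      · rw [E2 (fun n => e ((F.adj ..).1 n).1) fun n => e (F.inj _ _ _ _ n).1]; rfl]
    simp [sum_add_distrib, F.card]
  have s2 : ∀ i, E G (τ i (c (some i))) w = if c none = 0 then 2 else -3 := fun i => by
    split_ifs with e
    · exact E2 (by simp [k.t, e]) (F.tw h _ _)
    · exact E1 (by simp [k.t, e])
  have := zn hG (κ := Fin 3 ⊕ ι) (Sum.elim ![w, o, b] fun i => τ i (c (some i)))
    (Sum.elim ![-3 * (1 - 2 * a G o w - 2 * a G b w), 4 - a G b w, 4 - a G o w] 1) (by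
      have e1 : E G o w = 2 - 5 * a G o w := by simp [E, δ, h.2.1]; ring
      have e2 : E G b w = 2 - 5 * a G b w := by simp [E, δ, h.2.2]; ring
      have ko := k.o
      have kb := k.b
      rintro (l | i)
      · fin_cases l <;> simp [Fin.sum_univ_three, E0, E1 F.ob, E1 F.ob.symm, fun i k => E1 (F.oa i k).symm, fun i k => E1 (F.tb i k).symm, Esy w,
          e1, e2, s2, F.card] <;> rcases z3 (c none) with e | e | e <;> simp only [a, ko, kb, e] <;> decide
      · simp [Fin.sum_univ_three, fun i k => E1 (F.oa i k), fun i k => E1 (F.tb i k), Esy w, s1, s2]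
        rcases z3 (c none) with e | e | e <;> simp only [a, ko, kb, e] <;> decide) x
  simp [Fin.sum_univ_three] at this
  linarith

theorem dist (h : Ot G o b w) (k : Cd G o b τ w c) (h' : Ot G o b w') (k' : Cd G o b τ w' c') (n : w ≠ w') :
    (#{x | c x ≠ c' x} = 6 ∨ #{x | c x ≠ c' x} = 9) ∧ (G.Adj w w' ↔ (#{x | c x ≠ c' x} = 9 ↔ (c none = 0 ↔ c' none = 0))) := by
  have r := F.rel hG h k w'
  have e1 : E G o w' = 2 - 5 * a G o w' := by simp [E, δ, h'.2.1]; ring
  have e2 : E G b w' = 2 - 5 * a G b w' := by simp [E, δ, h'.2.2]; ring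
  have e3 : E G w w' = 2 - 5 * a G w w' := by simp [E, δ, n]; ring
  have e4 : (#{x | c x ≠ c' x} : ℤ) = (if c none ≠ c' none then 1 else 0) + ∑ i, if c (some i) ≠ c' (some i) then 1 else 0 := by
    rw [card_filter]; push_cast; rw [Fintype.sum_option]
  rw [sum_congr rfl (g := fun i => (if c' none = 0 then 2 else -3) + (if c' none = 0 then -5 else 5) *
    if c (some i) ≠ c' (some i) then 1 else 0) fun i _ => by
      simp only [E, δ, a, if_neg (F.tw h' _ _), k'.t]; split_ifs <;> simp_all, sum_add_distrib, ← mul_sum, sum_const,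
      card_univ, F.card, e1, e2, e3] at r
  generalize #{x | c x ≠ c' x} = d at *
  generalize (∑ i, if c (some i) ≠ c' (some i) then 1 else 0 : ℤ) = m at *
  simp only [a, k.o, k.b, k'.o, k'.b] at r
  have h1 : (1 : ZMod 3) ≠ 0 := by decide
  have h2 : (2 : ZMod 3) ≠ 0 := by decide
  have h3 : (2 : ZMod 3) ≠ 1 := by decide
  rcases z3 (c none) with e | e | e <;> rcases z3 (c' none) with e' | e' | e' <;> by_cases q : G.Adj w w' <;>
    simp [e, e', q, h1, h2, h3, h1.symm, h2.symm, h3.symm] at r e4 ⊢ <;> omega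

theorem cardO : Fintype.card {w // Ot G o b w} = 243 := by
  have := cnt (Ot G o b) (fun x => 1 - a G o x * a G b x - δ o x - δ b x) 1 fun x => by
    have := F.ob.ne
    have := G.loopless.irrefl x
    simp only [a, δ, Ot]; split_ifs <;> simp_all
  simp only [sum_sub_distrib, aa hG, one hG, sδ1] at this
  simp only [δ, a, if_neg F.ob.ne, if_pos F.ob] at this
  rw [Fintype.card_subtype]; omega

end Fr

end Cfsg.Agent.H29.Ml
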