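import Cfsg.Agent.H29.Ml1
import Cfsg.Agent.H29.Ml2
import Cfsg.Agent.S0426

/-! Uniqueness of the McLaughlin graph and a bound for its automorphism group. -/

set_option autoImplicit false
open Cfsg Finset SimpleGraph Cfsg.Agent.H29.Sg MulAction
open scoped Classical Pointwise

namespace Cfsg.Agent.H29.Ml

variable {V : Type*} {G : SimpleGraph V} {o b w w' : V} {ι ι' : Type*} {τ : ι → ZMod 3 → V} {c : Option ι → ZMod 3}

theorem sg : ∀ s k l : ZMod 3, s * s = 1 → (s * k = l ↔ k = s * l) := by decide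

theorem Cd.re (h : Cd G o b τ w c) (f : ι' → ι) {σ : ι' → ZMod 3} (hσ : ∀ y, σ y * σ y = 1) :
    Cd G o b (fun y k => τ (f y) (σ y * k)) w fun x => x.elim (c none) fun y => σ y * c (some (f y)) :=
  ⟨h.o, h.b, fun i k => by rw [h.t, sg _ _ _ (hσ i)]; rfl⟩

variable [Fintype ι] [Fintype ι']

theorem Fr.re (F : Fr G o b τ) (f : ι' ≃ ι) {σ : ι' → ZMod 3} (hσ : ∀ y, σ y * σ y = 1) :
    Fr G o b fun y k => τ (f y) (σ y * k) := by
  have s : ∀ y k l, σ y * k = σ y * l ↔ k = l := fun y k l => by rw [sg _ _ _ (hσ y), ← mul_assoc, hσ, one_mul]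
  refine ⟨F.ob, fun t => (F.mem t).trans ⟨?_, fun ⟨i, k, e⟩ => ⟨_, _, e⟩⟩, fun i j k l => ?_, fun i j k l e => ?_,
    (Fintype.card_congr f).trans F.card⟩
  · rintro ⟨i, k, rfl⟩
    obtain ⟨i, rfl⟩ := f.surjective i
    exact ⟨i, σ i * k, by rw [← mul_assoc, hσ, one_mul]⟩
  · rw [F.adj, f.apply_eq_iff_eq]
    exact and_congr_right fun e => by rw [e, ne_eq, s]
  · obtain ⟨e1, e2⟩ := F.inj _ _ _ _ e
    obtain rfl := f.injective e1
    exact ⟨rfl, (s _ _ _).1 e2⟩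

/-- the vertices of the model -/
abbrev Dm := Bool ⊕ ((Fin 4 ⊕ Fin 6) × ZMod 3) ⊕ Subtype P0

def madj : Dm → Dm → Prop
  | .inl s, .inl t => s ≠ t
  | .inl _, .inr (.inl _) => True
  | .inr (.inl _), .inl _ => True
  | .inl s, .inr (.inr c) => c.1 none = if s then 1 else 2
  | .inr (.inr c), .inl s => c.1 none = if s then 1 else 2
  | .inr (.inl p), .inr (.inl q) => p.1 = q.1 ∧ p.2 ≠ q.2
  | .inr (.inl p), .inr (.inr c) => p.2 = c.1 (some p.1) ↔ c.1 none ≠ 0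
  | .inr (.inr c), .inr (.inl p) => p.2 = c.1 (some p.1) ↔ c.1 none ≠ 0
  | .inr (.inr c), .inr (.inr c') => c ≠ c' ∧ (#{x | c.1 x ≠ c'.1 x} = 9 ↔ (c.1 none = 0 ↔ c'.1 none = 0))

variable [Fintype V] [DecidableRel G.Adj] (hG : G.IsSRGWith 275 112 30 56)
include hG

theorem Fr.cinj (F : Fr G o b τ) (h : Ot G o b w) (k : Cd G o b τ w c) (h' : Ot G o b w') (k' : Cd G o b τ w' c) : w = w' :=
  by_contra fun n => by simpa using (F.dist hG h k h' k' n).1

theorem Fr.code (F : Fr G o b τ) (h : Ot G o b w) (k : Cd G o b τ w 0) :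
    ∃ S : Submodule (ZMod 3) (Option ι → ZMod 3), Co S ∧ ∀ u, u ∈ S ↔ ∃ w, Ot G o b w ∧ Cd G o b τ w u := by
  choose f hf using fun w : {w // Ot G o b w} => F.ex hG w.2
  have i : Function.Injective f := fun x y e => Subtype.ext (F.cinj hG x.2 (hf x) y.2 (e ▸ hf y))
  have m : ∀ u, u ∈ univ.image f ↔ ∃ w, Ot G o b w ∧ Cd G o b τ w u := fun u => by
    simp only [mem_image, mem_univ, true_and]
    exact ⟨fun ⟨x, e⟩ => ⟨x, x.2, e ▸ hf x⟩, fun ⟨x, p, q⟩ => ⟨⟨x, p⟩, (hf _).uniq q⟩⟩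
  obtain ⟨S, h1, h2⟩ := lin (univ.image f) (by rw [card_image_of_injective _ i, card_univ, F.cardO hG])
    ((m 0).2 ⟨w, h, k⟩) (by simp [F.card]) (by
      simp only [m]
      rintro u ⟨x, p, q⟩ v ⟨y, p', q'⟩ n
      convert (F.dist hG p q p' q' fun e => n (q.uniq (e ▸ q'))).1)
  exact ⟨S, h1, fun u => (h2 u).trans (m u)⟩

theorem base (h : G.Adj o b) (h1 : ¬ G.Adj o w) (h2 : ¬ G.Adj b w) :
    ∃ τ : {t // G.Adj o t ∧ G.Adj b t ∧ ¬ G.Adj t w} → ZMod 3 → V, Fr G o b τ ∧ (∀ i, τ i 0 = i) ∧ Ot G o b w ∧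
      Cd G o b τ w 0 := by
  obtain ⟨τ, F, e⟩ := exists_fr hG h h1 h2
  have O : Ot G o b w := ⟨fun c => h1 c.1, fun e => h2 (e ▸ h.symm), fun e => h1 (e ▸ h)⟩
  obtain ⟨c, k⟩ := F.ex hG O
  have c0 : c none = 0 := by
    rcases z3 (c none) with e | e | e
    exacts [e, absurd (k.o.2 e) h1, absurd (k.b.2 e) h2]
  refine ⟨τ, F, e, O, ?_⟩
  convert k
  ext x
  rcases x with _ | i
  · exact c0.symm
  · simpa [e, c0, i.2.2.2] using k.t i 0

theorem cO (h : G.Adj o b) : #{w | ¬ G.Adj o w ∧ ¬ G.Adj b w} = 81 := by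
  have := cnt (fun w => ¬ G.Adj o w ∧ ¬ G.Adj b w) (fun x => 1 - a G o x - a G b x + a G o x * a G b x) 1 fun x => by
    unfold a; split_ifs <;> simp_all
  simp only [sum_sub_distrib, sum_add_distrib, aa hG, one hG, a1 hG] at this
  simp only [δ, a, if_neg h.ne, if_pos h] at this
  omega

theorem triple : ∃ o b w, G.Adj o b ∧ ¬ G.Adj o w ∧ ¬ G.Adj b w := by
  obtain ⟨o⟩ : Nonempty V := Fintype.card_pos_iff.1 (hG.card ▸ by omega)
  obtain ⟨b, h⟩ := (G.degree_pos_iff_exists_adj o).1 (hG.regular o ▸ by omega)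
  obtain ⟨w, hw⟩ := card_pos.1 ((cO hG h).symm ▸ by omega : 0 < #{w | ¬ G.Adj o w ∧ ¬ G.Adj b w})
  exact ⟨o, b, w, h, (mem_filter.1 hw).2⟩

theorem model : ∃ e : Dm ≃ V, ∀ x y, G.Adj (e x) (e y) ↔ madj x y := by
  obtain ⟨o, b, w, h, h1, h2⟩ := triple hG
  obtain ⟨τ, F, -, O, k⟩ := base hG h h1 h2
  obtain ⟨S, hS, m⟩ := F.code hG O k
  obtain ⟨f, σ, hσ, n⟩ := hS.nf
  have F' := F.re f hσ
  have m1 : ∀ w, Ot G o b w → ∃ c, P0 c ∧ Cd G o b (fun y k => τ (f y) (σ y * k)) w c := fun w p => by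
    obtain ⟨c, q⟩ := F.ex hG p
    exact ⟨_, (n c).1 ((m c).2 ⟨w, p, q⟩), q.re f hσ⟩
  have m2 : ∀ c : Subtype P0, ∃ w, Ot G o b w ∧ Cd G o b (fun y k => τ (f y) (σ y * k)) w c := fun c => by
    have e : c.1 = fun x => x.elim (c.1 none) fun y => σ y * (σ (f.symm (f y)) * c.1 (some (f.symm (f y)))) := by
      ext x; rcases x with _ | y <;> simp [← mul_assoc, hσ]
    obtain ⟨w, p, q⟩ := (m _).1 ((n fun x => x.elim (c.1 none) fun i => σ (f.symm i) * c.1 (some (f.symm i))).2 (e ▸ c.2))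
    exact ⟨w, p, e ▸ q.re f hσ⟩
  generalize (fun y k => τ (f y) (σ y * k)) = τ at F' m1 m2
  choose g g1 g2 using m2
  have gi : Function.Injective g := fun x y e => Subtype.ext ((g2 x).uniq (e ▸ g2 y))
  suffices ∃ e : Dm → V, e.Bijective ∧ ∀ x y, G.Adj (e x) (e y) ↔ madj x y from
    let ⟨e, h1, h2⟩ := this; ⟨.ofBijective e h1, h2⟩
  refine ⟨Sum.elim (fun s => if s then o else b) (Sum.elim (fun p => τ p.1 p.2) g), ⟨?_, fun x => ?_⟩, ?_⟩
  · have := h.ne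
    have := h.ne'
    have := fun i k => (F'.oa i k).ne
    have := fun i k => (F'.tb i k).ne
    have := fun i k => (F'.oa i k).ne'
    have := fun i k => (F'.tb i k).ne'
    have := fun c => (g1 c).2.1
    have := fun c => (g1 c).2.2
    have := fun c => (g1 c).2.1.symm
    have := fun c => (g1 c).2.2.symm
    have := fun c => F'.tw (g1 c)
    have := fun c i k => (F'.tw (g1 c) i k).symm
    rintro ((_ | _) | p | c) ((_ | _) | q | d) e <;> simp_all only [Sum.elim_inl, Sum.elim_inr, if_true, if_false,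
      Bool.false_eq_true, ne_eq, not_true_eq_false]
    · rw [Prod.ext (F'.inj _ _ _ _ e).1 (F'.inj _ _ _ _ e).2]
    · rw [gi e]
  · by_cases c1 : o = x
    · exact ⟨.inl true, c1⟩
    by_cases c2 : b = x
    · exact ⟨.inl false, c2⟩
    by_cases c3 : G.Adj o x ∧ G.Adj b x
    · obtain ⟨i, k, e⟩ := (F'.mem x).1 c3
      exact ⟨.inr (.inl (i, k)), e⟩
    · obtain ⟨c, p, q⟩ := m1 x ⟨c3, c1, c2⟩
      exact ⟨.inr (.inr ⟨c, p⟩), F'.cinj hG (g1 _) (g2 _) ⟨c3, c1, c2⟩ q⟩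
  · rintro ((_ | _) | p | c) ((_ | _) | q | d) <;> simp only [Sum.elim_inl, Sum.elim_inr, if_true, if_false,
      Bool.false_eq_true, madj, G.adj_comm (g _) o, G.adj_comm (g _) b, G.adj_comm (g _) (τ _ _), (g2 _).o, (g2 _).b, (g2 _).t,
      F'.adj, F'.oa, F'.tb, (F'.oa _ _).symm, (F'.tb _ _).symm, h, h.symm, G.irrefl] <;> try simp
    by_cases e : c = d
    · simp [e]
    · simpa [e] using (F'.dist hG (g1 c) (g2 c) (g1 d) (g2 d) (gi.ne e)).2

theorem uniq {W : Type*} [Fintype W] {H : SimpleGraph W} [DecidableRel H.Adj] (hH : H.IsSRGWith 275 112 30 56) :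
    Nonempty (G ≃g H) := by
  obtain ⟨e, he⟩ := model hG
  obtain ⟨f, hf⟩ := model hH
  exact ⟨⟨e.symm.trans f, fun {x y} => by rw [Equiv.trans_apply, Equiv.trans_apply, hf, ← he]; simp⟩⟩

theorem rigid (φ : G ≃g G) (h : G.Adj o b) (h1 : ¬ G.Adj o w) (h2 : ¬ G.Adj b w) (e1 : φ o = o) (e2 : φ b = b) (e3 : φ w = w)
    (t : Fin 3 → V) (ti : t.Injective) (ht : ∀ i, G.Adj o (t i) ∧ G.Adj b (t i) ∧ ¬ G.Adj (t i) w) (e4 : ∀ i, φ (t i) = t i) :
    φ = 1 := by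
  obtain ⟨τ, F, e0, O, k⟩ := base hG h h1 h2
  obtain ⟨S, hS, m⟩ := F.code hG O k
  have ao : ∀ x, G.Adj o (φ x) ↔ G.Adj o x := fun x => by conv_lhs => rw [← e1, φ.map_adj_iff]
  have ab : ∀ x, G.Adj b (φ x) ↔ G.Adj b x := fun x => by conv_lhs => rw [← e2, φ.map_adj_iff]
  have aw : ∀ x, G.Adj (φ x) w ↔ G.Adj x w := fun x => by conv_lhs => rw [← e3, φ.map_adj_iff]
  let σ : Equiv.Perm {t // G.Adj o t ∧ G.Adj b t ∧ ¬ G.Adj t w} := φ.toEquiv.subtypeEquiv fun x => by simp [ao, ab, aw]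
  have s0 : ∀ i, φ (τ i 0) = τ (σ i) 0 := fun i => by rw [e0, e0]; rfl
  have s1 : ∀ i, ∃ η : ZMod 3, η * η = 1 ∧ ∀ k, φ (τ i k) = τ (σ i) (η * k) := fun i => by
    have : ∀ k, ∃ l, φ (τ i k) = τ (σ i) l := fun k => by
      by_cases c : k = 0
      · exact ⟨0, c ▸ s0 i⟩
      obtain ⟨j, l, e⟩ := (F.mem (φ (τ i k))).1 ⟨(ao _).2 (F.oa i k), (ab _).2 (F.tb i k)⟩
      have := φ.map_adj_iff.2 ((F.adj i i k 0).2 ⟨rfl, c⟩)
      rw [← e, s0, F.adj] at this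
      exact ⟨l, this.1 ▸ e.symm⟩
    choose π hπ using this
    have d : ∀ π : ZMod 3 → ZMod 3, π 0 = 0 → (∀ k l, π k = π l → k = l) → ∃ η : ZMod 3, η * η = 1 ∧ ∀ k, π k = η * k := by
      decide +kernel
    obtain ⟨η, p, q⟩ := d π (F.inj _ _ _ _ ((hπ 0).symm.trans (s0 i))).2 fun k l e =>
      (F.inj _ _ _ _ (φ.injective ((hπ k).trans (e ▸ (hπ l).symm)))).2
    exact ⟨η, p, fun k => q k ▸ hπ k⟩
  choose η η1 η2 using s1
  have cd : ∀ x c, Ot G o b x → Cd G o b τ x c → Ot G o b (φ x) ∧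
      Cd G o b τ (φ x) fun y => y.elim (c none) fun j => η (σ.symm j) * c (some (σ.symm j)) := fun x c p q => by
    refine ⟨⟨by simpa [ao, ab] using p.1, fun e => p.2.1 (φ.injective (e1.trans e)), fun e => p.2.2 (φ.injective (e2.trans e))⟩,
      (ao x).trans q.o, (ab x).trans q.b, fun j l => ?_⟩
    obtain ⟨i, rfl⟩ := σ.surjective j
    rw [show τ (σ i) l = φ (τ i (η i * l)) by rw [η2, ← mul_assoc, η1, one_mul], φ.map_adj_iff, q.t, sg _ _ _ (η1 i)]
    simp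
  have tr : ∀ u ∈ S, (fun y => y.elim (u none) fun j => η (σ.symm j) * u (some (σ.symm j))) ∈ S := fun u hu =>
    let ⟨x, p, q⟩ := (m u).1 hu; (m _).2 ⟨_, cd x u p q⟩
  have η0 : ∀ i, η i ≠ 0 := fun i c => by simpa [c] using η1 i
  have σ1 : σ = 1 := by
    have hB := (S0426.result hS.n hS.steiner).2.2 ⟨Fin.cons none fun i => some ⟨t i, ht i⟩, Fin.cons_injective_iff.2
      ⟨by simp, fun i j e => ti (by simpa using e)⟩⟩
    obtain ⟨θ, hθ⟩ : ∃ θ : Equiv.Perm (Option _), θ = σ.optionCongr := ⟨_, rfl⟩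
    have : θ ∈ setSystemAut {Z | #Z = 5 ∧ ∃ u ∈ S, Z = ({x | u x = 0} : Finset _)} :=
      (mem_stabilizer_set_iff_smul_set_subset (Set.toFinite _)).2 (by
        rintro _ ⟨_, ⟨c, u, hu, rfl⟩, rfl⟩
        refine ⟨by simpa using c, _, tr u hu, ?_⟩
        ext x
        rw [← inv_smul_mem_iff]
        rcases x with _ | j <;> simp [η0, hθ, Equiv.Perm.inv_def, ← Equiv.optionCongr_symm])
    have := congrArg Subtype.val (hB.le (show (⟨_, this⟩ : setSystemAut _) ∈ stabilizer _ _ from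
      Function.Embedding.ext fun i => by
        subst hθ
        refine Fin.cases rfl (fun i => congrArg some (Subtype.ext (e4 i))) i))
    subst hθ
    ext i
    exact congrArg Subtype.val (Option.some.inj (congrArg (· (some i)) this :))
  simp only [σ1, Equiv.Perm.one_symm, Equiv.Perm.one_apply] at tr η2 cd
  have sp : ∀ u ∈ S, #{x | u x ≠ 0} = 6 → ∀ x, u x ≠ 0 → x.elim 1 η = 1 → ∀ i, u (some i) ≠ 0 → η i = 1 :=
    fun u hu c x p q i r => by
      have q1 := hS.wt _ (S.sub_mem (tr u hu) hu)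
      have : #{y | ((fun y : Option _ => y.elim (u none) fun j => η j * u (some j)) - u) y ≠ 0} ≤ 5 := by
        refine (card_le_card (t := ({y | u y ≠ 0} : Finset _).erase x) fun y hy => ?_).trans (by
          rw [card_erase_of_mem (by simpa using p), c])
        rw [mem_filter_univ] at hy
        refine mem_erase.2 ⟨?_, (mem_filter_univ _).2 fun e => hy ?_⟩
        · rintro rfl; rcases y with _ | y <;> simp_all
        · rcases y with _ | y <;> simp_all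
      have := congrFun (by_contra fun n => by have := q1 n; omega : (fun y : Option _ => y.elim (u none) fun j => η j * u (some j)) - u = 0) (some i)
      simpa [sub_eq_zero, r] using this
  have η3 : ∀ i, η i = 1 := fun i => by
    obtain ⟨u, hu, p, q⟩ := hS.six none
    obtain ⟨v, hv, p', q'⟩ := hS.six (some i)
    obtain ⟨x, hx⟩ : (({x | u x ≠ 0} : Finset _) ∩ ({x | v x ≠ 0} : Finset _)).Nonempty := by
      have := card_union_add_card_inter ({x | u x ≠ 0} : Finset _) {x | v x ≠ 0}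
      have := card_le_univ (({x | u x ≠ 0} : Finset _) ∪ ({x | v x ≠ 0} : Finset _))
      rw [hS.n] at this
      exact card_pos.1 (by omega)
    simp only [mem_inter, mem_filter_univ] at hx
    refine sp v hv q' x hx.2 ?_ i p'
    rcases x with _ | j
    exacts [rfl, sp u hu q none p rfl j hx.1]
  ext x
  change φ x = x
  by_cases c1 : o = x
  · exact c1 ▸ e1
  by_cases c2 : b = x
  · exact c2 ▸ e2
  by_cases c3 : G.Adj o x ∧ G.Adj b x
  · obtain ⟨i, k, rfl⟩ := (F.mem x).1 c3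
    rw [η2, η3, one_mul]
  · obtain ⟨c, q⟩ := F.ex hG ⟨c3, c1, c2⟩
    obtain ⟨p, r⟩ := cd x c ⟨c3, c1, c2⟩ q
    refine F.cinj hG p ?_ ⟨c3, c1, c2⟩ q
    convert r with y
    rcases y with _ | y <;> simp [η3]

omit hG in
theorem step {Γ : Type*} [Group Γ] [Finite Γ] [MulAction Γ V] (K : Subgroup Γ) (v : V) (s : Finset V)
    (h : ∀ g ∈ K, g • v ∈ s) : Nat.card K ≤ #s * Nat.card (K ⊓ stabilizer Γ v :) := by
  have := (stabilizer K v).index_mul_card
  rw [← this, index_stabilizer, show stabilizer K v = (K ⊓ stabilizer Γ v).subgroupOf K by ext; simp [Subgroup.mem_subgroupOf]; rfl,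
    Nat.card_congr (Subgroup.subgroupOfEquivOfLe inf_le_left).toEquiv]
  refine Nat.mul_le_mul_right _ ((Set.ncard_le_ncard (t := s) ?_).trans (Set.ncard_coe_finset s).le)
  rintro _ ⟨g, rfl⟩; exact h g g.2

theorem card_aut : Nat.card (G ≃g G) ≤ 1796256000 := by
  have : Finite (G ≃g G) := .of_injective _ RelIso.toEquiv_injective
  obtain ⟨o, b, w, h, h1, h2⟩ := triple hG
  obtain ⟨τ, F, -⟩ := exists_fr hG h h1 h2
  have cZ : #{t | G.Adj o t ∧ G.Adj b t ∧ ¬ G.Adj t w} = 10 := (Fintype.card_subtype _).symm.trans F.card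
  generalize hZ : ({t | G.Adj o t ∧ G.Adj b t ∧ ¬ G.Adj t w} : Finset V) = Z at cZ
  have mZ : ∀ t, t ∈ Z ↔ G.Adj o t ∧ G.Adj b t ∧ ¬ G.Adj t w := by simp [← hZ]
  obtain ⟨x, hx, y, hy, z, hz, n1, n2, n3⟩ := two_lt_card.1 (show 2 < #Z by omega)
  have ti : Function.Injective ![x, y, z] := by
    clear * - n1 n2 n3
    intro i j c; fin_cases i <;> fin_cases j <;> simp_all
  have ad : ∀ (φ : G ≃g G) {u}, φ ∈ stabilizer _ u → ∀ v, G.Adj u (φ • v) ↔ G.Adj u v := fun φ u e v => by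
    conv_lhs => rw [← e]
    exact φ.map_adj_iff
  have inZ : ∀ φ : G ≃g G, φ ∈ ⊤ ⊓ stabilizer _ o ⊓ stabilizer _ b ⊓ stabilizer _ w → ∀ t ∈ Z, φ • t ∈ Z := fun φ e t ht => by
    rwa [mZ, ad φ e.1.1.2, ad φ e.1.2, G.adj_comm _ w, ad φ e.2, G.adj_comm w, ← mZ]
  have ne : ∀ (φ : G ≃g G) {u v : V}, φ ∈ stabilizer _ u → u ≠ v → φ • v ≠ u := fun φ u v e n c =>
    n (MulAction.injective φ (e.trans c.symm))
  have s1 := step (⊤ : Subgroup (G ≃g G)) o univ (by simp)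
  have s2 := step ((⊤ : Subgroup (G ≃g G)) ⊓ stabilizer _ o) b (G.neighborFinset o) fun g e => by rwa [mem_neighborFinset, ad g e.2]
  have s3 := step ((⊤ : Subgroup (G ≃g G)) ⊓ stabilizer _ o ⊓ stabilizer _ b) w {w | ¬ G.Adj o w ∧ ¬ G.Adj b w}
    fun g e => by rw [mem_filter_univ, ad g e.1.2, ad g e.2]; exact ⟨h1, h2⟩
  have s4 := step _ x Z fun g e => inZ g e x hx
  have s5 := step ((⊤ : Subgroup (G ≃g G)) ⊓ stabilizer _ o ⊓ stabilizer _ b ⊓ stabilizer _ w ⊓ stabilizer _ x) y (Z.erase x)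
    fun g e => mem_erase.2 ⟨ne g e.2 n1, inZ g e.1 y hy⟩
  have s6 := step ((⊤ : Subgroup (G ≃g G)) ⊓ stabilizer _ o ⊓ stabilizer _ b ⊓ stabilizer _ w ⊓ stabilizer _ x ⊓
    stabilizer _ y) z ((Z.erase x).erase y) fun g e => mem_erase.2 ⟨ne g e.2 n3, mem_erase.2 ⟨ne g e.1.2 n2, inZ g e.1.1 z hz⟩⟩
  rw [show (⊤ : Subgroup (G ≃g G)) ⊓ stabilizer _ o ⊓ stabilizer _ b ⊓ stabilizer _ w ⊓ stabilizer _ x ⊓ stabilizer _ y ⊓
    stabilizer _ z = ⊥ from eq_bot_iff.2 fun g e => rigid hG g h h1 h2 e.1.1.1.1.1.2 e.1.1.1.1.2 e.1.1.1.2 ![x, y, z]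
      ti (fun i => by fin_cases i <;> simp [← mZ, hx, hy, hz])
      (fun i => by fin_cases i; exacts [e.1.1.2, e.1.2, e.2]), card_erase_of_mem (mem_erase.2 ⟨n1.symm, hy⟩)] at s6
  rw [card_erase_of_mem hx, cZ] at s5 s6
  rw [cZ] at s4
  rw [cO hG h] at s3
  rw [card_neighborFinset_eq_degree, hG.regular] at s2
  rw [card_univ, hG.card, Subgroup.card_top] at s1
  rw [Subgroup.card_bot] at s6
  omega

end Cfsg.Agent.H29.Ml
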