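import Cfsg.Agent.H29.Ml3
import Cfsg.Agent.L0.HS2
import Cfsg.Agent.S1580
import Cfsg.Agent.S1581
import Cfsg.Agent.H12.SBridge

/-! Recognition of the McLaughlin group as a rank `3` group. -/

set_option autoImplicit false
open Cfsg Cfsg.Agent.LL Finset SimpleGraph MulAction Cfsg.Agent.L0.HS
open scoped Classical

namespace Cfsg.Agent.H29.Ml

theorem param {V : Type*} [Fintype V] {G : SimpleGraph V} [DecidableRel G.Adj] {l m : ℕ}
    (h : G.IsSRGWith 275 112 l m) : l = 30 ∧ m = 56 := by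
  have h1 := h.param_eq G (by norm_num)
  have hn : ∀ v, #(G.neighborFinset v) = 112 := h.regular
  have hc : ∀ v w, Fintype.card (G.commonNeighbors v w) = #(G.neighborFinset v ∩ G.neighborFinset w) :=
    fun v w => by rw [← Set.toFinset_card]; congr 1; ext; simp [mem_commonNeighbors]
  have ex : ∀ s : Finset V, #s < 275 → ∃ x, x ∉ s := fun s c => by
    by_contra! k
    have := card_le_card (s := univ) fun x _ => k x
    rw [card_univ, h.card] at this
    omega
  obtain ⟨a, -⟩ := ex ∅ (by simp)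
  have m0 : m ≠ 0 := by
    rintro rfl
    obtain ⟨b, hb⟩ := ex (insert a (G.neighborFinset a)) ((card_insert_le _ _).trans_lt (by rw [hn]; omega))
    obtain ⟨c, hc'⟩ := ex (insert a (G.neighborFinset a) ∪ insert b (G.neighborFinset b)) ((card_union_le _ _).trans_lt (by
      have := card_insert_le a (G.neighborFinset a)
      have := card_insert_le b (G.neighborFinset b)
      rw [hn] at *; omega))
    simp only [mem_union, mem_insert, mem_neighborFinset, not_or] at hb hc'
    have d : ∀ {x y}, y ≠ x → ¬ G.Adj x y → Disjoint (G.neighborFinset x) (G.neighborFinset y) := fun p q =>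
      disjoint_iff_inter_eq_empty.2 (card_eq_zero.1 ((hc _ _).symm.trans (h.of_not_adj p.symm q)))
    have := card_le_univ (G.neighborFinset a ∪ G.neighborFinset b ∪ G.neighborFinset c)
    rw [card_union_of_disjoint (disjoint_union_left.2 ⟨d hc'.1.1 hc'.1.2, d hc'.2.1 hc'.2.2⟩),
      card_union_of_disjoint (d hb.1 hb.2), hn, hn, hn, h.card] at this
    omega
  omega

variable {G Ω : Type*} [Group G] [MulAction G Ω] {Γ : SimpleGraph Ω}

theorem rank3 [Fintype Ω] [DecidableRel Γ.Adj] (h : ∀ (g : G) x y, Γ.Adj (g • x) (g • y) ↔ Γ.Adj x y)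
    (hΩ : Fintype.card Ω = 275) [IsPretransitive G Ω] (a : Ω) (ha : Γ.degree a = 112)
    (ht : ∀ y y', y ≠ a → y' ≠ a → (Γ.Adj a y ↔ Γ.Adj a y') → ∃ g : G, g • a = a ∧ g • y = y') :
    Γ.IsSRGWith 275 112 30 56 := by
  have h1 : ∀ (g : G) x y, Fintype.card (Γ.commonNeighbors (g • x) (g • y)) =
      Fintype.card (Γ.commonNeighbors x y) := fun g x y => Fintype.card_congr
    ((MulAction.toPerm g).subtypeEquiv fun z => by simp [mem_commonNeighbors, h]).symm
  have h2 : ∀ x y x' y', x ≠ y → x' ≠ y' → (Γ.Adj x y ↔ Γ.Adj x' y') →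
      Fintype.card (Γ.commonNeighbors x y) = Fintype.card (Γ.commonNeighbors x' y') := fun x y x' y' e e' hh => by
    obtain ⟨g, rfl⟩ := exists_smul_eq G a x
    obtain ⟨g', rfl⟩ := exists_smul_eq G a x'
    obtain ⟨y, rfl⟩ := MulAction.surjective g y
    obtain ⟨y', rfl⟩ := MulAction.surjective g' y'
    obtain ⟨k, k1, rfl⟩ := ht y y' (fun e1 => e (by rw [e1])) (fun e1 => e' (by rw [e1])) (by rwa [h, h] at hh)
    rw [h1, h1, ← h1 k, k1]
  obtain ⟨b, hb⟩ := (Γ.degree_pos_iff_exists_adj a).1 (by omega)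
  obtain ⟨c, hc⟩ : ∃ c, c ∉ insert a (Γ.neighborFinset a) := by
    by_contra! hc
    have := (card_le_card (s := univ) fun x _ => hc x).trans (card_insert_le _ _)
    rw [card_univ, card_neighborFinset_eq_degree] at this
    omega
  rw [mem_insert, not_or, mem_neighborFinset] at hc
  have h3 : Γ.IsSRGWith 275 112 (Fintype.card (Γ.commonNeighbors a b)) (Fintype.card (Γ.commonNeighbors a c)) :=
    ⟨hΩ, fun x => by
      obtain ⟨g, rfl⟩ := exists_smul_eq G a x
      exact ((toAut h g).degree_eq a).trans ha,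
      fun x y e => h2 _ _ _ _ e.ne hb.ne (by simp [e, hb]),
      fun x y e e' => h2 _ _ _ _ e (Ne.symm hc.1) (by simp [e', hc.2])⟩
  obtain ⟨e1, e2⟩ := param h3
  rwa [e1, e2] at h3

theorem orb_srg [Fintype Ω] [IsPretransitive G Ω] {a b c : Ω} (hΩ : Fintype.card Ω = 275)
    (hb : (orbit (stabilizer G a) b).ncard = 112) (hc : (orbit (stabilizer G a) c).ncard = 162) :
    (orbG G Ω 112).IsSRGWith 275 112 30 56 := by
  have h1 := fun y => orb_cover (G := G) (y := y) hΩ (by norm_num) (by norm_num) (by norm_num) hb hc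
  have h2 : ∀ y, (orbG G Ω 112).Adj a y ↔ y ∈ orbit (stabilizer G a) b := fun y => by
    refine ⟨fun h => (h1 y h.1.symm).resolve_right fun e => ?_, fun h => ⟨?_, ?_⟩⟩
    · have := h.2
      rw [orbit_eq_iff.2 e, hc] at this
      omega
    · rintro rfl
      rw [← orbit_eq_iff.2 h, Set.eq_singleton_iff_unique_mem.2
        ⟨mem_orbit_self a, fun _ ⟨g, e⟩ => e ▸ g.2⟩, Set.ncard_singleton] at hb
      omega
    · rw [orbit_eq_iff.2 h, hb]
  refine rank3 (orbG_smul 112) hΩ a ?_ fun y y' e e' hh => ?_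
  · rw [← card_neighborSet_eq_degree, ← Nat.card_eq_fintype_card, Nat.card_coe_set_eq]
    exact (congrArg _ (Set.ext h2)).trans hb
  · rw [h2, h2] at hh
    have h3 : ∀ u, y ∈ orbit (stabilizer G a) u → y' ∈ orbit (stabilizer G a) u →
        ∃ g : G, g • a = a ∧ g • y = y' := fun u a1 a2 => by
      obtain ⟨g, hg⟩ := (orbit_eq_iff.2 a1).symm ▸ a2
      exact ⟨g, g.2, hg⟩
    by_cases h4 : y ∈ orbit (stabilizer G a) b
    · exact h3 b h4 (hh.1 h4)
    · exact h3 c ((h1 y e).resolve_left h4) ((h1 y' e').resolve_left (mt hh.2 h4))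

theorem nU : sqNorm ((U : L) : V) = 32 ∧ sqNorm (((-Vv : L) : V) - ((U : L) : V)) = 32 := by decide +kernel

theorem mem_KM {g : Co0} : g ∈ KM ↔ g • -Vv = -Vv ∧ g • U = U := by rw [KM_eq']; rfl

/-- the `275` vectors -/
def XM : SubMulAction KM L where
  carrier := {x | sqNorm (x : V) = 32 ∧ sqNorm (((-Vv : L) : V) - (x : V)) = 32 ∧ dotInt ((U : L) : V) x = 16}
  smul_mem' g x hx := by
    obtain ⟨h1, h2⟩ := mem_KM.1 g.2
    have := (key275 g.1 x).2 ((key275 1 x).1 (by simp only [one_smul]; exact hx))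
    rwa [h1, h2] at this

theorem exists_hom {W : Type*} [Fintype W] {H : SimpleGraph W} [DecidableRel H.Adj]
    (hH : H.IsSRGWith 275 112 30 56) : ∃ φ : KM →* (H ≃g H), Function.Injective φ := by
  obtain ⟨h1, h2⟩ := S1580.result _ _ nv nU
  have : Fintype XM := (Set.finite_of_ncard_ne_zero (h1.trans_ne (by norm_num))).fintype
  have hc : Fintype.card XM = 275 := by rw [← h1, ← Nat.card_eq_fintype_card]; rfl
  have : IsPretransitive KM XM := ⟨fun x y =>
    let ⟨g, a, b, c⟩ := h2 x x.2 y y.2; ⟨⟨g, mem_KM.2 ⟨a, b⟩⟩, Subtype.ext c⟩⟩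
  obtain ⟨a, a', hab⟩ := Fintype.exists_pair_of_one_lt_card (show 1 < Fintype.card XM by omega)
  obtain ⟨h3, h4, h5⟩ := S1581.result _ _ a nv nU a.2
  have ob : ∀ b : XM, b ≠ a → (orbit (stabilizer KM a) b).ncard =
      {y : L | y ∈ XM ∧ y ≠ a ∧ dotInt ((a : L) : V) y = dotInt ((a : L) : V) (b : L)}.ncard := fun b n => by
    rw [← Set.ncard_image_of_injective _ Subtype.val_injective]
    congr 1
    ext y
    constructor
    · rintro ⟨_, ⟨g, rfl⟩, rfl⟩
      have e : g.1.1 • (a : L) = a := congrArg Subtype.val g.2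
      refine ⟨Subtype.prop _, fun c => n (Subtype.ext (MulAction.injective g.1.1 (c.trans e.symm))), ?_⟩
      rw [← dot_co g.1.1 a b, e]; rfl
    · rintro ⟨p, q, r⟩
      obtain ⟨g, a1, a2, a3, a4⟩ := h5 b b.2 y p (Subtype.coe_ne_coe.2 n) q r.symm
      exact ⟨_, ⟨⟨⟨g, mem_KM.2 ⟨a1, a2⟩⟩, Subtype.ext a3⟩, rfl⟩, a4⟩
  have n8 : ∀ y : L, dotInt ((a : L) : V) y = 8 → y ≠ a := by
    rintro _ c rfl
    have := a.2.1
    rw [sqNorm_eq_dot, c] at this
    omega
  obtain ⟨b, b1, b2⟩ := Set.nonempty_of_ncard_ne_zero (h3.trans_ne (by norm_num))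
  obtain ⟨c, c1, c2, c3⟩ := Set.nonempty_of_ncard_ne_zero (h4.trans_ne (by norm_num))
  obtain ⟨e⟩ := uniq (orb_srg (G := KM) (a := a) (b := ⟨b, b1⟩) (c := ⟨c, c1⟩) hc (by
    rw [ob _ fun e => n8 b b2 (congrArg Subtype.val e), ← h3, b2]
    congr 1; ext y; exact and_congr_right fun _ => and_iff_right_of_imp (n8 y)) (by
    rw [ob _ fun e => c2 (congrArg Subtype.val e), ← h4, c3]; rfl)) hH
  refine ⟨(autCongr e).toMonoidHom.comp (toAut (orbG_smul 112)), (autCongr e).injective.comp ?_⟩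
  rcases simple_KM.eq_bot_or_eq_top_of_normal (toAut (Γ := orbG KM XM 112) (orbG_smul 112)).ker inferInstance with h | h
  · exact (MonoidHom.ker_eq_bot_iff _).1 h
  · obtain ⟨g, rfl⟩ := exists_smul_eq KM a a'
    exact absurd (DFunLike.congr_fun (show toAut (Γ := orbG KM XM 112) (orbG_smul 112) g = 1 from (h ▸ Subgroup.mem_top g :
      g ∈ (toAut (Γ := orbG KM XM 112) (orbG_smul 112)).ker)) a).symm hab

theorem iso_McL {W : Type*} [Fintype W] {H : SimpleGraph W} [DecidableRel H.Adj]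
    (hH : H.IsSRGWith 275 112 30 56) (ψ : G →* (H ≃g H)) (hψ : Function.Injective ψ)
    (hG : Nat.card G = 898128000) : Spor.IsoMcL G := by
  obtain ⟨φ, hφ⟩ := exists_hom hH
  have h0 := card_aut hH
  have : Finite (H ≃g H) := .of_injective _ RelIso.toEquiv_injective
  have h1 : Nat.card ψ.range = 898128000 := (Nat.card_congr (MonoidHom.ofInjective hψ).toEquiv).symm.trans hG
  have h2 : Nat.card φ.range = 898128000 :=
    (Nat.card_congr (MonoidHom.ofInjective hφ).toEquiv).symm.trans card_KM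
  have h3 := ψ.range.index_mul_card
  have h6 := ψ.range.index_ne_zero_of_finite
  rw [h1] at h3
  have h4 : ψ.range.index = 1 ∨ ψ.range.index = 2 := by omega
  have : ψ.range.Normal := h4.elim (fun e => Subgroup.index_eq_one.1 e ▸ inferInstance) Subgroup.normal_of_index_eq_two
  have := simple_KM
  have := (MonoidHom.ofInjective hφ).symm.isSimpleGroup
  rcases this.eq_bot_or_eq_top_of_normal (ψ.range.subgroupOf φ.range) inferInstance with h | h
  · have h5 := Nat.le_of_dvd (by omega) (Subgroup.relIndex_dvd_index_of_normal ψ.range φ.range)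
    rw [Subgroup.relIndex, h, Subgroup.index_bot, h2] at h5
    omega
  · have h5 := Subgroup.eq_of_le_of_card_ge (Subgroup.subgroupOf_eq_top.1 h) (h1.trans h2.symm).le
    exact ⟨((MonoidHom.ofInjective hψ).trans (MulEquiv.subgroupCongr h5.symm)).trans
      ((MonoidHom.ofInjective hφ).symm.trans sporMcL.symm)⟩

theorem card_U43 {K : Type*} [Field K] [Fintype K] (hK : Fintype.card K = 9) : Nat.card (PSU 4 K 3) = 3265920 := by
  have := H12.card_PSU (q := 3) hK (n := 4) (by omega)
  generalize Nat.card (PSU 4 K 3) = n at this ⊢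
  rw [show H12.guOrd 3 4 = 52254720 by decide +kernel, show Nat.gcd 4 (3 + 1) = 4 from rfl] at this
  omega

end Cfsg.Agent.H29.Ml
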