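import Cfsg.Agent.H29.Rv4
import Cfsg.Agent.H29.Rv6
import Cfsg.Agent.L0.HS2

/-! Recognition of the Rudvalis group as a rank `3` group. -/

set_option autoImplicit false
set_option maxRecDepth 100000
open Cfsg.Agent.H17 MulAction Finset Equiv SimpleGraph
open Cfsg.Agent.H29.Sz (tb tb_eq invAll uni uni_bit Wd testBit_one lab)

namespace Cfsg.Agent.H29.Rv

theorem x1 : Hx K (fs M1) 1 (fs D1) (fs D2) (fs F1) (fs C1) := hx_of w1 hx1

theorem c1 : invAll E1 Dl = true ∧ tb N0 0 = true ∧ Nat.land N1 M1 = C1 ∧ E1.orb W4 9 1168 = Dl ∧ E1.fixB J5 [1168] = true ∧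
    Dl = Nat.lor (Nat.shiftLeft 1 1168) (Nat.lor (Nat.lor (Nat.lor (Nat.lor (Nat.lor O1 O2) O3) O4) O5) O6) ∧
    pop 7 Dl = 2304 ∧ pop 7 (Nat.land N0 Dl) = 1328 ∧
    Nat.lor (Nat.lor (Nat.lor (Nat.lor O1 O2) O3) O4) O5 = Nat.land N0 Dl ∧ E1.fixB (idW 6) [0] = true ∧
    [O1, O2, O3, O4, O5, O6].map (pop 7) = [78, 300, 300, 325, 325, 975] ∧
    E1.eqB [4, 4, 4, 4, 4] [] = true ∧ E1.eqB [5, 5, 5, 5, 5] [] = true ∧ E1.eqB [4, 5] [5, 4] = true ∧
    E1.sendB [0] 1 1 = false ∧ X1.Z.foldr (fun z a => Nat.lor (Nat.shiftLeft 1 z) a) 0 = D1 ∧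
    Nat.shiftRight D1 4096 = 0 := by decide +kernel

theorem c2 : allL sb (fun p => band (E0.sendB p.2.1 p.1 0) (band (!Nat.beq (Nat.land (E0.pullW1 p.2.1 Dl) M1)
      (Nat.land N0 M1)) (Nat.beq (E1.orb J5 9 p.1) p.2.2))) = true ∧
    allL sols (fun J => Nat.beq M1 (Nat.lor (uni Os1 (tb J) 75) (uni Os1 (fun t => !tb J t) 75))) = true ∧
    allL gd (fun p => Nat.beq (E1.pullW1 p.2 (uni Os1 (tb p.1) 75)) (Nat.land N0 M1)) = true ∧
    allL X1.Z (fun q => band (E1.sendB (X1.wf q) q 1) (Nat.ble (pop 7 (Nat.land (Nat.lor 2 D1)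
      (E1.pullW1 (X1.wf q) (Nat.lor 2 D1)))) 3)) = true ∧ sols = gd.map (·.1) ++ bd.map (·.1) := by decide +kernel

theorem c3 : allL bd (fun p => band (Nat.beq p.2.length 2305) (walk E1 M1 p.2 (uni Os1 (tb p.1) 75) 0)) = true := by
  decide +kernel

theorem hM : Nat.shiftRight M1 4096 = 0 := cDl.2.2.2.2.2.2.2.2.2.2.2.2.2.1
theorem hD : Nat.shiftRight Dl 4096 = 0 := cDl.2.2.2.2.2.2.2.2.2.2.2.2.1

theorem lt_iff' {i : ℕ} : i < 4060 ↔ i = 0 ∨ Dl.testBit i = true ∨ i ∈ fs M1 := by rw [lt_iff, mem_fs hM]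

theorem notDl' {i : ℕ} (h : i ∈ fs M1) : i ≠ 0 ∧ ¬ Dl.testBit i = true := notDl (mem_fs'.1 h).2

theorem mem_Dl (i : ℕ) : Dl.testBit i = true ↔ i ∈ orbit K (1168 : ℕ) :=
  ⟨fun e => w1.orb_top (c1.2.2.2.1 ▸ e), by rintro ⟨g, rfl⟩; exact (w1.inv c1.1 g _).trans (tb_eq _ _ ▸ cDl.2.2.1)⟩

theorem fix0 (g : K) : g • (0 : ℕ) = 0 := by
  obtain ⟨u, rfl⟩ := w1.surj g
  refine (ev_mem (H := stabilizer K (0 : ℕ)) fun x _ => ?_ :)
  by_cases h : x < 6
  · simpa using w1.fixS c1.2.2.2.2.2.2.2.2.2.1 [x] (List.mem_map.2 ⟨x, List.mem_range.2 h, rfl⟩)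
  · rw [mem_stabilizer_iff, w1.act, w1.shape.triv x (not_lt.1 h)]; rfl

theorem adjN (j : ℕ) : Adj0 1168 j ↔ N0.testBit j = true := cDl.2.2.2.2.2.1 ▸ adj0_word cDl.2.2.2.2.1 j

theorem triv' {H : Type*} [Group H] [MulAction H ℕ] [s : IsSimpleGroup H] {h : ℕ → H} {E : TD} (w : Wd h E)
    (n : E.sendB [0] 1 1 = false) {u v : List ℕ} (e : E.eqB u v = true) : ev h u = ev h v := by
  refine (MonoidHom.ker_eq_bot_iff (toPermHom H ℕ)).1 ((s.eq_bot_or_eq_top_of_normal _ inferInstance).resolve_right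
    fun e => ?_) (Perm.ext fun i => ?_)
  · have k : (ev h [0])⁻¹ ∈ (toPermHom H ℕ).ker := by rw [e]; exact Subgroup.mem_top _
    rw [TD.sendB, w.appWI, show (ev h [0])⁻¹ • (1 : ℕ) = 1 from DFunLike.congr_fun (MonoidHom.mem_ker.1 k) 1] at n
    exact absurd n (by decide)
  · exact (w.ev_smul u i).trans ((DFunLike.congr_fun (TD.eqB_sound w.shape e) i).trans (w.ev_smul v i).symm)

theorem triv {u v : List ℕ} (h : E1.eqB u v = true) : ev hh u = ev hh v :=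
  triv' (s := @MulEquiv.isSimpleGroup _ _ _ _ H27.TTits.simple Subgroup.topEquiv.symm) w1
    c1.2.2.2.2.2.2.2.2.2.2.2.2.2.2.1 h

theorem Dl_cases {i : ℕ} (h : Dl.testBit i = true) : i = 1168 ∨ ((((O1.testBit i = true ∨ O2.testBit i = true) ∨
    O3.testBit i = true) ∨ O4.testBit i = true) ∨ O5.testBit i = true) ∨ O6.testBit i = true := by
  rw [c1.2.2.2.2.2.1] at h
  simpa only [lor_eq, Nat.testBit_or, Bool.or_eq_true, ← shl_eq, testBit_one] using h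

theorem sb_ok {p : ℕ × List ℕ × ℕ} (hp : p ∈ sb) : E0.sendB p.2.1 p.1 0 = true ∧
    Nat.land (E0.pullW1 p.2.1 Dl) M1 ≠ Nat.land N0 M1 ∧ E1.orb J5 9 p.1 = p.2.2 := by
  have := allL_true c2.1 p hp
  simp only [band_true, Nat.beq_eq] at this
  exact ⟨this.1, fun e => by rw [e, Nat.beq_refl] at this; simp at this, this.2.2⟩

theorem stab_b {g : K} (h : ∀ i ∈ fs M1, N0.testBit (g • i) = N0.testBit i) : g • (1168 : ℕ) = 1168 := by
  have a : ∀ p ∈ sb, ¬ p.2.2.testBit (g • (1168 : ℕ)) = true := fun p hp e => by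
    obtain ⟨h1, h2, h3⟩ := sb_ok hp
    obtain ⟨k, hk⟩ := w1.orb _ (w1.fixS c1.2.2.2.2.1) (h3 ▸ e)
    refine h2 (Nat.eq_of_testBit_eq fun i => ?_)
    rw [land_eq, land_eq, Nat.testBit_and, Nat.testBit_and]
    cases e : M1.testBit i
    · simp
    have hi := (mem_fs hM).2 e
    rw [Bool.and_true, Bool.and_true, Bool.eq_iff_iff, ← adj0_word h1, ← adjH k.1, show k.1 • p.1 = _ from hk,
      ← smul_inv_smul g (k.1 • i), adjH, adjN, ← h _ (x1.smul _ (x1.smul _ hi)), smul_inv_smul, ← adjN, ← adjN,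
      ← adjH k.1 1168 i, show k.1 • (1168 : ℕ) = 1168 from k.2]
  simp only [sb, List.forall_mem_cons] at a
  rcases Dl_cases ((mem_Dl _).2 (mem_orbit _ g)) with e | ((((e | e) | e) | e) | e) | e
  exacts [e, (a.1 e).elim, (a.2.1 e).elim, (a.2.2.1 e).elim, (a.2.2.2.1 e).elim, (a.2.2.2.2.1 e).elim,
    (a.2.2.2.2.2.1 e).elim]

theorem local_eq {X : Finset ℕ} (h1 : X ⊆ fs Dl) (h2 : 1168 ∉ X) (h3 : #X = 1328)
    (h4 : ∀ i ∈ X, ∀ j ∈ orbit (stabilizer K (1168 : ℕ)) i, j ∈ X) : X = fs (Nat.land N0 Dl) := by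
  have a : ∀ p ∈ sb, (#(fs p.2.2 ∩ X) = 0 ∧ #(fs p.2.2 \ X) = #(fs p.2.2)) ∨
      (#(fs p.2.2 ∩ X) = #(fs p.2.2) ∧ #(fs p.2.2 \ X) = 0) := fun p hp =>
    dich h4 (tr_of w1 c1.2.2.2.2.1 (sb_ok hp).2.2)
  have b : ∀ Y ⊆ fs Dl, 1168 ∉ Y → ∀ f : Finset ℕ → Finset ℕ, (∀ O, ∀ i ∈ Y, i ∈ O → i ∈ f O) →
      #Y ≤ #(f (fs O1)) + #(f (fs O2)) + #(f (fs O3)) + #(f (fs O4)) + #(f (fs O5)) + #(f (fs O6)) := fun Y s n f hf => by
    have : Y ⊆ f (fs O1) ∪ f (fs O2) ∪ f (fs O3) ∪ f (fs O4) ∪ f (fs O5) ∪ f (fs O6) := fun i hi => by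
      obtain ⟨a1, a2⟩ := mem_fs'.1 (s hi)
      have k : ∀ O : ℕ, O.testBit i = true → i ∈ f (fs O) := fun O e => hf _ i hi (mem_fs'.2 ⟨a1, e⟩)
      simp only [mem_union]
      exact ((Dl_cases a2).resolve_left fun e => n (e ▸ hi)).imp
        (Or.imp (Or.imp (Or.imp (Or.imp (k _) (k _)) (k _)) (k _)) (k _)) (k _)
    refine (card_le_card this).trans ?_
    iterate 5 refine (card_union_le _ _).trans (Nat.add_le_add_right ?_ _)
    rfl
  have d : 1168 ∈ fs Dl := (mem_fs hD).2 (tb_eq _ _ ▸ cDl.2.2.1)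
  have b1 := b X h1 h2 (· ∩ X) fun O i hi e => mem_inter.2 ⟨e, hi⟩
  have b2 := b ((fs Dl).erase 1168 \ X) (sdiff_subset.trans (erase_subset _ _)) (by simp) (· \ X)
    fun O i hi e => mem_sdiff.2 ⟨e, (mem_sdiff.1 hi).2⟩
  rw [card_sdiff_of_subset (subset_erase.2 ⟨h1, h2⟩), card_erase_of_mem d, card_fs, c1.2.2.2.2.2.2.1] at b2
  have p := c1.2.2.2.2.2.2.2.2.2.2.1
  simp only [List.map_cons, List.map_nil, List.cons.injEq, ← card_fs] at p
  simp only [sb, List.forall_mem_cons] at a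
  have e : #(fs O6 ∩ X) = 0 := by omega
  refine eq_of_subset_of_card_le (fun i hi => ?_) (by rw [h3, card_fs, c1.2.2.2.2.2.2.2.1])
  obtain ⟨a1, a2⟩ := mem_fs'.1 (h1 hi)
  rw [← c1.2.2.2.2.2.2.2.2.1, mem_fs']
  simpa only [a1, true_and, lor_eq, Nat.testBit_or, Bool.or_eq_true] using
    ((Dl_cases a2).resolve_left fun e => h2 (e ▸ hi)).resolve_right fun k => by
      simpa [card_eq_zero.1 e] using mem_inter.2 ⟨mem_fs'.2 ⟨a1, k⟩, hi⟩

open scoped Classical in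
/-- a rank `3` graph with the stabilizer of a vertex -/
structure Rk {Ω : Type*} [Fintype Ω] (H : Type*) [Group H] [MulAction H Ω] (Γ : SimpleGraph Ω) (a c : Ω) (l m : ℕ) :
    Prop where
  adj : ∀ (g : H) x y, Γ.Adj (g • x) (g • y) ↔ Γ.Adj x y
  fix : ∀ g : H, g • a = a
  srg : Γ.IsSRGWith 4060 2304 l m
  hc : ∀ y, (y ≠ a ∧ ¬ Γ.Adj a y) ↔ y ∈ orbit H c
  nc : (orbit H c).ncard = 1755

variable {Ω : Type*} [Fintype Ω] [MulAction K Ω] {Γ : SimpleGraph Ω} {a c : Ω} {l m : ℕ}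

theorem Rk.point (r : Rk K Γ a c l m) : ∃ ι, St K Γ a (fs M1) ι l m := by
  have : Fact (Nat.Prime 2) := ⟨by norm_num⟩
  obtain ⟨U, hU⟩ := Sylow.exists_subgroup_card_pow_prime (G := stabilizer K (1 : ℕ)) 2 (n := 11)
    (by rw [x1.card_stab cardK]; norm_num)
  have hU' : Nat.card (U.map (Subgroup.subtype _)) = 2 ^ 11 := (Subgroup.card_subtype _ _).trans hU
  have : Finite (orbit K c) := Set.toFinite _
  obtain ⟨y, hy⟩ := (IsPGroup.of_card hU').nonempty_fixed_point_of_prime_not_dvd_card (orbit K c)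
    (by rw [Nat.card_coe_set_eq, r.nc]; norm_num)
  have hP : Nat.card (stabilizer K y.1) = 10240 := by
    have := (stabilizer K y.1).index_mul_card
    rw [index_stabilizer, orbit_eq_iff.2 y.2, r.nc, cardK] at this
    omega
  have hD1 := c1.2.2.2.2.2.2.2.2.2.2.2.2.2.2.2.2
  have b : ∀ i, (Nat.lor 2 D1).testBit i = true ↔ i = 1 ∨ i ∈ fs D1 := fun i => by
    rw [lor_eq, Nat.testBit_or, Bool.or_eq_true, mem_fs hD1, ← testBit_one 1 i]; rfl
  have z : ∀ (l : List ℕ) i, (l.foldr (fun z a => Nat.lor (Nat.shiftLeft 1 z) a) 0).testBit i = true → i ∈ l := by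
    intro l i
    induction l with
    | nil => simp
    | cons z l ih =>
      rw [List.foldr_cons, lor_eq, Nat.testBit_or, Bool.or_eq_true, testBit_one, List.mem_cons]
      exact Or.imp_right ih
  have p := x1.par cardK _ hP _ hU' (fun u hu => congrArg Subtype.val (hy ⟨u, hu⟩)) (Subgroup.map_subtype_le U)
    fun q hq => by
      have := band_true.1 (allL_true c2.2.2.2.1 q (z _ q (c1.2.2.2.2.2.2.2.2.2.2.2.2.2.2.2.1 ▸ (mem_fs'.1 hq).2)))
      refine ⟨_, _, w1.send this.1, (card_fs _).trans_le (ble_true this.2), fun y h1 h2 => mem_fs'.2 ⟨?_, ?_⟩⟩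
      · exact h1.elim (fun e => by omega) fun e => (mem_fs'.1 e).1
      · rw [land_eq, Nat.testBit_and, Bool.and_eq_true, w1.pull, b, b]
        exact ⟨h1, h2⟩
  have e : orbit K (1 : ℕ) = fs M1 := (Set.ext x1.mem).symm
  obtain ⟨ι, h1, h2, h3, -⟩ := lab p (by rw [orbit_eq_iff.2 y.2, r.nc, e, Set.ncard_coe_finset, x1.cM])
  rw [e] at h1 h2 h3
  exact ⟨ι, r.adj, r.fix, r.srg, h1, h2, fun t => by rw [r.hc, ← orbit_eq_iff.2 y.2, ← h3]; rfl⟩

open scoped Classical in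
theorem St.exb {ι : ℕ → Ω} (s : St K Γ a (fs M1) ι l m) :
    ∃ b, Γ.Adj a b ∧ ∀ i ∈ fs M1, Γ.Adj b (ι i) ↔ N0.testBit i = true := by
  have e1 := triv c1.2.2.2.2.2.2.2.2.2.2.2.1
  have e2 := triv c1.2.2.2.2.2.2.2.2.2.2.2.2.1
  have e3 := triv c1.2.2.2.2.2.2.2.2.2.2.2.2.2.1
  obtain ⟨b, h1, h2, h3⟩ := fix5 (p := hh 4) (q := hh 5) (by simpa [pow_succ, mul_assoc] using e1)
    (by simpa [pow_succ, mul_assoc] using e2) (by simpa [Commute, SemiconjBy] using e3)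
    (⟨{y | Γ.Adj a y}, fun g y hy => by rwa [Set.mem_setOf_eq, ← s.fix g, s.adj]⟩ : SubMulAction K Ω)
    (by rw [← s.deg a, ← Fintype.card_subtype, ← Nat.card_eq_fintype_card]; rfl)
  obtain ⟨J, j, hJ⟩ := search ok1 w1 s x1 h1 (b := b) (by simpa [X1] using ⟨h2, h3⟩)
  have hj : J ∈ sols := by
    by_contra n
    rw [fin1, Sz.allL_of fun t ht => by
      cases e : Nat.beq J t
      exacts [rfl, (n (beq_true e ▸ ht)).elim]] at j
    simp at j
  have hS : ∀ i ∈ fs M1, Γ.Adj (ι i) b ↔ (uni Os1 (tb J) 75).testBit i = true := fun i hi => by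
    have e := (mem_fs'.1 hi).2
    cases e' : (uni Os1 (tb J) 75).testBit i
    · rw [beq_true (allL_true c2.2.1 J hj), lor_eq, Nat.testBit_or, e', Bool.false_or] at e
      obtain ⟨t, t1, t2, t3⟩ := uni_bit e
      rw [hJ t t1 i t3, ← tb_eq]
      simpa using t2
    · obtain ⟨t, t1, t2, t3⟩ := uni_bit e'
      rw [hJ t t1 i t3, ← tb_eq]
      simpa using t2
  rw [c2.2.2.2.2, List.mem_append, List.mem_map, List.mem_map] at hj
  rcases hj with ⟨p, hp, rfl⟩ | ⟨p, hp, rfl⟩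
  · refine ⟨(ev hh p.2)⁻¹ • b, by rwa [← s.fix (ev hh p.2)⁻¹, s.adj], fun i hi => ?_⟩
    rw [adj_comm, ← s.adj (ev hh p.2), smul_inv_smul, ← s.act _ _ hi, hS _ (x1.smul _ hi), ← w1.pull,
      beq_true (allL_true c2.2.2.1 p hp), land_eq, Nat.testBit_and, (mem_fs'.1 hi).2, Bool.and_true]
  · have k := band_true.1 (allL_true c3 p hp)
    have := walk_sound w1 s hM (fun g i => x1.smul g) _ _ _ b ∅ h1 hS (by simp) k.2
    rw [beq_true k.1] at this
    omega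

open scoped Classical in
theorem Rk.delta (r : Rk K Γ a c l m) {ι : ℕ → Ω} (s : St K Γ a (fs M1) ι l m) :
    ∃ κ : ℕ → Ω, (∀ g : K, ∀ i, Dl.testBit i = true → κ (g • i) = g • κ i) ∧
      Set.InjOn κ {i | Dl.testBit i = true} ∧ (∀ y, Γ.Adj a y ↔ ∃ i, Dl.testBit i = true ∧ κ i = y) ∧
      (∀ i ∈ fs M1, Γ.Adj (κ 1168) (ι i) ↔ N0.testBit i = true) ∧
      ∀ i, Dl.testBit i = true → (Γ.Adj (κ 1168) (κ i) ↔ N0.testBit i = true) := by
  obtain ⟨b', h1, hS⟩ := s.exb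
  have eo : orbit K (1168 : ℕ) = {i | Dl.testBit i = true} := Set.ext fun i => (mem_Dl i).symm
  have ef : {i | Dl.testBit i = true} = (fs Dl : Set ℕ) := Set.ext fun i => (mem_fs hD).symm
  have le : stabilizer K b' ≤ stabilizer K (1168 : ℕ) := fun g hg => stab_b fun i hi => by
    rw [Bool.eq_iff_iff, ← hS _ hi, ← hS _ (x1.smul g hi), s.act g i hi, ← r.adj g b' (ι i), mem_stabilizer_iff.1 hg]
  have n0 : (orbit K (1168 : ℕ)).ncard = 2304 := by rw [eo, ef, Set.ncard_coe_finset, card_fs, c1.2.2.2.2.2.2.1]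
  have n1 : ({y | Γ.Adj a y} : Set Ω).ncard = 2304 := by
    rw [← s.deg a, ← Set.ncard_coe_finset]; congr 1; ext; simp
  have eb : orbit K b' = {y | Γ.Adj a y} := by
    refine Set.eq_of_subset_of_ncard_le (by rintro _ ⟨g, rfl⟩; rwa [Set.mem_setOf_eq, ← s.fix g, s.adj]) ?_
    rw [n1, ← n0, ← index_stabilizer, ← index_stabilizer]
    exact Nat.le_of_dvd (Nat.pos_of_ne_zero (Subgroup.index_ne_zero_of_finite)) (Subgroup.index_dvd_of_le le)
  obtain ⟨κ, k1, k2, k3, k4⟩ := lab le (by rw [eb, n0, n1])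
  rw [eo] at k1 k2 k3
  have k5 : ∀ y, Γ.Adj a y ↔ ∃ i, Dl.testBit i = true ∧ κ i = y := fun y => by
    rw [← Set.mem_setOf_eq (p := Γ.Adj a), ← eb, ← k3]; rfl
  refine ⟨κ, k1, k2, k5, k4 ▸ hS, ?_⟩
  rw [k4]
  have n : #{i ∈ fs Dl | Γ.Adj b' (κ i)} = 1328 := by
    rw [← (s.base x1).1, ← r.srg.of_adj _ _ h1, s.cn,
      ← card_image_of_injOn (f := κ) (k2.mono (ef ▸ coe_subset.2 (filter_subset _ _)))]
    refine congrArg card (Finset.ext fun y => ?_)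
    simp only [mem_image, mem_filter, mem_univ, true_and, k5, mem_fs hD]
    exact ⟨by rintro ⟨i, ⟨a1, a2⟩, rfl⟩; exact ⟨⟨i, a1, rfl⟩, a2⟩, by rintro ⟨⟨i, a1, rfl⟩, a2⟩; exact ⟨i, ⟨a1, a2⟩, rfl⟩⟩
  have se := local_eq (filter_subset _ _) (fun e => absurd (k4 ▸ (mem_filter.1 e).2) (Γ.loopless.irrefl _)) n (by
    rintro i hi _ ⟨g, rfl⟩
    obtain ⟨a1, a2⟩ := mem_filter.1 hi
    have a4 := (mem_fs'.1 a1).2
    refine mem_filter.2 ⟨(mem_fs hD).2 ((w1.inv c1.1 g.1 i).trans a4), ?_⟩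
    have := (r.adj g.1 _ _).2 a2
    rwa [← k4, ← k1 _ _ a4, ← k1 _ _ ((tb_eq _ _).symm.trans cDl.2.2.1), show g.1 • (1168 : ℕ) = 1168 from g.2, k4] at this)
  rw [fs_land] at se
  intro i hi
  have := Finset.ext_iff.1 se i
  simpa only [mem_filter, (mem_fs hD).2 hi, true_and] using this

theorem Rk.main (r : Rk K Γ a c l m) : ∃ ι : ℕ → Ω, Set.InjOn ι (Set.Iio 4060) ∧ (∀ y, ∃ i < 4060, ι i = y) ∧
    ∀ i < 4060, ∀ j < 4060, Γ.Adj (ι i) (ι j) ↔ Adj0 i j := by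
  obtain ⟨ι, s⟩ := r.point
  obtain ⟨κ, k1, k2, k3, k4, k5⟩ := r.delta s
  let f : ℕ → Ω := fun i => if i = 0 then a else if Dl.testBit i = true then κ i else ι i
  have d0 : ¬ Dl.testBit 0 = true := by rw [← tb_eq, cDl.2.2.2.2.2.2.2.2.2.2.1]; simp
  have f0 : f 0 = a := if_pos rfl
  have f1 : ∀ i, Dl.testBit i = true → f i = κ i := fun i h =>
    (if_neg (by rintro rfl; exact d0 h)).trans (if_pos h)
  have f2 : ∀ i ∈ fs M1, f i = ι i := fun i h => (if_neg (notDl' h).1).trans (if_neg (notDl' h).2)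
  have a1 : ∀ i, Dl.testBit i = true → Γ.Adj a (κ i) := fun i h => (k3 _).2 ⟨i, h, rfl⟩
  have a2 : ∀ i ∈ fs M1, ι i ≠ a ∧ ¬ Γ.Adj a (ι i) := fun i h => (s.rng _).2 ⟨i, h, rfl⟩
  have act : ∀ g : K, ∀ i < 4060, g • i < 4060 ∧ f (g • i) = g • f i := fun g i hi => by
    refine ⟨ltK g hi, ?_⟩
    rcases lt_iff'.1 hi with rfl | e | e
    · rw [fix0, f0, r.fix]
    · rw [f1 _ e, f1 _ ((w1.inv c1.1 g i).trans e), k1 g i e]
    · rw [f2 _ e, f2 _ (x1.smul g e), s.act g i e]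
  have mv : ∀ (g : K) i j, i < 4060 → j < 4060 → (Γ.Adj (f i) (f (g⁻¹ • j)) ↔ Adj0 i (g⁻¹ • j)) →
      (Γ.Adj (f (g • i)) (f j) ↔ Adj0 (g • i) j) := fun g i j hi hj h => by
    rw [← r.adj g, ← adjH g, ← (act g i hi).2, ← (act g _ (act g⁻¹ j hj).1).2, smul_inv_smul] at h
    exact h
  have p0 : ∀ j < 4060, Γ.Adj (f 0) (f j) ↔ Adj0 0 j := fun j hj => by
    rw [adj00, f0]
    rcases lt_iff'.1 hj with rfl | e | e
    · simp [f0, d0]
    · simp [f1 _ e, a1 _ e, e]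
    · simp [f2 _ e, (a2 _ e).2, (notDl' e).2]
  have d1 : Dl.testBit 1168 = true := tb_eq _ _ ▸ cDl.2.2.1
  have p1 : ∀ i, Dl.testBit i = true → ∀ j < 4060, Γ.Adj (f i) (f j) ↔ Adj0 i j := fun i hi j hj => by
    obtain ⟨g, rfl⟩ := (mem_Dl i).1 hi
    refine mv g _ j (by norm_num) hj ?_
    rw [adjN, f1 _ d1]
    rcases lt_iff'.1 (act g⁻¹ j hj).1 with e | e | e
    · rw [e, f0, ← tb_eq, c1.2.1]
      simpa using (a1 _ d1).symm
    · rw [f1 _ e, k5 _ e]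
    · rw [f2 _ e, k4 _ e]
  refine ⟨f, fun i hi j hj e => ?_, fun y => ?_, fun i hi j hj => ?_⟩
  · rcases lt_iff'.1 hi with rfl | e1 | e1 <;> rcases lt_iff'.1 hj with rfl | e2 | e2 <;>
      (try rw [f0] at e) <;> (try rw [f1 _ e1] at e) <;> (try rw [f2 _ e1] at e) <;> (try rw [f1 _ e2] at e) <;>
      (try rw [f2 _ e2] at e)
    · exact absurd (e ▸ a1 _ e2) (Γ.loopless.irrefl _)
    · exact absurd e.symm (a2 _ e2).1
    · exact absurd (e ▸ a1 _ e1) (Γ.loopless.irrefl _)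
    · exact k2 e1 e2 e
    · exact absurd (e ▸ a1 _ e1) (a2 _ e2).2
    · exact absurd e (a2 _ e1).1
    · exact absurd (e ▸ a1 _ e2) (a2 _ e1).2
    · exact s.inj e1 e2 e
  · by_cases e : y = a
    · exact ⟨0, by norm_num, f0.trans e.symm⟩
    by_cases e' : Γ.Adj a y
    · obtain ⟨i, h, rfl⟩ := (k3 y).1 e'
      exact ⟨i, lt_iff'.2 (.inr (.inl h)), f1 i h⟩
    · obtain ⟨i, h, rfl⟩ := (s.rng y).1 ⟨e, e'⟩
      exact ⟨i, lt_iff'.2 (.inr (.inr h)), f2 i h⟩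
  · have sy : (Γ.Adj (f j) (f i) ↔ Adj0 j i) → (Γ.Adj (f i) (f j) ↔ Adj0 i j) := fun h =>
      (Γ.adj_comm _ _).trans (h.trans ⟨adj0_symm, adj0_symm⟩)
    rcases lt_iff'.1 hi with rfl | e | e
    · exact p0 j hj
    · exact p1 i e j hj
    rcases lt_iff'.1 hj with rfl | e' | e'
    · exact sy (p0 i hi)
    · exact sy (p1 j e' i hi)
    obtain ⟨g, rfl⟩ := (x1.mem i).1 e
    refine mv g _ j (by norm_num) hj ?_
    have e2 := x1.smul g⁻¹ e'
    rw [f2 _ x1.c_mem, f2 _ e2, (s.base x1).2.2 _ e2, adj01, ← c1.2.2.1, fs_land, mem_filter,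
      and_iff_right e2]

open L0.HS in
open scoped Classical in
theorem exists_rk {G Ω : Type*} [Group G] [MulAction G Ω] [Fintype Ω] [IsPretransitive G Ω] {a b c : Ω}
    (hΩ : Fintype.card Ω = 4060) (hb : (orbit (stabilizer G a) b).ncard = 2304)
    (hc : (orbit (stabilizer G a) c).ncard = 1755) :
    ∃ l m, Rk (stabilizer G a) (orbG G Ω 2304) a c l m := by
  have h1 := fun y => orb_cover (G := G) (y := y) hΩ (by norm_num) (by norm_num) (by norm_num) hb hc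
  have n : ∀ u k, (orbit (stabilizer G a) u).ncard = k → k ≠ 1 → a ∉ orbit (stabilizer G a) u := fun u k e e' h => by
    rw [← orbit_eq_iff.2 h, Set.eq_singleton_iff_unique_mem.2
      ⟨mem_orbit_self a, fun _ ⟨g, e⟩ => e ▸ g.2⟩, Set.ncard_singleton] at e
    omega
  have h2 : ∀ y, (orbG G Ω 2304).Adj a y ↔ y ∈ orbit (stabilizer G a) b := fun y => by
    refine ⟨fun h => (h1 y h.1.symm).resolve_right fun e => ?_, fun h => ⟨?_, ?_⟩⟩
    · have := h.2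
      rw [orbit_eq_iff.2 e, hc] at this
      omega
    · rintro rfl
      exact n _ _ hb (by norm_num) h
    · rw [orbit_eq_iff.2 h, hb]
  have h3 : ∀ y, (y ≠ a ∧ ¬ (orbG G Ω 2304).Adj a y) ↔ y ∈ orbit (stabilizer G a) c := fun y => by
    refine ⟨fun h => (h1 y h.1).resolve_left (mt (h2 y).2 h.2), fun h => ⟨?_, fun e => ?_⟩⟩
    · rintro rfl
      exact n _ _ hc (by norm_num) h
    · have := e.2
      rw [orbit_eq_iff.2 h, hc] at this
      omega
  have h := orbG_smul (G := G) (Ω := Ω) 2304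
  have h4 : ∀ (g : G) x y, Fintype.card ((orbG G Ω 2304).commonNeighbors (g • x) (g • y)) =
      Fintype.card ((orbG G Ω 2304).commonNeighbors x y) := fun g x y => Fintype.card_congr
    ((MulAction.toPerm g).subtypeEquiv fun z => by simp [mem_commonNeighbors, h]).symm
  have h5 : ∀ u y, y ∈ orbit (stabilizer G a) u → Fintype.card ((orbG G Ω 2304).commonNeighbors a y) =
      Fintype.card ((orbG G Ω 2304).commonNeighbors a u) := by
    rintro u _ ⟨k, rfl⟩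
    rw [← h4 k.1 a u, show k.1 • a = a from k.2]; rfl
  refine ⟨Fintype.card ((orbG G Ω 2304).commonNeighbors a b), Fintype.card ((orbG G Ω 2304).commonNeighbors a c),
    fun g => h g.1, fun g => g.2, ⟨hΩ, fun x => ?_, fun x y e => ?_, fun x y e e' => ?_⟩, h3, hc⟩
  rotate_left
  · obtain ⟨g, rfl⟩ := exists_smul_eq G a x
    obtain ⟨y, rfl⟩ := MulAction.surjective g y
    exact (h4 g a y).trans (h5 b y ((h2 y).1 ((h g _ _).1 e)))
  · obtain ⟨g, rfl⟩ := exists_smul_eq G a x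
    obtain ⟨y, rfl⟩ := MulAction.surjective g y
    exact (h4 g a y).trans (h5 c y ((h3 y).1 ⟨fun k => e (by rw [k]), mt (h g _ _).2 e'⟩))
  · obtain ⟨g, rfl⟩ := exists_smul_eq G a x
    refine ((toAut h g).degree_eq a).trans ?_
    rw [← card_neighborSet_eq_degree, ← Nat.card_eq_fintype_card, Nat.card_coe_set_eq]
    exact (congrArg _ (Set.ext h2)).trans hb

theorem final {Ω : Type*} [Fintype Ω] (hΩ : Fintype.card Ω = 4060) (G : Subgroup (Perm Ω)) [IsPretransitive G Ω]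
    {a b c : Ω} (e : stabilizer G a ≃* H27.TTits.G2) (hb : (orbit (stabilizer G a) b).ncard = 2304)
    (hc : (orbit (stabilizer G a) c).ncard = 1755) : Spor.IsoRu G := by
  obtain ⟨l, m, r⟩ := exists_rk hΩ hb hc
  let θ : K →* stabilizer G a := e.symm.toMonoidHom.comp (Subgroup.inclusion (H27.TTits.K_le.trans H27.TTits.cle))
  have hθ : Function.Injective θ := e.symm.injective.comp (Subgroup.inclusion_injective _)
  have hH : Nat.card (stabilizer G a) = 35942400 := (Nat.card_congr e.toEquiv).trans H27.TTits.cardG2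
  letI : MulAction K Ω := MulAction.compHom Ω θ
  have o : orbit K c = orbit (stabilizer G a) c := by
    have s : orbit K c ⊆ orbit (stabilizer G a) c := fun _ ⟨g, hg⟩ => ⟨θ g, hg⟩
    refine Set.eq_of_subset_of_ncard_le s ?_
    have a1 := (stabilizer K c).index_mul_card
    have a2 := (stabilizer (stabilizer G a) c).index_mul_card
    have a3 := Set.ncard_le_ncard s
    obtain ⟨k, a4⟩ : Nat.card (stabilizer K c) ∣ Nat.card (stabilizer (stabilizer G a) c) :=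
      Subgroup.card_dvd_of_injective ((θ.comp (Subgroup.subtype _)).codRestrict _ fun u => u.2)
        fun u v e => Subtype.ext (hθ (congrArg Subtype.val e))
    rw [index_stabilizer, cardK] at a1
    rw [index_stabilizer, hc, hH] at a2
    rw [hc] at a3 ⊢
    have a5 : Nat.card (stabilizer K c) * k = 20480 := by omega
    have a6 : k ≤ 2 := by nlinarith
    interval_cases k
    · omega
    · rw [show Nat.card (stabilizer K c) = 20480 by omega] at a1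
      omega
    · rw [show Nat.card (stabilizer K c) = 10240 by omega] at a1
      omega
  obtain ⟨ι, h1, h2, h3⟩ := Rk.main (c := c) ⟨fun g => r.adj (θ g), fun g => r.fix (θ g), r.srg, o ▸ r.hc, o ▸ hc⟩
  choose f f1 f2 using h2
  let φ : Ω ↪ ℕ := ⟨f, fun x y h => by rw [← f2 x, h, f2]⟩
  have f3 : ∀ i < 4060, φ (ι i) = i := fun i hi => h1 (f1 _) hi (f2 _)
  refine iso_Ru ((Perm.viaEmbeddingHom φ).comp G.subtype)
    ((Perm.viaEmbeddingHom_injective φ).comp Subtype.val_injective) (fun g => ⟨fun i hi => ?_, fun i hi j hj => ?_⟩) ?_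
  · exact Perm.viaEmbedding_apply_of_notMem _ _ _ fun ⟨y, hy⟩ => absurd (f1 y) (by rw [show f y = i from hy]; omega)
  · have k : ∀ i < 4060, (Perm.viaEmbeddingHom φ).comp G.subtype g i = f (g • ι i) := fun i hi => by
      conv_lhs => rw [← f3 i hi]
      exact Perm.viaEmbedding_apply _ _ _
    rw [k i hi, k j hj, ← h3 _ (f1 _) _ (f1 _), f2, f2, L0.HS.orbG_smul, h3 i hi j hj]
  · rw [← (stabilizer G a).index_mul_card, index_stabilizer_of_transitive, Nat.card_eq_fintype_card, hΩ, hH]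

end Cfsg.Agent.H29.Rv
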