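import Cfsg.Agent.H29.Sg1
import Cfsg.Agent.H2.Srg

/-! Uniqueness of the strongly regular graph with parameters `(77,16,0,4)`. -/

set_option autoImplicit false
open Cfsg Finset SimpleGraph
open scoped Classical

namespace Cfsg.Agent.H29.Sg

variable {V : Type*} [Fintype V] (G : SimpleGraph V) [DecidableRel G.Adj] {u v w x y z : V} {f g : V → ℤ} {C C' : Finset V}

def a (u v : V) : ℤ := if G.Adj u v then 1 else 0
noncomputable def δ (u v : V) : ℤ := if u = v then 1 else 0
def ad (f : V → ℤ) (v : V) : ℤ := ∑ w, a G v w * f w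
noncomputable def R (x y w : V) : ℤ := 6 * δ y w + 3 * (a G x w * a G y w) - a G x w - 2 * δ x w
noncomputable def ψ (x y v : V) : ℤ := 2 * R G x y v - ad G (R G x y) v
noncomputable def ind (C : Finset V) (v : V) : ℤ := if v ∈ C then 1 else 0
def Pt (C : Finset V) : Prop := ∀ v, ad G (ind C) v = 6 - 6 * ind C v
abbrev X (x : V) := {v // v ≠ x ∧ ¬ G.Adj x v}

variable {G}

omit [Fintype V] in
theorem asy (u v : V) : a G u v = a G v u := by simp [a, G.adj_comm]

theorem sδ (u : V) (f : V → ℤ) : ∑ w, δ u w * f w = f u := by simp [δ]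
theorem sδ' (u : V) (f : V → ℤ) : ∑ w, f w * δ u w = f u := by simp [δ]

theorem ad_sym (f g : V → ℤ) : ∑ v, f v * ad G g v = ∑ v, ad G f v * g v := by
  simp only [ad, mul_sum, sum_mul]
  rw [sum_comm]
  exact sum_congr rfl fun u _ => sum_congr rfl fun v _ => by rw [asy u v]; ring

theorem sX (x : V) (f : V → ℤ) (h1 : f x = 0) (h2 : ∀ v, G.Adj x v → f v = 0) : ∑ v : X G x, f v = ∑ v, f v := by
  rw [← sum_subtype (p := fun v => v ≠ x ∧ ¬ G.Adj x v) {v | v ≠ x ∧ ¬ G.Adj x v} (by simp), sum_filter_of_ne]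
  exact fun v _ h => ⟨fun e => h (e ▸ h1), fun e => h (h2 v e)⟩

theorem sR (h : ∀ v, G.Adj x v → f v = 0) (y : V) : ∑ w, R G x y w * f w = 6 * f y - 2 * f x := by
  have : ∀ w, a G x w * f w = 0 := fun w => by by_cases k : G.Adj x w <;> simp [a, k, h]
  simp only [R, sub_mul, add_mul, mul_assoc, mul_left_comm (a G x _), this, sum_sub_distrib, sum_add_distrib, ← mul_sum, sδ]
  simp

section
variable (hG : G.IsSRGWith 77 16 0 4)
include hG

theorem tf (h1 : G.Adj x y) (h2 : G.Adj x z) : ¬ G.Adj y z := fun c =>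
  (Fintype.card_eq_zero_iff.1 (hG.of_adj x y h1)).elim ⟨z, h2, c⟩

theorem aa (u v : V) : ∑ w, a G u w * a G v w = 12 * δ u v - 4 * a G u v + 4 := by
  have : #{z | G.Adj u z ∧ G.Adj v z} = Fintype.card (G.commonNeighbors u v) := (Fintype.card_subtype _).symm
  rw [cnt (fun z => G.Adj u z ∧ G.Adj v z) _ 1 fun w => by unfold a; split_ifs <;> simp_all, δ, a]
  split_ifs with h1 h2 h2
  · exact absurd (h1 ▸ h2) (G.loopless.irrefl v)
  · rw [show #{z | G.Adj u z ∧ G.Adj v z} = 16 by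
      rw [← hG.regular u, ← card_neighborFinset_eq_degree]; congr 1; ext; simp [h1]]; rfl
  · rw [this, hG.of_adj u v h2]; rfl
  · rw [this, hG.of_not_adj h1 h2]; rfl

theorem a1 (u : V) : ∑ w, a G u w = 16 := by
  have := aa hG u u
  rw [sum_congr rfl (g := a G u) fun w _ => by simp [a]] at this
  rw [show ∑ w, a G u w = univ.sum (a G u) from rfl, this]; simp [δ, a]

theorem ad_ad (f : V → ℤ) (v : V) : ad G (ad G f) v = 12 * f v - 4 * ad G f v + 4 * ∑ w, f w := by
  simp only [ad, mul_sum, ← mul_assoc]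
  rw [sum_comm]
  simp only [← sum_mul, fun w u => asy (G := G) w u, aa hG]
  simp only [add_mul, sub_mul, sum_add_distrib, sum_sub_distrib, mul_assoc, ← mul_sum, sδ]

theorem sum_ad (f : V → ℤ) : ∑ v, ad G f v = 16 * ∑ v, f v := by
  have := ad_sym (G := G) 1 f
  simpa [ad, a1 hG, ← mul_sum] using this

theorem R0 (y : X G x) : ∑ w, R G x y w = 0 := by
  simp only [R, sum_sub_distrib, sum_add_distrib, ← mul_sum, aa hG, a1 hG]
  simp [δ, a, y.2.1.symm, y.2.2]

theorem adψ (y : X G x) (v : V) : ad G (ψ G x y) v = -6 * ψ G x y v := by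
  have := ad_ad hG (R G x y) v
  rw [R0 hG] at this
  simp only [ad, ψ, mul_sub, mul_left_comm _ (2 : ℤ), sum_sub_distrib, ← mul_sum] at this ⊢
  linarith

theorem ψf (x y v : V) : ψ G x y v = 2 * R G x y v - 6 * a G v y - 3 * ∑ w, a G v w * (a G x w * a G y w) +
    (12 * δ v x - 4 * a G v x + 4) + 2 * a G v x := by
  simp only [ψ, ad, R, mul_sub, mul_add, mul_left_comm (a G v _), sum_sub_distrib, sum_add_distrib, ← mul_sum, sδ', aa hG]
  ring

theorem i0 (h : G.Adj v x) (y : V) : ∑ w, a G v w * (a G x w * a G y w) = 0 :=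
  sum_eq_zero fun w _ => by by_cases k : G.Adj v w <;> simp [a, k, fun k => tf hG h k]

theorem i4 (y : X G x) : ∑ w, a G x w * (a G x w * a G y w) = 4 := by
  rw [sum_congr rfl (g := fun w => a G x w * a G y w) fun w _ => by unfold a; split_ifs <;> rfl, aa hG]
  simp [δ, a, y.2.1.symm, y.2.2]

theorem ψx (y : X G x) : ψ G x y x = 0 := by
  rw [ψf hG, i4 hG]; simp [R, δ, a, y.2.1, y.2.2]

theorem ψN (y : X G x) (v : V) (h : G.Adj x v) : ψ G x y v = 0 := by
  have : y.1 ≠ v := fun e => y.2.2 (e ▸ h)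
  rw [ψf hG, i0 hG h.symm, asy v y]; simp [R, δ, a, h, h.symm, h.ne, h.ne', this]
  split_ifs <;> rfl

theorem ψX (y v : X G x) : ψ G x y v = 12 * δ y.1 v - 6 * a G v y - 3 * ∑ w, a G v w * (a G x w * a G y w) + 4 := by
  rw [ψf hG]; simp [R, δ, a, v.2.1, v.2.1.symm, v.2.2, mt Adj.symm v.2.2]

theorem ψd (y : X G x) {c : ℤ} (h1 : ∀ v, ad G f v = c - 6 * f v) (h2 : ∀ v, G.Adj x v → f v = 0) :
    ∑ v, ψ G x y v * f v = 48 * f y - 16 * f x := by
  simp only [ψ, sub_mul, sum_sub_distrib, mul_assoc, ← mul_sum, ← ad_sym, h1, mul_sub, mul_left_comm _ (6 : ℤ), sR h2,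
    ← sum_mul, R0 hG]
  ring

theorem ψsym (y z : X G x) : ψ G x y z = ψ G x z y := by
  rw [ψX hG, ψX hG, asy z.1 y]
  simp only [δ, eq_comm (a := y.1), mul_left_comm (a G z _), mul_left_comm (a G y _), mul_comm (a G y _)]

theorem ψdg (y : X G x) : ψ G x y y = 4 := by
  rw [ψX hG, sum_congr rfl (g := fun w => a G x w * a G y w) fun w _ => by unfold a; split_ifs <;> rfl, aa hG]
  simp [δ, a, y.2.1.symm, y.2.2]

theorem loc (x : V) : Loc fun y v : X G x => ψ G x y v where
  card := by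
    have := sX (G := G) x (fun v => 1 - δ x v - a G x v) (by simp [δ, a]) fun v h => by simp [δ, a, h, h.ne]
    rw [sum_congr rfl (g := fun _ => 1) fun v _ => by simp [δ, a, v.2.1.symm, v.2.2]] at this
    simp only [sum_sub_distrib, a1 hG] at this
    simp [δ, hG.card] at this
    omega
  sym := ψsym hG
  dg := ψdg hG
  md := fun y z => by
    by_cases e : y = z
    · exact ⟨0, by rw [e, ψdg hG]; rfl⟩
    by_cases k : G.Adj z y
    · refine ⟨2, ?_⟩
      rw [ψX hG]
      simp only [mul_comm (a G x _), i0 hG k]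
      simp [δ, a, k, Subtype.coe_ne_coe.2 e]
    · refine ⟨#{w | G.Adj z w ∧ G.Adj x w ∧ G.Adj y w}, ?_⟩
      rw [ψX hG, cnt (fun w => G.Adj z w ∧ G.Adj x w ∧ G.Adj y w) _ 1 fun w => by unfold a; split_ifs <;> simp_all]
      simp [δ, a, k, Subtype.coe_ne_coe.2 e]; ring
  sq := fun y z => by
    rw [sX x (fun v => ψ G x y v * ψ G x z v) (by simp [ψx hG]) fun v h => by simp [ψN hG _ _ h],
      ψd hG y (c := 0) (fun v => by rw [adψ hG]; ring) (ψN hG z), ψx hG, ψsym hG y]
    ring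
  sum := fun y => by
    rw [sX x _ (ψx hG y) (ψN hG y)]
    have := sum_ad hG (ψ G x y)
    simp only [adψ hG, ← mul_sum] at this
    omega

omit hG in
theorem Pt.nb (h : Pt G C) (hx : x ∈ C) (v : V) (k : G.Adj x v) : ind C v = 0 := by
  have := zer (f := fun w => a G x w * ind C w) (fun w => by unfold a ind; split_ifs <;> simp)
    ((h x).trans (by simp [ind, hx])) v
  simpa [a, k] using this

theorem Pt.card (h : Pt G C) : #C = 21 := by
  have := sum_ad hG (ind C)
  simp only [h _, sum_sub_distrib, ← mul_sum] at this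
  simp [ind, hG.card] at this
  omega

theorem Pt.st (h : Pt G C) (hx : x ∈ C) : St (fun y v : X G x => ψ G x y v) fun v => 3 * ind C v - 1 := by
  refine ⟨fun v => by simp only [ind]; split_ifs <;> simp, fun z => ?_⟩
  simp only [mul_sub, mul_left_comm _ (3 : ℤ), sum_sub_distrib, ← mul_sum, mul_one, (loc hG x).sum z]
  rw [sX x (fun v => ψ G x z v * ind C v) (by simp [ψx hG]) fun v h => by simp [ψN hG _ _ h], ψd hG z h (h.nb hx)]
  rw [show ind C x = 1 from if_pos hx]; ring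

theorem lift {h : X G x → ℤ} (S : St (fun y v : X G x => ψ G x y v) h) :
    ∃ C, Pt G C ∧ x ∈ C ∧ ∀ v : X G x, 3 * ind C v - 1 = h v := by
  let C : Finset V := {v | v = x ∨ ∃ k, h ⟨v, k⟩ = 2}
  have e : ∀ v : X G x, 3 * ind C v - 1 = h v := fun v => by
    rcases S.1 v with k | k <;> simp [ind, C, v.2.1, v.2.2, k]
  have f : ∀ v, 144 * ind C v = 48 * (2 * δ x v - a G v x + 1) + ∑ z : X G x, h z * ψ G x z v := fun v => by
    by_cases k1 : v = x
    · simp [k1, ψx hG, ind, C, δ, a]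
    by_cases k2 : G.Adj x v
    · simp [ψN hG _ _ k2, ind, C, δ, a, k1, k2, k2.symm, k2.ne]
    have := S.2 ⟨v, k1, k2⟩
    have := e ⟨v, k1, k2⟩
    rw [sum_congr rfl fun z _ => by rw [ψsym hG z ⟨v, k1, k2⟩, mul_comm]]
    simp only [δ, a, if_neg (Ne.symm k1), if_neg (mt Adj.symm k2)] at *
    omega
  refine ⟨C, fun v => ?_, by simp [C], e⟩
  have : ∑ w, a G v w * (144 * ind C w) = _ := sum_congr rfl fun w _ => by rw [f w]
  simp only [mul_add, mul_sub, mul_left_comm (a G v _), sum_add_distrib, sum_sub_distrib, ← mul_sum, sδ', mul_one, a1 hG,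
    fun w => asy (G := G) w x, aa hG] at this
  have q : ∑ w, a G v w * ∑ z : X G x, h z * ψ G x z w = -6 * ∑ z : X G x, h z * ψ G x z v := by
    simp only [mul_sum, mul_left_comm (a G v _)]
    rw [sum_comm]
    exact sum_congr rfl fun z _ => by rw [← mul_sum, mul_left_comm, ← adψ hG]; rfl
  rw [q, ← sum_mul, a1 hG] at this
  change 144 * ad G (ind C) v = _ at this
  have := f v
  have : δ v x = δ x v := by simp [δ, eq_comm]
  have := asy (G := G) v x
  omega

theorem two (y : X G x) : #{C : Subtype (Pt G) | x ∈ C.1 ∧ y.1 ∈ C.1} = 2 := by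
  obtain ⟨h1, h2, n, k⟩ := (loc hG x).stars y
  obtain ⟨C1, a1, a2, a3⟩ := lift hG ((k h1).2 (.inl rfl)).1
  obtain ⟨C2, b1, b2, b3⟩ := lift hG ((k h2).2 (.inr rfl)).1
  have m : ∀ {C : Finset V}, y.1 ∈ C ↔ 3 * ind C y - 1 = 2 := by intro C; unfold ind; split_ifs <;> simp_all
  have i : ∀ {C C' : Finset V}, Pt G C → Pt G C' → x ∈ C → x ∈ C' → (∀ v : X G x, 3 * ind C v - 1 = 3 * ind C' v - 1) →
      C = C' := fun {C C'} h h' hx hx' e => by
    ext v
    by_cases k1 : v = x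
    · simp [k1, hx, hx']
    have : ind C v = ind C' v := by
      by_cases k2 : G.Adj x v
      · rw [h.nb hx v k2, h'.nb hx' v k2]
      · have := e ⟨v, k1, k2⟩; dsimp only at this; omega
    unfold ind at this; split_ifs at this <;> simp_all
  refine card_eq_two.2 ⟨⟨C1, a1⟩, ⟨C2, b1⟩, fun e => n (funext fun v => ?_), ?_⟩
  · rw [← a3, ← b3, Subtype.mk.inj e]
  ext C
  simp only [mem_filter_univ, mem_insert, mem_singleton, Subtype.ext_iff]
  refine ⟨fun c => ((k _).1 ⟨C.2.st hG c.1, m.1 c.2⟩).imp (fun e => i C.2 a1 c.1 a2 fun v => ?_)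
    fun e => i C.2 b1 c.1 b2 fun v => ?_, ?_⟩
  · rw [a3, ← e]
  · rw [b3, ← e]
  · rintro (e | e) <;> rw [e, m]
    exacts [⟨a2, (a3 y).trans ((k h1).2 (.inl rfl)).2⟩, ⟨b2, (b3 y).trans ((k h2).2 (.inr rfl)).2⟩]

theorem six (x : V) : #{C : Subtype (Pt G) | x ∈ C.1} = 6 := by
  have : ∑ y : X G x, ∑ C : Subtype (Pt G), ind C.1 x * ind C.1 y = 120 := by
    rw [sum_congr rfl (g := fun _ => 2) fun y _ => by
      rw [cnt (fun C : Subtype (Pt G) => x ∈ C.1 ∧ y.1 ∈ C.1) _ 1 fun C => by unfold ind; split_ifs <;> simp_all, two hG]; rfl]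
    simp [(loc hG x).card]
  rw [sum_comm, cnt (fun C : Subtype (Pt G) => x ∈ C.1) _ 20 fun C => ?_] at this
  · omega
  split_ifs with k
  · have := sX (G := G) x (fun v => ind C.1 v - δ x v) (by simp [ind, δ, k]) fun v h => by simp [C.2.nb k v h, δ, h.ne]
    rw [sum_congr rfl (g := fun v : X G x => ind C.1 v) fun v _ => by simp [δ, v.2.1.symm], sum_sub_distrib] at this
    rw [← mul_sum, this]
    simp [ind, δ, k, C.2.card hG]
  · simp [ind, k]

theorem steiner : ∃ B : Set (Finset (Subtype (Pt G))), Fintype.card (Subtype (Pt G)) = 22 ∧ IsSteinerSystem 3 6 B ∧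
    Nonempty (blockGraph B ≃g G) := by
  have h0 : Fintype.card (Subtype (Pt G)) = 22 := by
    have : ∑ x, ∑ C : Subtype (Pt G), ind C.1 x = 462 := by
      rw [sum_congr rfl (g := fun _ => 6) fun x _ => by
        rw [cnt (fun C : Subtype (Pt G) => x ∈ C.1) (fun C => ind C.1 x) 1 fun C => rfl, six hG]; rfl]
      simp [hG.card]
    rw [sum_comm, sum_congr rfl (g := fun _ => 21) fun C _ => by simp [ind, C.2.card hG]] at this
    simp only [sum_const, card_univ, nsmul_eq_mul] at this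
    omega
  let f : V → Finset (Subtype (Pt G)) := fun x => {C | x ∈ C.1}
  have h8 : ∀ x y, x ≠ y → #(f x ∩ f y) = if G.Adj x y then 0 else 2 := fun x y n => by
    rw [← filter_and]
    split_ifs with k
    · exact card_eq_zero.2 (filter_eq_empty_iff.2 fun C _ c => by simpa [ind, c.2] using C.2.nb c.1 y k)
    · exact two hG ⟨y, n.symm, k⟩
  have h9 : ∀ x y, 3 ≤ #(f x ∩ f y) → x = y := fun x y h => by_contra fun e => by
    have := h8 x y e
    split_ifs at this <;> omega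
  have hi : Function.Injective f := fun x y e => h9 x y (by rw [← e, inter_self, six hG]; omega)
  have hB : IsSteinerSystem 3 6 (Set.range f) := H16.isSteiner_of_count (by rintro _ ⟨x, rfl⟩; exact six hG x)
    (by rintro _ ⟨x, rfl⟩ _ ⟨y, rfl⟩ h; rw [h9 x y h])
    (by rw [Set.ncard_range_of_injective hi, Nat.card_eq_fintype_card, hG.card, h0]; rfl)
  refine ⟨_, h0, hB, ⟨Iso.symm ⟨Equiv.ofInjective f hi, fun {x y} => ?_⟩⟩⟩
  rw [H2.St.adj77 hB, disjoint_iff_inter_eq_empty, ← card_eq_zero]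
  change #(f x ∩ f y) = 0 ↔ _
  by_cases e : x = y
  · rw [e, inter_self, six hG]; simp
  · rw [h8 x y e]; split_ifs with k <;> simp [k]

end

theorem bg_iso {α β : Type*} [Fintype α] [Fintype β] {B : Set (Finset α)} {B' : Set (Finset β)} (hB : IsSteinerSystem 3 6 B)
    (hB' : IsSteinerSystem 3 6 B') (h : SetSystemIso B B') : Nonempty (blockGraph B ≃g blockGraph B') := by
  obtain ⟨e, he⟩ := H2.St.iso_iff.1 h
  have he' : ∀ b, b ∈ B ↔ e.finsetCongr b ∈ B' := fun b => by rw [← he]; rfl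
  exact ⟨⟨e.finsetCongr.subtypeEquiv he', fun {a b} => by simp [H2.St.adj77 hB, H2.St.adj77 hB']⟩⟩

theorem uniq {W : Type*} [Fintype W] {H : SimpleGraph W} [DecidableRel H.Adj] (hG : G.IsSRGWith 77 16 0 4)
    (hH : H.IsSRGWith 77 16 0 4) : Nonempty (G ≃g H) := by
  obtain ⟨B, a1, a2, ⟨e⟩⟩ := steiner hG
  obtain ⟨B', b1, b2, ⟨f⟩⟩ := steiner hH
  obtain ⟨g⟩ := bg_iso a2 b2 (by convert H2.St.witt_unique (t := 3) (by omega) (by omega) a1 b1 a2 b2)
  exact ⟨(e.symm.trans g).trans f⟩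

end Cfsg.Agent.H29.Sg
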