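import Cfsg.Agent.H29.Sz7
import Cfsg.Agent.L0.HS2
import Cfsg.Agent.H12.Transport
import Cfsg.Agent.H17.SuzG2

/-! Recognition of the sporadic Suzuki group as a rank `3` group. -/

set_option autoImplicit false
set_option maxRecDepth 100000
open Cfsg.Agent.H17 MulAction Finset Equiv SimpleGraph

namespace Cfsg.Agent.H29.Sz

def J5 : List (List ℕ) := [[0], [1], [2], [3], [4]]
def sol : ℕ := 81065207521083413

theorem c1 : Nat.land N0 M1 = uni Os1 (tb sol) 57 ∧ Nat.xor M1 (Nat.land N0 M1) = uni Os1 (fun t => !tb sol t) 57 ∧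
    E1.invB J5 N0 = true ∧ E1.fixB J5 [1781] = true ∧ E1.orb J5 5 135 = O1 ∧ E1.orb J5 5 156 = O2 ∧
    Dl = Nat.lor (Nat.shiftLeft 1 1781) (Nat.lor O1 O2) ∧ Nat.land N0 Dl = O1 ∧ pop 6 O1 = 100 ∧ pop 6 O2 = 315 ∧
    pop 6 Dl = 416 ∧ ones 1782 = Nat.lor (Nat.shiftLeft 1 0) (Nat.lor Dl M1) ∧ Nat.land Dl M1 = 0 ∧
    Nat.shiftRight Dl 2048 = 0 ∧ Nat.shiftRight M1 2048 = 0 ∧ Nat.shiftRight C1 2048 = 0 := by decide +kernel

theorem c2 : tb Dl 0 = false ∧ tb M1 0 = false ∧ tb N0 0 = true ∧ tb N0 1 = true ∧ tb M1 1 = true ∧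
    SuzT.D.sendB [6] 1 0 = true ∧ Nat.land (SuzT.D.pullW1 [6] Dl) M1 = C1 ∧
    SuzT.D.sendB [6, 1, 2, 3, 2, 1, 6] 135 0 = true ∧ SuzT.D.sendB [6, 1, 0, 2, 3, 2, 1, 4, 5, 6] 156 0 = true ∧
    Nat.land (SuzT.D.pullW1 [6, 1, 2, 3, 2, 1, 6] Dl) M1 ≠ Nat.land N0 M1 ∧
    Nat.land (SuzT.D.pullW1 [6, 1, 0, 2, 3, 2, 1, 4, 5, 6] Dl) M1 ≠ Nat.land N0 M1 ∧ tb Os1.length 0 = true := by
  decide +kernel

theorem adjN (j : ℕ) : Adj0 1781 j ↔ N0.testBit j = true := cDl.2.2.2.2.2 ▸ adj0_word cDl.2.2.2.2.1 j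

theorem adjH (g : H0) (i j : ℕ) : Adj0 (g • i) (g • j) ↔ Adj0 i j := adj0_smul g.1 i j

theorem Dl_cases {i : ℕ} (h : Dl.testBit i = true) : i = 1781 ∨ O1.testBit i = true ∨ O2.testBit i = true := by
  rwa [c1.2.2.2.2.2.2.1, lor_eq, lor_eq, Nat.testBit_or, Nat.testBit_or, Bool.or_eq_true, Bool.or_eq_true,
    testBit_one] at h

theorem lt_iff {i : ℕ} : i < 1782 ↔ i = 0 ∨ Dl.testBit i = true ∨ i ∈ fs M1 := by
  rw [← decide_eq_true_iff (p := i < 1782), ← testBit_ones, c1.2.2.2.2.2.2.2.2.2.2.2.1, lor_eq, lor_eq, Nat.testBit_or,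
    Nat.testBit_or, Bool.or_eq_true, Bool.or_eq_true, testBit_one, mem_fs c1.2.2.2.2.2.2.2.2.2.2.2.2.2.2.1]

theorem notDl {i : ℕ} (h : i ∈ fs M1) : i ≠ 0 ∧ ¬ Dl.testBit i = true := by
  have h1 := (mem_fs'.1 h).2
  refine ⟨?_, fun e => ?_⟩
  · rintro rfl
    rw [← tb_eq, c2.2.1] at h1
    exact absurd h1 (by simp)
  · have := congrArg (Nat.testBit · i) c1.2.2.2.2.2.2.2.2.2.2.2.2.1
    simp [land_eq, e, h1] at this

theorem stab_b {g : H0} (h : ∀ i ∈ fs M1, N0.testBit (g • i) = N0.testBit i) : g • (1781 : ℕ) = 1781 := by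
  have a : ∀ (β : ℕ) (u : List ℕ), SuzT.D.sendB u β 0 = true → Nat.land (SuzT.D.pullW1 u Dl) M1 ≠ Nat.land N0 M1 →
      g • (1781 : ℕ) ∉ orbit (wgrp hh J5) β := by
    rintro β u h1 h2 ⟨k, hk⟩
    refine h2 (Nat.eq_of_testBit_eq fun i => ?_)
    rw [land_eq, land_eq, Nat.testBit_and, Nat.testBit_and]
    cases e : M1.testBit i
    · simp
    have hi := (mem_fs c1.2.2.2.2.2.2.2.2.2.2.2.2.2.2.1).2 e
    rw [Bool.and_true, Bool.and_true, Bool.eq_iff_iff, ← adj0_word h1, ← adjH k.1, show k.1 • β = _ from hk,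
      ← smul_inv_smul g (k.1 • i), adjH, adjN, ← h _ (x1.smul _ (x1.smul _ hi)), smul_inv_smul,
      w1.invW c1.2.2.1 k.2]
  rcases Dl_cases ((mem_Dl _).2 (mem_orbit _ g)) with e | e | e
  · exact e
  · exact (a _ _ c2.2.2.2.2.2.2.2.1 c2.2.2.2.2.2.2.2.2.2.1
      (w1.orb _ (fun u hu => mem_wgrp _ hu) (c1.2.2.2.2.1 ▸ e))).elim
  · exact (a _ _ c2.2.2.2.2.2.2.2.2.1 c2.2.2.2.2.2.2.2.2.2.2.1
      (w1.orb _ (fun u hu => mem_wgrp _ hu) (c1.2.2.2.2.2.1 ▸ e))).elim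

variable {Ω : Type*} [Fintype Ω] [MulAction H0 Ω] {Γ : SimpleGraph Ω} {a b c : Ω} {l m : ℕ}

open scoped Classical in
theorem Rk.delta (r : Rk H0 Γ a b c l m) {ι : ℕ → Ω} (s : St H0 Γ a (fs M1) ι l m) :
    ∃ κ : ℕ → Ω, (∀ g : H0, ∀ i, Dl.testBit i = true → κ (g • i) = g • κ i) ∧
      Set.InjOn κ {i | Dl.testBit i = true} ∧ (∀ y, Γ.Adj a y ↔ ∃ i, Dl.testBit i = true ∧ κ i = y) ∧
      (∀ i ∈ fs M1, Γ.Adj (κ 1781) (ι i) ↔ N0.testBit i = true) ∧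
      ∀ i, Dl.testBit i = true → (Γ.Adj (κ 1781) (κ i) ↔ N0.testBit i = true) := by
  have : Finite H0 := Nat.finite_of_card_ne_zero (by rw [cardH]; norm_num)
  obtain ⟨b', h1, h2⟩ := r.fixQ
  obtain ⟨J, j, hJ⟩ := search ok1 w1 s x1 h1 h2
  obtain rfl : J = sol := beq_true j
  have hS : ∀ i ∈ fs M1, Γ.Adj b' (ι i) ↔ N0.testBit i = true := fun i hi => by
    have e := (mem_fs'.1 hi).2
    rw [adj_comm]
    cases e' : N0.testBit i
    · obtain ⟨t, t1, t2, t3⟩ := uni_bit (Os := Os1) (f := fun t => !tb sol t) (n := 57) (i := i)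
        (by rw [← c1.2.1]; simp [xor_eq, land_eq, e, e'])
      rw [hJ t t1 i t3, ← tb_eq]
      simpa using t2
    · obtain ⟨t, t1, t2, t3⟩ := uni_bit (Os := Os1) (f := tb sol) (n := 57) (i := i)
        (by rw [← c1.1]; simp [land_eq, e, e'])
      rw [hJ t t1 i t3, ← tb_eq]
      simpa using t2
  have eo : orbit H0 (1781 : ℕ) = {i | Dl.testBit i = true} := Set.ext fun i => (mem_Dl i).symm
  have ef : {i | Dl.testBit i = true} = (fs Dl : Set ℕ) := Set.ext fun i => (mem_fs c1.2.2.2.2.2.2.2.2.2.2.2.2.2.1).symm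
  have eb := orbit_eq_iff.2 ((r.hb _).1 h1)
  obtain ⟨κ, k1, k2, k3, k4⟩ := lab (H := H0) (c := b') (c0 := 1781) (fun g hg => stab_b fun i hi => by
    rw [Bool.eq_iff_iff, ← hS _ hi, ← hS _ (x1.smul g hi), s.act g i hi, ← r.adj g b' (ι i), mem_stabilizer_iff.1 hg])
    (by rw [eb, r.nb, eo, ef, Set.ncard_coe_finset, card_fs, c1.2.2.2.2.2.2.2.2.2.2.1])
  rw [eo] at k1 k2 k3
  have k5 : ∀ y, Γ.Adj a y ↔ ∃ i, Dl.testBit i = true ∧ κ i = y := fun y => by rw [r.hb, ← eb, ← k3]; rfl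
  refine ⟨κ, k1, k2, k5, k4 ▸ hS, ?_⟩
  rw [k4]
  have n : #{i ∈ fs Dl | Γ.Adj b' (κ i)} = 100 := by
    rw [← (s.base x1).1, ← r.srg.of_adj _ _ h1, s.cn,
      ← card_image_of_injOn (f := κ) (k2.mono (ef ▸ coe_subset.2 (filter_subset _ _)))]
    refine congrArg card (Finset.ext fun y => ?_)
    simp only [mem_image, mem_filter, mem_univ, true_and, k5, mem_fs c1.2.2.2.2.2.2.2.2.2.2.2.2.2.1]
    exact ⟨by rintro ⟨i, ⟨a1, a2⟩, rfl⟩; exact ⟨⟨i, a1, rfl⟩, a2⟩, by rintro ⟨⟨i, a1, rfl⟩, a2⟩; exact ⟨i, ⟨a1, a2⟩, rfl⟩⟩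
  have sb : {i ∈ fs Dl | Γ.Adj b' (κ i)} ⊆ fs O1 := fun i hi => by
    obtain ⟨a1, a2⟩ := mem_filter.1 hi
    obtain ⟨a3, a4⟩ := mem_fs'.1 a1
    rcases Dl_cases a4 with rfl | e | e
    · exact absurd (k4 ▸ a2) (Γ.loopless.irrefl _)
    · exact mem_fs'.2 ⟨a3, e⟩
    · have o := fun j (hj : O2.testBit j = true) =>
        w1.orb (stabilizer H0 (1781 : ℕ)) (w1.fixS c1.2.2.2.1) (c1.2.2.2.2.2.1 ▸ hj)
      have : fs O2 ⊆ {i ∈ fs Dl | Γ.Adj b' (κ i)} := fun j hj => by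
        obtain ⟨g, rfl⟩ := orbit_eq_iff.2 (o i e) ▸ o j (mem_fs'.1 hj).2
        refine mem_filter.2 ⟨mem_fs'.2 ⟨(mem_fs'.1 hj).1, (w1.inv cDl.1 g.1 i).trans a4⟩, ?_⟩
        have := (r.adj g.1 _ _).2 a2
        rwa [← k4, ← k1 _ _ a4, ← k1 _ _ ((tb_eq _ _).symm.trans cDl.2.2.1), show g.1 • (1781 : ℕ) = 1781 from g.2, k4] at this
      have := card_le_card this
      rw [n, card_fs, c1.2.2.2.2.2.2.2.2.2.1] at this
      omega
  have se := eq_of_subset_of_card_le sb (by rw [n, card_fs, c1.2.2.2.2.2.2.2.2.1])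
  rw [← c1.2.2.2.2.2.2.2.1, fs_land] at se
  intro i hi
  have := Finset.ext_iff.1 se i
  simpa only [mem_filter, (mem_fs c1.2.2.2.2.2.2.2.2.2.2.2.2.2.1).2 hi, true_and] using this

theorem Rk.main (r : Rk H0 Γ a b c l m) : ∃ ι : ℕ → Ω, Set.InjOn ι (Set.Iio 1782) ∧ (∀ y, ∃ i < 1782, ι i = y) ∧
    ∀ i < 1782, ∀ j < 1782, Γ.Adj (ι i) (ι j) ↔ Adj0 i j := by
  obtain ⟨ι, s⟩ := r.point
  obtain ⟨κ, k1, k2, k3, k4, k5⟩ := r.delta s
  let f : ℕ → Ω := fun i => if i = 0 then a else if Dl.testBit i = true then κ i else ι i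
  have d0 : ¬ Dl.testBit 0 = true := by rw [← tb_eq, c2.1]; simp
  have f0 : f 0 = a := if_pos rfl
  have f1 : ∀ i, Dl.testBit i = true → f i = κ i := fun i h =>
    (if_neg (by rintro rfl; exact d0 h)).trans (if_pos h)
  have f2 : ∀ i ∈ fs M1, f i = ι i := fun i h => (if_neg (notDl h).1).trans (if_neg (notDl h).2)
  have a1 : ∀ i, Dl.testBit i = true → Γ.Adj a (κ i) := fun i h => (k3 _).2 ⟨i, h, rfl⟩
  have a2 : ∀ i ∈ fs M1, ι i ≠ a ∧ ¬ Γ.Adj a (ι i) := fun i h => (s.rng _).2 ⟨i, h, rfl⟩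
  have act : ∀ g : H0, ∀ i < 1782, g • i < 1782 ∧ f (g • i) = g • f i := fun g i hi => by
    refine ⟨SuzT.rep.lt g.1 hi, ?_⟩
    rcases lt_iff.1 hi with rfl | e | e
    · rw [fix0, f0, r.fix]
    · rw [f1 _ e, f1 _ ((w1.inv cDl.1 g i).trans e), k1 g i e]
    · rw [f2 _ e, f2 _ (x1.smul g e), s.act g i e]
  have mv : ∀ (g : H0) i j, i < 1782 → j < 1782 → (Γ.Adj (f i) (f (g⁻¹ • j)) ↔ Adj0 i (g⁻¹ • j)) →
      (Γ.Adj (f (g • i)) (f j) ↔ Adj0 (g • i) j) := fun g i j hi hj h => by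
    rw [← r.adj g, ← adjH g, ← (act g i hi).2, ← (act g _ (act g⁻¹ j hj).1).2, smul_inv_smul] at h
    exact h
  have p0 : ∀ j < 1782, Γ.Adj (f 0) (f j) ↔ Adj0 0 j := fun j hj => by
    rw [adj0_iff (one_smul Spor.Suz 0), one_smul, f0]
    rcases lt_iff.1 hj with rfl | e | e
    · simp [f0, d0]
    · simp [f1 _ e, a1 _ e, e]
    · simp [f2 _ e, (a2 _ e).2, (notDl e).2]
  have d1 : Dl.testBit 1781 = true := tb_eq _ _ ▸ cDl.2.2.1
  have p1 : ∀ i, Dl.testBit i = true → ∀ j < 1782, Γ.Adj (f i) (f j) ↔ Adj0 i j := fun i hi j hj => by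
    obtain ⟨g, rfl⟩ := (mem_Dl i).1 hi
    refine mv g _ j (by norm_num) hj ?_
    rw [adjN, f1 _ d1]
    rcases lt_iff.1 (act g⁻¹ j hj).1 with e | e | e
    · rw [e, f0, ← tb_eq, c2.2.2.1]
      simpa using (a1 _ d1).symm
    · rw [f1 _ e, k5 _ e]
    · rw [f2 _ e, k4 _ e]
  refine ⟨f, fun i hi j hj e => ?_, fun y => ?_, fun i hi j hj => ?_⟩
  · rcases lt_iff.1 hi with rfl | e1 | e1 <;> rcases lt_iff.1 hj with rfl | e2 | e2 <;>
      (try rw [f0] at e) <;> (try rw [f1 _ e1] at e) <;> (try rw [f2 _ e1] at e) <;> (try rw [f1 _ e2] at e) <;>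
      (try rw [f2 _ e2] at e)
    · exact absurd (e ▸ a1 _ e2) (Γ.loopless.irrefl _)
    · exact absurd e.symm (a2 _ e2).1
    · exact absurd (e ▸ a1 _ e1) (Γ.loopless.irrefl _)
    · exact k2 e1 e2 e
    · exact absurd (e ▸ a1 _ e1) (a2 _ e2).2
    · exact absurd e (a2 _ e1).1
    · exact absurd (e ▸ a1 _ e2) (a2 _ e1).2
    · exact s.inj e1 e2 e
  · by_cases e : y = a
    · exact ⟨0, by norm_num, f0.trans e.symm⟩
    by_cases e' : Γ.Adj a y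
    · obtain ⟨i, h, rfl⟩ := (k3 y).1 e'
      exact ⟨i, lt_iff.2 (.inr (.inl h)), f1 i h⟩
    · obtain ⟨i, h, rfl⟩ := (s.rng y).1 ⟨e, e'⟩
      exact ⟨i, lt_iff.2 (.inr (.inr h)), f2 i h⟩
  · have sy : (Γ.Adj (f j) (f i) ↔ Adj0 j i) → (Γ.Adj (f i) (f j) ↔ Adj0 i j) := fun h =>
      (Γ.adj_comm _ _).trans (h.trans ⟨adj0_symm, adj0_symm⟩)
    rcases lt_iff.1 hi with rfl | e | e
    · exact p0 j hj
    · exact p1 i e j hj
    rcases lt_iff.1 hj with rfl | e' | e'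
    · exact sy (p0 i hi)
    · exact sy (p1 j e' i hi)
    obtain ⟨g, rfl⟩ := (x1.mem i).1 e
    refine mv g _ j (by norm_num) hj ?_
    have e2 := x1.smul g⁻¹ e'
    rw [f2 _ x1.c_mem, f2 _ e2, (s.base x1).2.2 _ e2, adj0_word c2.2.2.2.2.2.1, ← c2.2.2.2.2.2.2.1, fs_land, mem_filter,
      and_iff_right e2]

section
variable {F K : Type*} [Field F] [Field K]

theorem xMat_map (D : Lie.ChevalleyDatum) (e : F ≃+* K) (r : Fin D.nroots) (t : F) :
    (D.xMat F r t).map e = D.xMat K r (e t) := by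
  ext (i | u) (j | s) <;> simp only [Lie.ChevalleyDatum.xMat, Matrix.map_apply, Matrix.of_apply] <;>
    (try split_ifs) <;> simp [map_list_sum, Function.comp_def]

theorem chev_map_le (D : Lie.ChevalleyDatum) (e : F ≃+* K) :
    (D.group F).map (H12.glCongr _ e).toMonoidHom ≤ D.group K := by
  rw [Lie.ChevalleyDatum.group, MonoidHom.map_closure]
  refine Subgroup.closure_mono ?_
  rintro _ ⟨g, ⟨r, t, h⟩, rfl⟩
  exact ⟨r, e t, by rw [← xMat_map, ← h]; rfl⟩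

theorem isoH [Fintype K] (hK : Fintype.card K = 4) : Nonempty (H0 ≃* Lie.chevG2.group K) := by
  obtain ⟨e0⟩ := Suz.isoG2
  let e := FiniteField.ringEquivOfCardEq (card_F4.trans hK.symm)
  exact ⟨e0.trans (((H12.glCongr _ e).subgroupMap _).trans (MulEquiv.subgroupCongr (le_antisymm (chev_map_le _ e)
    fun g hg => ⟨_, chev_map_le _ e.symm ⟨g, hg, rfl⟩, by ext i j; simp⟩)))⟩

end

open L0.HS in
open scoped Classical in
theorem exists_rk {G Ω : Type*} [Group G] [MulAction G Ω] [Fintype Ω] [IsPretransitive G Ω] {a b c : Ω}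
    (hΩ : Fintype.card Ω = 1782) (hb : (orbit (stabilizer G a) b).ncard = 416)
    (hc : (orbit (stabilizer G a) c).ncard = 1365) :
    ∃ l m, Rk (stabilizer G a) (orbG G Ω 416) a b c l m := by
  have h1 := fun y => orb_cover (G := G) (y := y) hΩ (by norm_num) (by norm_num) (by norm_num) hb hc
  have n : ∀ u k, (orbit (stabilizer G a) u).ncard = k → k ≠ 1 → a ∉ orbit (stabilizer G a) u := fun u k e e' h => by
    rw [← orbit_eq_iff.2 h, Set.eq_singleton_iff_unique_mem.2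
      ⟨mem_orbit_self a, fun _ ⟨g, e⟩ => e ▸ g.2⟩, Set.ncard_singleton] at e
    omega
  have h2 : ∀ y, (orbG G Ω 416).Adj a y ↔ y ∈ orbit (stabilizer G a) b := fun y => by
    refine ⟨fun h => (h1 y h.1.symm).resolve_right fun e => ?_, fun h => ⟨?_, ?_⟩⟩
    · have := h.2
      rw [orbit_eq_iff.2 e, hc] at this
      omega
    · rintro rfl
      exact n _ _ hb (by norm_num) h
    · rw [orbit_eq_iff.2 h, hb]
  have h3 : ∀ y, (y ≠ a ∧ ¬ (orbG G Ω 416).Adj a y) ↔ y ∈ orbit (stabilizer G a) c := fun y => by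
    refine ⟨fun h => (h1 y h.1).resolve_left (mt (h2 y).2 h.2), fun h => ⟨?_, fun e => ?_⟩⟩
    · rintro rfl
      exact n _ _ hc (by norm_num) h
    · have := e.2
      rw [orbit_eq_iff.2 h, hc] at this
      omega
  have h := orbG_smul (G := G) (Ω := Ω) 416
  have h4 : ∀ (g : G) x y, Fintype.card ((orbG G Ω 416).commonNeighbors (g • x) (g • y)) =
      Fintype.card ((orbG G Ω 416).commonNeighbors x y) := fun g x y => Fintype.card_congr
    ((MulAction.toPerm g).subtypeEquiv fun z => by simp [mem_commonNeighbors, h]).symm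
  have h5 : ∀ u y, y ∈ orbit (stabilizer G a) u → Fintype.card ((orbG G Ω 416).commonNeighbors a y) =
      Fintype.card ((orbG G Ω 416).commonNeighbors a u) := by
    rintro u _ ⟨k, rfl⟩
    rw [← h4 k.1 a u, show k.1 • a = a from k.2]; rfl
  refine ⟨Fintype.card ((orbG G Ω 416).commonNeighbors a b), Fintype.card ((orbG G Ω 416).commonNeighbors a c),
    fun g => h g.1, fun g => g.2, ⟨hΩ, fun x => ?_, fun x y e => ?_, fun x y e e' => ?_⟩, h2, h3, hb, hc⟩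
  rotate_left
  · obtain ⟨g, rfl⟩ := exists_smul_eq G a x
    obtain ⟨y, rfl⟩ := MulAction.surjective g y
    exact (h4 g a y).trans (h5 b y ((h2 y).1 ((h g _ _).1 e)))
  · obtain ⟨g, rfl⟩ := exists_smul_eq G a x
    obtain ⟨y, rfl⟩ := MulAction.surjective g y
    exact (h4 g a y).trans (h5 c y ((h3 y).1 ⟨fun k => e (by rw [k]), mt (h g _ _).2 e'⟩))
  · obtain ⟨g, rfl⟩ := exists_smul_eq G a x
    refine ((toAut h g).degree_eq a).trans ?_
    rw [← card_neighborSet_eq_degree, ← Nat.card_eq_fintype_card, Nat.card_coe_set_eq]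
    exact (congrArg _ (Set.ext h2)).trans hb

theorem final {Ω : Type*} [Fintype Ω] (hΩ : Fintype.card Ω = 1782) (G : Subgroup (Perm Ω)) [IsPretransitive G Ω]
    {a b c : Ω} (e : H0 ≃* stabilizer G a) (hb : (orbit (stabilizer G a) b).ncard = 416)
    (hc : (orbit (stabilizer G a) c).ncard = 1365) : Spor.IsoSuz G := by
  obtain ⟨l, m, r⟩ := exists_rk hΩ hb hc
  letI : MulAction H0 Ω := MulAction.compHom Ω e.toMonoidHom
  have o : ∀ y : Ω, orbit H0 y = orbit (stabilizer G a) y := fun y => Set.ext fun z =>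
    ⟨fun ⟨g, hg⟩ => ⟨e g, hg⟩, fun ⟨g, hg⟩ => by obtain ⟨g, rfl⟩ := e.surjective g; exact ⟨g, hg⟩⟩
  obtain ⟨ι, h1, h2, h3⟩ := Rk.main (b := b) (c := c)
    ⟨fun g => r.adj (e g), fun g => r.fix (e g), r.srg, o b ▸ r.hb, o c ▸ r.hc, o b ▸ hb, o c ▸ hc⟩
  choose f f1 f2 using h2
  let φ : Ω ↪ ℕ := ⟨f, fun x y h => by rw [← f2 x, h, f2]⟩
  have f3 : ∀ i < 1782, φ (ι i) = i := fun i hi => h1 (f1 _) hi (f2 _)
  refine iso_Suz ((Perm.viaEmbeddingHom φ).comp G.subtype)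
    ((Perm.viaEmbeddingHom_injective φ).comp Subtype.val_injective) (fun g => ⟨fun i hi => ?_, fun i hi j hj => ?_⟩) ?_
  · exact Perm.viaEmbedding_apply_of_notMem _ _ _ fun ⟨y, hy⟩ => absurd (f1 y) (by rw [show f y = i from hy]; omega)
  · have k : ∀ i < 1782, (Perm.viaEmbeddingHom φ).comp G.subtype g i = f (g • ι i) := fun i hi => by
      conv_lhs => rw [← f3 i hi]
      exact Perm.viaEmbedding_apply _ _ _
    rw [k i hi, k j hj, ← h3 _ (f1 _) _ (f1 _), f2, f2, L0.HS.orbG_smul, h3 i hi j hj]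
  · rw [← (stabilizer G a).index_mul_card, index_stabilizer_of_transitive, Nat.card_eq_fintype_card, hΩ,
      ← Nat.card_congr e.toEquiv, cardH]

end Cfsg.Agent.H29.Sz
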